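import Cfsg.Agent.H150.AH.Same

/-!
# S2451: the sets of fixed chambers (helper150)

* `exists_fixed_nb` : a fixed chamber of an element which fixes another chamber has a fixed neighbour;
* `dn_one_of_panel` : the fixed chambers form a panel;
* `fx_conj`, `fx_eq_one`;
* `pn_pow`, `card_pow` : counting with one parameter.
-/

set_option autoImplicit false
set_option linter.unusedSectionVars false
set_option linter.unusedVariables false

open scoped Pointwise

namespace Cfsg.Agent.H150.AH

open Cfsg.Agent.Tits.Core Cfsg.Agent.Tits.Core.Bldg Cfsg.Agent.Tits.Exchange Cfsg.Agent.Tits Cfsg.Agent.FixBN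
open Cfsg.Agent.H197.Cls

variable {I : Type*} {M : CoxeterMatrix I} {W : Type*} [Group W] {cs : CoxeterSystem M W} {C : Type*}

local prefix:100 "ℓ" => cs.length

/-- each element of positive length has a left descent -/
theorem exists_left {w : W} (hw : w ≠ 1) :
    ∃ m w', w = cs.simple m * w' ∧ cs.length (cs.simple m * w') = cs.length (cs.simple m) + cs.length w' := by
  obtain ⟨ω, hω, rfl⟩ := cs.exists_isReduced w
  cases ω with
  | nil => exact absurd cs.wordProd_nil hw
  | cons m ω =>
    refine ⟨m, cs.wordProd ω, cs.wordProd_cons m ω, ?_⟩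
    have h1 : ℓ (cs.wordProd (m :: ω)) = (m :: ω).length := hω
    have h2 : ℓ (cs.wordProd ω) = ω.length := by
      have h3 : cs.IsReduced ω := by
        have := hω.drop 1
        rwa [List.drop_one, List.tail_cons] at this
      exact h3
    rw [← cs.wordProd_cons, h1, h2, cs.length_simple, List.length_cons, add_comm]

variable {Δ : Bldg cs C}

section Count

/-- the number of pairs at distance `w` -/
theorem pn_pow [Finite C] {q : ℕ} (hq : ∀ i, Δ.Param i q) (w : W) : pn Δ w = Nat.card C * q ^ ℓ w := by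
  obtain ⟨ω, hω, rfl⟩ := cs.exists_isReduced w
  have hlen : ℓ (cs.wordProd ω) = ω.length := hω
  rw [hlen]
  induction ω using List.reverseRecOn with
  | nil =>
    rw [cs.wordProd_nil, List.length_nil, pow_zero, mul_one]
    refine Nat.card_congr ⟨fun x => x.1.1, fun x => ⟨(x, x), Δ.δ_self x⟩, fun x => ?_, fun x => rfl⟩
    apply Subtype.ext
    exact Prod.ext rfl (Δ.eq_of_δ_eq_one x.2)
  | append_singleton ω i ih =>
    have hr' : cs.IsReduced ω := by
      have := hω.take ω.length
      rwa [List.take_left'] at this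
      rfl
    have h3 : ℓ (cs.wordProd ω) = ω.length := hr'
    have h4 : cs.wordProd (ω ++ [i]) = cs.wordProd ω * cs.simple i := by
      rw [cs.wordProd_append, cs.wordProd_singleton]
    rw [h4] at hlen ⊢
    rw [pn_mul_simple (hq i) (by rw [hlen, h3, List.length_append, List.length_singleton]; omega), ih hr' h3,
      List.length_append, List.length_singleton, pow_succ]
    ring

/-- the number of chambers -/
theorem card_pow [Finite C] [Fintype W] (x : C) {q : ℕ} (hq : ∀ i, Δ.Param i q) :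
    Nat.card C = ∑ w : W, q ^ ℓ w := by
  classical
  have : Nonempty C := ⟨x⟩
  have h1 : ∑ w : W, pn Δ w = Nat.card C * Nat.card C := by
    rw [← Nat.card_prod]
    have := Fintype.ofFinite C
    rw [Nat.card_eq_fintype_card, ← Finset.card_univ, Finset.card_eq_sum_card_fiberwise (t := Finset.univ)
      (f := fun z : C × C => Δ.δ z.1 z.2) (fun _ _ => Finset.mem_univ _)]
    refine Finset.sum_congr rfl fun w _ => ?_
    unfold pn
    rw [Nat.card_eq_fintype_card, Fintype.card_subtype]
  have h2 : Nat.card C * Nat.card C = Nat.card C * ∑ w : W, q ^ ℓ w := by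
    rw [← h1, Finset.mul_sum]
    exact Finset.sum_congr rfl fun w _ => pn_pow hq w
  exact Nat.eq_of_mul_eq_mul_left Nat.card_pos h2

end Count

variable {G : Type*} [Group G] [MulAction G C] {p : ℕ} (S : Sys Δ G p)

include S

theorem fix_between {x : G} {c d y : C} {v w : W} (hl : ℓ (v * w) = ℓ v + ℓ w) (hc : x • c = c) (hd : x • d = d)
    (h1 : Δ.δ c y = v) (h2 : Δ.δ y d = w) : x • y = y := by
  refine (Δ.between_unique hl h1 h2 ?_ ?_).symm
  · have := S.iso x c y
    rw [hc] at this
    rw [this, h1]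
  · have := S.iso x y d
    rw [hd] at this
    rw [this, h2]

/-- a fixed neighbour in the direction of a second fixed chamber -/
theorem exists_fixed_nb {x : G} {c d : C} (hc : x • c = c) (hd : x • d = d) (hne : c ≠ d) :
    ∃ m, ∃ e ∈ Δ.Pan m c, e ≠ c ∧ x • e = e ∧ ℓ (Δ.δ e d) < ℓ (Δ.δ c d) := by
  have h1 : Δ.δ c d ≠ 1 := fun h => hne (Δ.eq_of_δ_eq_one h)
  obtain ⟨m, w', e1, e2⟩ := exists_left (cs := cs) h1
  obtain ⟨y, hy1, hy2⟩ := Δ.exists_between e1 e2
  refine ⟨m, y, Δ.mem_Pan_of_δ hy1, (Δ.ne_of_δ_simple hy1).symm, fix_between S e2 hc hd hy1 hy2, ?_⟩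
  rw [hy2, e1, e2, cs.length_simple]
  omega

/-- if all fixed chambers have only fixed `k`-neighbours, they form one panel -/
theorem fixed_mem_pan {x : G} {k : I} (h : ∀ c, x • c = c → ∀ m, ∀ e ∈ Δ.Pan m c, e ≠ c → x • e = e → m = k) {c d : C}
    (hc : x • c = c) (hd : x • d = d) : d ∈ Δ.Pan k c := by
  generalize hn : ℓ (Δ.δ c d) = n
  induction n using Nat.strong_induction_on generalizing c with
  | _ n ih =>
    by_cases hne : c = d
    · rw [hne]; exact Δ.self_mem_Pan k d
    · obtain ⟨m, e, he1, he2, he3, he4⟩ := exists_fixed_nb S hc hd hne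
      have hm := h c hc m e he1 he2 he3
      subst hm
      have h1 := ih _ (by rw [← hn]; exact he4) he3 rfl
      exact Δ.mem_Pan_trans he1 h1

/-- the number of fixed chambers when they form a panel -/
theorem fx_of_panel [Finite C] {x : G} {k : I} {q : ℕ} (hq : Δ.Param k q)
    (h : ∀ c, x • c = c → ∀ m, ∀ e ∈ Δ.Pan m c, e ≠ c → x • e = e → m = k)
    (hk : ∀ c, x • c = c → ∀ e ∈ Δ.Pan k c, x • e = e) {c : C} (hc : x • c = c) : fx C x = q + 1 := by
  unfold fx
  rw [← hq c]
  exact Nat.card_congr (Equiv.subtypeEquivRight fun d => ⟨fun hd => fixed_mem_pan S h hc hd, fun hd => hk c hc d hd⟩)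

omit S in
theorem fx_conj (x g : G) : fx C (g * x * g⁻¹) = fx C x := by
  unfold fx
  refine Nat.card_congr ⟨fun c => ⟨g⁻¹ • c.1, ?_⟩, fun c => ⟨g • c.1, ?_⟩, fun c => ?_, fun c => ?_⟩
  · have h1 := c.2
    rw [mul_smul, mul_smul] at h1
    rw [eq_inv_smul_iff]
    exact h1
  · have h1 := c.2
    rw [mul_smul, mul_smul, inv_smul_smul, h1]
  · exact Subtype.ext (smul_inv_smul _ _)
  · exact Subtype.ext (inv_smul_smul _ _)

/-- an element which fixes `c` and no neighbour of `c` fixes one chamber only -/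
theorem fixed_unique {x : G} {c : C} (hc : x • c = c) (h : ∀ m, ∀ e ∈ Δ.Pan m c, x • e = e → e = c) {d : C}
    (hd : x • d = d) : d = c := by
  by_contra hne
  obtain ⟨m, e, he1, he2, he3, -⟩ := exists_fixed_nb S hc hd (Ne.symm hne)
  exact he2 (h m e he1 he3)

theorem fx_eq_one {x : G} {c : C} (hc : x • c = c) (h : ∀ m, ∀ e ∈ Δ.Pan m c, x • e = e → e = c) : fx C x = 1 := by
  unfold fx
  rw [Nat.card_eq_one_iff_unique]
  exact ⟨⟨fun a b => Subtype.ext ((fixed_unique S hc h a.2).trans (fixed_unique S hc h b.2).symm)⟩, ⟨⟨c, hc⟩⟩⟩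

omit S in
theorem eq_of_fx_eq_one {x : G} (h : fx C x = 1) {c d : C} (hc : x • c = c) (hd : x • d = d) : c = d := by
  unfold fx at h
  rw [Nat.card_eq_one_iff_unique] at h
  exact congrArg Subtype.val (h.1.elim (⟨c, hc⟩ : {c : C // x • c = c}) ⟨d, hd⟩)

/-- **Roles E and O on one panel**: a `p`-element `z = a b` fixing a chamber of displacement `v` with role E for one
of `a⁻¹`, `b` and role O for the other one at `m` fixes no other chamber of the `m`-panel. -/
theorem unique_of_roles [hp : Fact p.Prime] {a b : G} {m : I} {v : W} (hz : PE p (a * b))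
    (h : (RoleE Δ a⁻¹ m v ∧ RoleO Δ b m v) ∨ (RoleO Δ a⁻¹ m v ∧ RoleE Δ b m v)) {c : C}
    (hc : Δ.δ c (a⁻¹ • c) = v) (hbc : b • c = a⁻¹ • c) {e : C} (he : e ∈ Δ.Pan m c) (hze : (a * b) • e = e) : e = c := by
  by_contra hne
  have hzc : (a * b) • c = c := by rw [mul_smul, hbc, smul_inv_smul]
  have hall : ∀ d ∈ Δ.Pan m c, b • d = a⁻¹ • d := by
    intro d hd
    have h1 := fix_pan S (mem_U S hz hzc) he hne hze hd
    rw [mul_smul] at h1
    rw [eq_inv_smul_iff]
    exact h1
  rcases h with ⟨h1, h2⟩ | ⟨h1, h2⟩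
  · obtain ⟨d, ⟨hd, hd'⟩, -⟩ := h2 c (Or.inl (by rw [hbc]; exact hc))
    exact h1 d (by rw [← hall d hd]; exact hd')
  · obtain ⟨d, ⟨hd, hd'⟩, -⟩ := h1 c (Or.inl hc)
    exact h2 d (by rw [hall d hd]; exact hd')

end Cfsg.Agent.H150.AH
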