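import Cfsg.Agent.H150.AH.Quad

/-!
# S2451: mixed roles at a pair `m_ij = 3` (helper150)

`tri_false` : `E = {i, j}`, `m_ij = 3`, `w = m w_E` with `s_j m = m s_i`, `s_i m = m s_j` (the position of an `E`-residue
and its image when `w` commutes with `s_i` and `s_j`): if `w` is the only common displacement in `m W_E`, `a⁻¹` has role
1 at `j` and `b` has role 1 at `i`: contradiction.
-/

set_option autoImplicit false
set_option linter.unusedSectionVars false
set_option linter.unusedVariables false

open scoped Pointwise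

namespace Cfsg.Agent.H150.AH

open Cfsg.Agent.Tits.Core Cfsg.Agent.Tits.Core.Bldg Cfsg.Agent.Tits.Exchange Cfsg.Agent.Tits Cfsg.Agent.FixBN
open Cfsg.Agent.H197.Cls Cfsg.Agent.H330.ClassProd

variable {I : Type*} {M : CoxeterMatrix I} {W : Type*} [Group W] {cs : CoxeterSystem M W} {C : Type*}

local prefix:100 "ℓ" => cs.length

variable {Δ : Bldg cs C} {G : Type*} [Group G] [MulAction G C] {p : ℕ} (S : Sys Δ G p)

include S

/-- the displacements in the residue; `m` normalises `W_J` -/
theorem disp_mem' {J : Set I} {m : W} (hm : ∀ u ∈ WJ cs J, m⁻¹ * u * m ∈ WJ cs J) {x : G} {x0 d : C}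
    (h : m⁻¹ * Δ.δ x0 (x • x0) ∈ WJ cs J) (hd : d ∈ Δ.Res J x0) : m⁻¹ * Δ.δ d (x • d) ∈ WJ cs J := by
  have h1 : x • d ∈ Δ.Res J (x • x0) := S.smul_mem_Res hd
  obtain ⟨t, ht, e1⟩ := Δ.exists_mul_of_mem x0 (Δ.mem_Res.1 h1)
  obtain ⟨t', ht', e2⟩ := Δ.exists_mul_of_mem_left (x • d) (Δ.mem_Res.1 (Δ.mem_Res_symm hd))
  rw [e2, e1]
  set v := Δ.δ x0 (x • x0) with hv
  have e3 : m⁻¹ * (t' * (v * t)) = (m⁻¹ * t' * m) * (m⁻¹ * v) * t := by group
  rw [e3]
  exact mul_mem (mul_mem (hm t' ht') h) ht

/-- **The inequality**, general form: `w` commutes with `s_j`; `x` has role 1 at `j`; each chamber of displacement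
`w s_j` has a chamber with a displacement in `small` in its `i`-panel. -/
theorem gen_ineq [Finite C] {i j : I} {q r : ℕ} (hqi : Δ.Param i q) (hqj : Δ.Param j r) {w : W}
    (hcomm : cs.simple j * w = w * cs.simple j) (small : W → Prop) {x : G} {x0 : C}
    (hsmall : ∀ d, Δ.δ d (x • d) = w * cs.simple j → ∃ e ∈ Δ.Pan i d, small (Δ.δ e (x • e)))
    (hs1 : ¬ small w) (hs2 : ¬ small (w * cs.simple j)) (hr : Role1 Δ x j w) :
    Nat.card {d : C // d ∈ Δ.Res {i, j} x0 ∧ Δ.δ d (x • d) = w} * (q * r + q + 1) ≤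
      q * r * (Δ.Res {i, j} x0).ncard := by
  classical
  let R := Δ.Res {i, j} x0
  let Y : C → Prop := fun e => e ∈ R ∧ Δ.δ e (x • e) = w
  have hwne : w * cs.simple j ≠ w := fun h => simple_ne_one' cs j (mul_left_cancel (h.trans (mul_one w).symm))
  have hPanR : ∀ k, k = i ∨ k = j → ∀ e ∈ R, ∀ d ∈ Δ.Pan k e, d ∈ R := by
    intro k hk e he d hd
    refine Δ.mem_Res_trans he (Δ.Pan_subset_Res ?_ e hd)
    rcases hk with rfl | rfl <;> simp
  have hi : ∀ E, Y E → ∃ D ∈ Δ.Pan j E, Δ.δ D (x • D) = w * cs.simple j ∧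
      ∀ D' ∈ Δ.Pan j E, D' ≠ D → Y D' := by
    rintro E ⟨hE1, hE2⟩
    obtain ⟨D, ⟨h1, h2⟩, h3⟩ := hr E hE2
    refine ⟨D, h1, h2, fun D' hD' hne => ⟨hPanR j (Or.inr rfl) E hE1 D' hD', ?_⟩⟩
    rcases disp_adj S hcomm hE2 hD' with h4 | h4
    · exact h4
    · exact absurd (h3 D' ⟨hD', h4⟩) hne
  have hcard := HH.card S hqj (fun E hE => hE.2) hi
  let P : C → Prop := fun D => Δ.δ D (x • D) = w * cs.simple j ∧ ∃ E, Y E ∧ D ∈ Δ.Pan j E
  let Z : C → Prop := fun e => e ∈ R ∧ small (Δ.δ e (x • e))
  have hPR : ∀ D, P D → D ∈ R := by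
    rintro D ⟨-, E, hE, hD⟩
    exact hPanR j (Or.inr rfl) E hE.1 D hD
  have hex : ∀ D : {D // P D}, ∃ e : {e // Z e}, (e : C) ∈ Δ.Pan i D ∧ (D : C) ≠ e := by
    rintro ⟨D, hD⟩
    obtain ⟨e, he, he'⟩ := hsmall D hD.1
    refine ⟨⟨e, hPanR i (Or.inl rfl) D (hPR D hD) e he, he'⟩, he, ?_⟩
    intro h1
    have h1' : D = e := h1
    rw [← h1', hD.1] at he'
    exact hs2 he'
  choose g hg1 hg2 using hex
  have hPZ : Nat.card {D // P D} ≤ Nat.card {e // Z e} * q := by
    have h1 : Nat.card {z : {e // Z e} × C // z.2 ∈ Δ.Pan i z.1 ∧ z.2 ≠ z.1} = Nat.card {e // Z e} * q := by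
      rw [Nat.card_congr (Equiv.subtypeProdEquivSigmaSubtype
        (fun (e : {e // Z e}) (z : C) => z ∈ Δ.Pan i e ∧ z ≠ e))]
      have := Fintype.ofFinite {e // Z e}
      rw [Nat.card_sigma, Finset.sum_congr rfl (fun e _ => card_pan_ne hqi e.1), Finset.sum_const, Finset.card_univ,
        smul_eq_mul, ← Nat.card_eq_fintype_card]
    rw [← h1]
    refine Nat.card_le_card_of_injective (fun D : {D // P D} => (⟨(g D, D), Δ.mem_Pan_symm (hg1 D), hg2 D⟩ :
      {z : {e // Z e} × C // z.2 ∈ Δ.Pan i z.1 ∧ z.2 ≠ z.1})) ?_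
    intro D D' h
    exact Subtype.ext (congrArg (fun z => z.1.2) h)
  have hsum : Nat.card {d // Y d} + Nat.card {D // P D} + Nat.card {e // Z e} ≤ R.ncard := by
    have a1 : Nat.card {d // Y d} = ({d | Y d} : Set C).ncard := by rw [← Nat.card_coe_set_eq]; rfl
    have a2 : Nat.card {d // P d} = ({d | P d} : Set C).ncard := by rw [← Nat.card_coe_set_eq]; rfl
    have a3 : Nat.card {d // Z d} = ({d | Z d} : Set C).ncard := by rw [← Nat.card_coe_set_eq]; rfl
    rw [a1, a2, a3, ← Set.ncard_union_eq ?_ (Set.toFinite _) (Set.toFinite _),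
      ← Set.ncard_union_eq ?_ (Set.toFinite _) (Set.toFinite _)]
    · refine Set.ncard_le_ncard ?_ (Set.toFinite _)
      rintro d ((hd | hd) | hd)
      · exact hd.1
      · exact hPR d hd
      · exact hd.1
    · rw [Set.disjoint_left]
      rintro d (hd | hd) hd'
      · have hd1 : Δ.δ d (x • d) = w := hd.2
        have h2 : small (Δ.δ d (x • d)) := hd'.2
        rw [hd1] at h2
        exact hs1 h2
      · have hd1 : Δ.δ d (x • d) = w * cs.simple j := hd.1
        have h2 : small (Δ.δ d (x • d)) := hd'.2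
        rw [hd1] at h2
        exact hs2 h2
    · rw [Set.disjoint_left]
      rintro d hd hd'
      have hd1 : Δ.δ d (x • d) = w := hd.2
      have hd2 : Δ.δ d (x • d) = w * cs.simple j := hd'.1
      rw [hd1] at hd2
      exact hwne hd2.symm
  change Nat.card {d // Y d} * (q * r + q + 1) ≤ q * r * R.ncard
  have hcard' : Nat.card {d // Y d} = Nat.card {D // P D} * r := hcard
  rw [hcard'] at hsum ⊢
  generalize Nat.card {D // P D} = P' at *
  generalize Nat.card {e // Z e} = Z' at *
  generalize R.ncard = N at *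
  have h1 : P' * (q * r + q + 1) ≤ q * N := by
    calc P' * (q * r + q + 1) = q * (P' * r + P') + P' := by ring
      _ ≤ q * (P' * r + P') + Z' * q := by omega
      _ = q * (P' * r + P' + Z') := by ring
      _ ≤ q * N := Nat.mul_le_mul_left q hsum
  calc P' * r * (q * r + q + 1) = r * (P' * (q * r + q + 1)) := by ring
    _ ≤ r * (q * N) := Nat.mul_le_mul_left r h1
    _ = q * r * N := by ring

/-- the panel of type `i` of a chamber of noncommuting displacement, the longest of the four: there is a chamber with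
displacement `s_i v s_i` or `s_i v` -/
theorem exists_gate_small {i : I} {x : G} {d : C} {v : W} (hd : Δ.δ d (x • d) = v)
    (h1 : ℓ (cs.simple i * v) < ℓ v) (h2 : ℓ (v * cs.simple i) < ℓ v)
    (hne : cs.simple i * v ≠ v * cs.simple i) :
    ∃ e ∈ Δ.Pan i d, Δ.δ e (x • e) = cs.simple i * v * cs.simple i ∨ Δ.δ e (x • e) = cs.simple i * v := by
  have hss : cs.simple i * cs.simple i = 1 := cs.simple_mul_simple_self i
  obtain ⟨x0, hx0, y0, hy0, h⟩ := exists_np (Δ := Δ) (x := d) (y := x • d) (i := i) (by rw [hd]; exact hne)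
  have hxe : x • x0 ∈ Δ.Pan i y0 := by
    rw [Δ.Pan_eq_of_mem hy0]
    exact smul_mem_Pan S hx0
  have hdp : d ∈ Δ.Pan i x0 := Δ.mem_Pan_symm hx0
  have hxdp : x • d ∈ Δ.Pan i y0 := Δ.mem_Pan_symm hy0
  have hL := h.left
  have hR := h.right
  have hn : Δ.δ x0 y0 = cs.simple i * v * cs.simple i := by
    by_cases k1 : d = x0
    · by_cases k2 : x • d = y0
      · exfalso
        rw [← k1, ← k2, hd] at hR
        omega
      · exfalso
        have h3 := h.dR hxdp k2
        rw [← k1, hd] at h3
        have h4 : cs.simple i * Δ.δ x0 y0 = cs.simple i * v * cs.simple i := by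
          rw [← k1, h3, mul_assoc, mul_assoc, hss, mul_one]
        have h5 : ℓ v = ℓ (Δ.δ x0 y0) + 1 := by
          have := cs.length_mul_simple (Δ.δ d y0) i
          rw [← h3] at this
          rw [← k1] at hR ⊢
          rw [← h3] at hR
          omega
        -- `δ x0 y0 = v s_i`, `s_i v s_i` is longer, but `s_i v < v`
        have h6 := h.len
        rw [← k1, mul_assoc, ← h3, k1] at h6
        omega
    · by_cases k2 : x • d = y0
      · exfalso
        have h3 := h.dL hdp k1
        rw [← k2, hd] at h3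
        have h6 := h.len
        rw [← k2, ← h3] at h6
        have h5 : ℓ v = ℓ (Δ.δ x0 (x • d)) + 1 := by
          have := cs.length_simple_mul (Δ.δ x0 (x • d)) i
          rw [← h3] at this
          rw [← k2, ← h3] at hL
          omega
        omega
      · have h3 := h.dLR hdp k1 hxdp k2
        rw [hd] at h3
        rw [h3]
        calc Δ.δ x0 y0 = (cs.simple i * cs.simple i) * Δ.δ x0 y0 * (cs.simple i * cs.simple i) := by
              rw [hss, one_mul, mul_one]
          _ = _ := by group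
  refine ⟨x0, hx0, ?_⟩
  by_cases h6 : x • x0 = y0
  · left; rw [h6, hn]
  · right; rw [h.dR hxe h6, hn, mul_assoc, hss, mul_one]

/-- the inequality for `m_ij = 3` -/
theorem tri_ineq [Finite C] {i j : I} {q r : ℕ} (hqi : Δ.Param i q) (hqj : Δ.Param j r) {w : W} {k : ℕ}
    (hwi : cs.simple i * w = w * cs.simple i) (hwj : cs.simple j * w = w * cs.simple j) (l3 : ℓ w = k + 3)
    (l2 : ℓ (w * cs.simple j) = k + 2) (m1 : ℓ (w * (cs.simple i * cs.simple j)) = k + 1)
    (m1' : ℓ (w * (cs.simple j * cs.simple i)) = k + 1)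
    (m0 : ℓ (w * (cs.simple i * cs.simple j * cs.simple i)) = k)
    (hne : cs.simple i * cs.simple j ≠ cs.simple j * cs.simple i) {x : G} {x0 : C} (hr : Role1 Δ x j w) :
    Nat.card {d : C // d ∈ Δ.Res {i, j} x0 ∧ Δ.δ d (x • d) = w} * (q * r + q + 1) ≤
      q * r * (Δ.Res {i, j} x0).ncard := by
  have e1 : cs.simple i * (w * cs.simple j) = w * (cs.simple i * cs.simple j) := by
    rw [← mul_assoc, hwi, mul_assoc]
  have e2 : w * cs.simple j * cs.simple i = w * (cs.simple j * cs.simple i) := by rw [mul_assoc]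
  have e3 : cs.simple i * (w * cs.simple j) * cs.simple i = w * (cs.simple i * cs.simple j * cs.simple i) := by
    rw [e1, mul_assoc]
  refine gen_ineq S hqi hqj hwj (fun u => u = w * (cs.simple i * cs.simple j * cs.simple i) ∨
    u = w * (cs.simple i * cs.simple j)) ?_ ?_ ?_ hr
  · intro d hd
    have h1 := exists_gate_small S (i := i) hd (by rw [e1, m1, l2]; omega) (by rw [e2, m1', l2]; omega)
      (by rw [e1, e2]; exact fun h => hne (mul_left_cancel h))
    rw [e3, e1] at h1
    exact h1
  · rintro (h | h) <;> have := congrArg cs.length h <;> omega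
  · rintro (h | h) <;> have := congrArg cs.length h <;> omega

section Three

omit S

/-- the six elements -/
theorem mem_WJ_three {i j : I} (hm : M i j = 3) {u : W} (hu : u ∈ WJ cs {i, j}) :
    u = 1 ∨ u = cs.simple i ∨ u = cs.simple j ∨ u = cs.simple i * cs.simple j ∨ u = cs.simple j * cs.simple i ∨
      u = cs.simple i * cs.simple j * cs.simple i := by
  have hb := Generic.braid_three cs hm
  obtain ⟨ω, hω, hred, rfl⟩ := exists_reduced_of_mem_WJ cs hu
  clear hu hred
  induction ω using List.reverseRecOn with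
  | nil => left; rw [cs.wordProd_nil]
  | append_singleton ω k ih =>
    have hk : k = i ∨ k = j := by
      have := hω k (by simp)
      simpa using this
    have h1 := ih (fun a ha => hω a (by simp [ha]))
    rw [cs.wordProd_append, cs.wordProd_singleton]
    rcases hk with rfl | rfl
    · rcases h1 with h | h | h | h | h | h <;> rw [h]
      · right; left; rw [one_mul]
      · left; rw [cs.simple_mul_simple_self]
      · right; right; right; right; left; rfl
      · right; right; right; right; right; rfl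
      · right; right; left; rw [mul_assoc, cs.simple_mul_simple_self, mul_one]
      · right; right; right; left; rw [mul_assoc, cs.simple_mul_simple_self, mul_one]
    · rcases h1 with h | h | h | h | h | h <;> rw [h]
      · right; right; left; rw [one_mul]
      · right; right; right; left; rfl
      · left; rw [cs.simple_mul_simple_self]
      · right; left; rw [mul_assoc, cs.simple_mul_simple_self, mul_one]
      · right; right; right; right; right; rw [hb]
      · right; right; right; right; left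
        rw [hb, mul_assoc, cs.simple_mul_simple_self, mul_one]

variable [Finite I] [Finite W] [Finite C] {i j : I} {q r : ℕ}

theorem cn_iji3 (hij : i ≠ j) (hm : M i j = 3) (hqi : Δ.Param i q) (hqj : Δ.Param j r) (x : C) :
    cn Δ x (cs.simple i * cs.simple j * cs.simple i) = q * r * q := by
  rw [cn_mul_simple hqi x (by rw [Generic.length_three cs hij (by omega), Generic.length_two cs hij]; omega),
    cn_ij hij hqi hqj]

/-- the parameters of the two nodes are equal -/
theorem param_eq (hth : Δ.Thick) (hij : i ≠ j) (hm : M i j = 3) (hqi : Δ.Param i q) (hqj : Δ.Param j r) (x : C) :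
    q = r := by
  have hm' : M j i = 3 := by rw [M.symmetric]; exact hm
  have h1 := cn_iji3 hij hm hqi hqj x
  have h2 := cn_iji3 hij.symm hm' hqj hqi x
  rw [Generic.braid_three cs hm, h2] at h1
  have hq0 := param_pos hth hqi x
  have hr0 := param_pos hth hqj x
  have h3 : r * q * r = r * q * q := by rw [h1]; ring
  exact (Nat.eq_of_mul_eq_mul_left (Nat.mul_pos hr0 hq0) h3).symm

/-- the number of chambers of the residue -/
theorem card_Res_three (hij : i ≠ j) (hm : M i j = 3) (hqi : Δ.Param i q) (hqj : Δ.Param j r) (x : C) :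
    (Δ.Res {i, j} x).ncard ≤ 1 + q + r + q * r + r * q + q * r * q := by
  have hm' : M j i = 3 := by rw [M.symmetric]; exact hm
  let A : W → Set C := fun u => {y | Δ.δ x y = u}
  have hA : ∀ u, (A u).ncard = cn Δ x u := fun u => by
    rw [← Nat.card_coe_set_eq]; rfl
  have h1 : Δ.Res {i, j} x ⊆ A 1 ∪ A (cs.simple i) ∪ A (cs.simple j) ∪ A (cs.simple i * cs.simple j) ∪
      A (cs.simple j * cs.simple i) ∪ A (cs.simple i * cs.simple j * cs.simple i) := by
    intro y hy
    simp only [A, Set.mem_union, Set.mem_ofPred_eq]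
    have h2 := mem_WJ_three hm (Δ.mem_Res.1 hy)
    tauto
  have h2 := Set.ncard_le_ncard h1 (Set.toFinite _)
  have h3 := Set.ncard_union_le (A 1) (A (cs.simple i))
  have h4 := Set.ncard_union_le (A 1 ∪ A (cs.simple i)) (A (cs.simple j))
  have h5 := Set.ncard_union_le (A 1 ∪ A (cs.simple i) ∪ A (cs.simple j)) (A (cs.simple i * cs.simple j))
  have h6 := Set.ncard_union_le (A 1 ∪ A (cs.simple i) ∪ A (cs.simple j) ∪ A (cs.simple i * cs.simple j))
    (A (cs.simple j * cs.simple i))
  have h7 := Set.ncard_union_le (A 1 ∪ A (cs.simple i) ∪ A (cs.simple j) ∪ A (cs.simple i * cs.simple j) ∪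
    A (cs.simple j * cs.simple i)) (A (cs.simple i * cs.simple j * cs.simple i))
  simp only [hA] at h3 h4 h5 h6 h7
  rw [cn_one, cn_i hqi] at h3
  rw [cn_i hqj] at h4
  rw [cn_ij hij hqi hqj] at h5
  rw [cn_ij hij.symm hqj hqi] at h6
  rw [cn_iji3 hij hm hqi hqj] at h7
  omega

/-- the number of the pairs -/
theorem card_XX3 (hij : i ≠ j) (hm3 : M i j = 3) {q r : ℕ} (hqi : Δ.Param i q) (hqj : Δ.Param j r) {m : W}
    (hmJ : ∀ u ∈ WJ cs {i, j}, m⁻¹ * u * m ∈ WJ cs {i, j}) (hadd : ∀ u ∈ WJ cs {i, j}, ℓ (m * u) = ℓ m + ℓ u) {x y : C}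
    (hxy : m⁻¹ * Δ.δ x y ∈ WJ cs {i, j}) :
    (Δ.Res {i, j} x).ncard * (q * r * q) ≤
      Nat.card (XX Δ {i, j} x y (m * (cs.simple i * cs.simple j * cs.simple i))) := by
  classical
  have hsi := Generic.simple_mem_left cs i j
  have hsj := Generic.simple_mem_right cs i j
  have hwEm : cs.simple i * cs.simple j * cs.simple i ∈ WJ cs {i, j} := mul_mem (mul_mem hsi hsj) hsi
  have hex : ∀ d : Δ.Res {i, j} x, ∃ e ∈ Δ.Res {i, j} y, Δ.δ (d : C) e = m := by
    rintro ⟨d, hd⟩
    obtain ⟨t, ht, e1⟩ := Δ.exists_mul_of_mem_left y (Δ.mem_Res.1 (Δ.mem_Res_symm hd))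
    set v := m⁻¹ * Δ.δ x y with hv
    have e2 : Δ.δ d y = m * ((m⁻¹ * t * m) * v) := by
      rw [e1, show Δ.δ x y = m * v by rw [hv]; group]
      group
    have hu : (m⁻¹ * t * m) * v ∈ WJ cs {i, j} := mul_mem (hmJ t ht) hxy
    obtain ⟨e, he1, he2⟩ := Δ.exists_between e2 (hadd _ hu)
    exact ⟨e, Δ.mem_Res_symm (Δ.mem_Res.2 (by rw [he2]; exact hu)), he1⟩
  choose f hf1 hf2 using hex
  have h1 : Nat.card {z : Δ.Res {i, j} x × C // Δ.δ (f z.1) z.2 =
      cs.simple i * cs.simple j * cs.simple i} = (Δ.Res {i, j} x).ncard * (q * r * q) := by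
    rw [Nat.card_congr (Equiv.subtypeProdEquivSigmaSubtype (fun (d : Δ.Res {i, j} x) (z : C) => Δ.δ (f d) z =
      cs.simple i * cs.simple j * cs.simple i))]
    have := Fintype.ofFinite (Δ.Res {i, j} x)
    have h2 : ∀ d ∈ (Finset.univ : Finset (Δ.Res {i, j} x)), Nat.card {z : C // Δ.δ (f d) z =
        cs.simple i * cs.simple j * cs.simple i} = q * r * q :=
      fun d _ => cn_iji3 hij hm3 hqi hqj (f d)
    rw [Nat.card_sigma, Finset.sum_congr rfl h2, Finset.sum_const,
      Finset.card_univ, smul_eq_mul, ← Nat.card_eq_fintype_card, Nat.card_coe_set_eq]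
  rw [← h1]
  have : Finite (XX Δ {i, j} x y (m * (cs.simple i * cs.simple j * cs.simple i))) := Subtype.finite
  refine Nat.card_le_card_of_injective (fun z => ⟨(z.1.1, z.1.2), z.1.1.2, ?_, ?_⟩) ?_
  · refine Δ.mem_Res_trans (hf1 z.1.1) (Δ.mem_Res.2 ?_)
    rw [z.2]
    exact hwEm
  · exact Δ.δ_mul_of (hf2 z.1.1) z.2 (hadd _ hwEm)
  · intro z z' h
    have h2 := congrArg (fun t => t.1.1) h
    have h3 := congrArg (fun t => t.1.2) h
    exact Subtype.ext (Prod.ext (Subtype.ext h2) h3)

include S

variable [hp : Fact p.Prime]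

/-- **Mixed roles at a pair `m_ij = 3`.** -/
theorem tri_false [Finite G] (hth : Δ.Thick) {a b : G} (hab : Good p a b) {i j : I} (hij : i ≠ j) (hm3 : M i j = 3)
    {w : W} (hwi : cs.simple i * w = w * cs.simple i) (hwj : cs.simple j * w = w * cs.simple j)
    (hli : ℓ (w * cs.simple i) < ℓ w) (hlj : ℓ (w * cs.simple j) < ℓ w) (hmem : w ∈ Dis Δ a b)
    (hmin : ∀ u ∈ WJ cs {i, j}, w * u ∈ Dis Δ a b → u = 1)
    (ha : Role1 Δ a⁻¹ j w) (hb : Role1 Δ b i w) : False := by
  classical
  have hm3' : M j i = 3 := by rw [M.symmetric]; exact hm3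
  have hss : cs.simple i * cs.simple i = 1 := cs.simple_mul_simple_self i
  have htt : cs.simple j * cs.simple j = 1 := cs.simple_mul_simple_self j
  have hsi := Generic.simple_mem_left cs i j
  have hsj := Generic.simple_mem_right cs i j
  have hbr := Generic.braid_three cs hm3
  set wE := cs.simple i * cs.simple j * cs.simple i with hwE
  have hwEm : wE ∈ WJ cs {i, j} := mul_mem (mul_mem hsi hsj) hsi
  have hEE : wE * wE = 1 := by
    rw [hwE]
    calc cs.simple i * cs.simple j * cs.simple i * (cs.simple i * cs.simple j * cs.simple i)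
        = cs.simple i * cs.simple j * (cs.simple i * cs.simple i) * (cs.simple j * cs.simple i) := by group
      _ = cs.simple i * (cs.simple j * cs.simple j) * cs.simple i := by rw [hss, mul_one]; group
      _ = 1 := by rw [htt, mul_one, hss]
  -- `s_i w_E = w_E s_j`, `s_j w_E = w_E s_i`
  have hiE : cs.simple i * wE = wE * cs.simple j := by
    rw [hbr]
    calc cs.simple i * (cs.simple j * cs.simple i * cs.simple j)
        = (cs.simple i * cs.simple j * cs.simple i) * cs.simple j := by group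
      _ = (cs.simple j * cs.simple i * cs.simple j) * cs.simple j := by rw [← hwE, hbr]
  have hjE : cs.simple j * wE = wE * cs.simple i := by
    conv_lhs => rw [hwE]
    calc cs.simple j * (cs.simple i * cs.simple j * cs.simple i)
        = (cs.simple j * cs.simple i * cs.simple j) * cs.simple i := by group
      _ = wE * cs.simple i := by rw [← hbr]
  obtain ⟨m, hm⟩ : ∃ m, m = w * wE := ⟨_, rfl⟩
  have hw : w = m * wE := by rw [hm, mul_assoc, hEE, mul_one]
  -- `w` is the longest element of its coset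
  have F : OppRes.Cox cs := inferInstance
  have hminR : IsMinR cs {i, j} m := by
    obtain ⟨m', hm', v, hv, hvw⟩ := exists_isMinR cs {i, j} w
    have h1 : ∀ k ∈ ({i, j} : Set I), ℓ (v * cs.simple k) < ℓ v := by
      intro k hk
      have h2 : ℓ (w * cs.simple k) < ℓ w := by
        rcases hk with rfl | hk
        · exact hli
        · rw [Set.mem_singleton_iff] at hk
          subst hk
          exact hlj
      rw [hvw, mul_assoc, hm' _ (mul_mem hv (simple_mem_WJ cs hk)), hm' v hv] at h2
      omega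
    have h3 : v = wE := by
      rw [F.eq_wJ_of_descents hv h1, Generic.wJ_three cs hij hm3]
    have h4 : m' = m := by
      rw [hm, hvw, h3, mul_assoc, hEE, mul_one]
    rw [← h4]
    exact hm'
  have hadd : ∀ u ∈ WJ cs {i, j}, ℓ (m * u) = ℓ m + ℓ u := hminR
  -- `m⁻¹ s_i m = s_j`
  have hmi : m⁻¹ * cs.simple i * m = cs.simple j := by
    have h1 : cs.simple i * m = m * cs.simple j := by
      rw [hm]
      calc cs.simple i * (w * wE) = (cs.simple i * w) * wE := by group
        _ = w * (cs.simple i * wE) := by rw [hwi]; group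
        _ = w * wE * cs.simple j := by rw [hiE]; group
    rw [mul_assoc, h1, inv_mul_cancel_left]
  have hmj : m⁻¹ * cs.simple j * m = cs.simple i := by
    have h1 : cs.simple j * m = m * cs.simple i := by
      rw [hm]
      calc cs.simple j * (w * wE) = (cs.simple j * w) * wE := by group
        _ = w * (cs.simple j * wE) := by rw [hwj]; group
        _ = w * wE * cs.simple i := by rw [hjE]; group
    rw [mul_assoc, h1, inv_mul_cancel_left]
  have hmJ : ∀ u ∈ WJ cs {i, j}, m⁻¹ * u * m ∈ WJ cs {i, j} := by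
    intro u hu
    rw [WJ] at hu
    induction hu using Subgroup.closure_induction with
    | mem x hx =>
      obtain ⟨k, hk, rfl⟩ := hx
      rcases hk with rfl | hk
      · rw [hmi]; exact hsj
      · rw [Set.mem_singleton_iff] at hk
        subst hk
        rw [hmj]; exact hsi
    | one => rw [mul_one, inv_mul_cancel]; exact one_mem _
    | mul x y hx hy ihx ihy =>
      have e : m⁻¹ * (x * y) * m = (m⁻¹ * x * m) * (m⁻¹ * y * m) := by group
      rw [e]; exact mul_mem ihx ihy
    | inv x hx ihx =>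
      have e : m⁻¹ * x⁻¹ * m = (m⁻¹ * x * m)⁻¹ := by group
      rw [e]; exact inv_mem ihx
  obtain ⟨g, x0, hx0, hgb⟩ := exists_pair S hth hmem
  have hab' := hab.conjR g
  have hb' := hb.conj S g
  rw [← dis_conj S g] at hmin hmem
  set b' := g * b * g⁻¹ with hb'def
  have : Nonempty C := ⟨x0⟩
  obtain ⟨q, hq⟩ := exists_param S hth i
  obtain ⟨r, hr⟩ := exists_param S hth j
  have hqr := param_eq hth hij hm3 hq hr x0
  have hq0 := param_pos hth hq x0
  subst hqr
  have h0 : m⁻¹ * Δ.δ x0 (a⁻¹ • x0) ∈ WJ cs {i, j} := by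
    rw [hx0, hw, inv_mul_cancel_left]
    exact hwEm
  have h1 := local_count S hth hab' hx0 hgb (J := {i, j}) (fun d hd hdd => by
    have h2 := disp_mem' S hmJ h0 hd
    have h3 : w * (wE * (m⁻¹ * Δ.δ d (a⁻¹ • d))) = Δ.δ d (a⁻¹ • d) := by
      rw [← mul_assoc, ← hm, mul_inv_cancel_left]
    have h4 := hmin _ (mul_mem hwEm h2) (by rw [h3]; exact hdd)
    rw [h4, mul_one] at h3
    exact h3.symm)
  have h2 := card_XX3 hij hm3 hq hr hmJ hadd h0
  rw [← hwE, ← hw] at h2
  -- the inequality, for `x` of role 1 at `j`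
  have hlen : ∀ u ∈ WJ cs {i, j}, ℓ (w * u) = ℓ m + ℓ (wE * u) := by
    intro u hu
    rw [hw, mul_assoc, hadd _ (mul_mem hwEm hu)]
  have l2 : ℓ (w * cs.simple j) = ℓ m + 2 := by
    rw [hlen _ hsj, ← hiE, hwE]
    have e : cs.simple i * (cs.simple i * cs.simple j * cs.simple i) = cs.simple j * cs.simple i := by
      rw [mul_assoc, ← mul_assoc (cs.simple i), ← mul_assoc, hss, one_mul]
    rw [e, Generic.length_two cs hij.symm]
  have l2' : ℓ (w * cs.simple i) = ℓ m + 2 := by
    rw [hlen _ hsi, ← hjE, hbr]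
    have e : cs.simple j * (cs.simple j * cs.simple i * cs.simple j) = cs.simple i * cs.simple j := by
      rw [mul_assoc, ← mul_assoc (cs.simple j), ← mul_assoc, htt, one_mul]
    rw [e, Generic.length_two cs hij]
  have l3 : ℓ w = ℓ m + 3 := by
    rw [hw, hadd _ hwEm, hwE, Generic.length_three cs hij (by omega)]
  have l2E : ∀ u, ℓ (w * u) = ℓ (m * (wE * u)) := fun u => by rw [hw, mul_assoc]
  have m1 : ℓ (w * (cs.simple i * cs.simple j)) = ℓ m + 1 := by
    have e : wE * (cs.simple i * cs.simple j) = cs.simple i := by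
      rw [hwE]
      calc cs.simple i * cs.simple j * cs.simple i * (cs.simple i * cs.simple j)
          = cs.simple i * cs.simple j * (cs.simple i * cs.simple i) * cs.simple j := by group
        _ = cs.simple i * (cs.simple j * cs.simple j) := by rw [hss, mul_one]; group
        _ = cs.simple i := by rw [htt, mul_one]
    rw [l2E, e, hadd _ hsi, cs.length_simple]
  have m1' : ℓ (w * (cs.simple j * cs.simple i)) = ℓ m + 1 := by
    have e : wE * (cs.simple j * cs.simple i) = cs.simple j := by
      rw [hbr]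
      calc cs.simple j * cs.simple i * cs.simple j * (cs.simple j * cs.simple i)
          = cs.simple j * cs.simple i * (cs.simple j * cs.simple j) * cs.simple i := by group
        _ = cs.simple j * (cs.simple i * cs.simple i) := by rw [htt, mul_one]; group
        _ = cs.simple j := by rw [hss, mul_one]
    rw [l2E, e, hadd _ hsj, cs.length_simple]
  have m0 : ℓ (w * (cs.simple i * cs.simple j * cs.simple i)) = ℓ m := by
    rw [← hwE, ← hm]
  have m0' : ℓ (w * (cs.simple j * cs.simple i * cs.simple j)) = ℓ m := by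
    rw [← hbr, ← hm]
  have hne : cs.simple i * cs.simple j ≠ cs.simple j * cs.simple i := by
    intro h
    have h5 := Generic.length_three cs hij (by omega : M i j ≠ 2)
    rw [h, mul_assoc, hss, mul_one, cs.length_simple] at h5
    omega
  have hA := tri_ineq S hq hr hwi hwj l3 l2 m1 m1' m0 hne (x0 := x0) ha
  have hB := tri_ineq S hr hq hwj hwi l3 l2' m1' m1 m0' hne.symm (x := b') (x0 := x0) hb'
  rw [Set.pair_comm j i] at hB
  have hN := card_Res_three (Δ := Δ) hij hm3 hq hr x0
  have hNpos : 0 < (Δ.Res {i, j} x0).ncard := by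
    rw [Set.ncard_pos (Set.toFinite _)]
    exact ⟨x0, Δ.self_mem_Res _ x0⟩
  have h3 := h2.trans h1
  generalize (Δ.Res {i, j} x0).ncard = N at *
  generalize Nat.card {d : C // d ∈ Δ.Res {i, j} x0 ∧ Δ.δ d (a⁻¹ • d) = w} = nA at *
  generalize Nat.card {d : C // d ∈ Δ.Res {i, j} x0 ∧ Δ.δ d (b' • d) = w} = nB at *
  have h4 : (N * (q * q * q)) * ((q * q + q + 1) * (q * q + q + 1)) ≤ (N * (q * q * q)) * (q * N) := by
    calc (N * (q * q * q)) * ((q * q + q + 1) * (q * q + q + 1))
        ≤ (nA * nB) * ((q * q + q + 1) * (q * q + q + 1)) := Nat.mul_le_mul_right _ h3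
      _ = (nA * (q * q + q + 1)) * (nB * (q * q + q + 1)) := by ring
      _ ≤ (q * q * N) * (q * q * N) := Nat.mul_le_mul hA hB
      _ = (N * (q * q * q)) * (q * N) := by ring
  have h5 : 0 < N * (q * q * q) := by positivity
  have h6 := Nat.le_of_mul_le_mul_left h4 h5
  have h7 : q * N ≤ q * (1 + q + q + q * q + q * q + q * q * q) := Nat.mul_le_mul_left q hN
  have h8 : q * (1 + q + q + q * q + q * q + q * q * q) = (q * q + q) * (q * q + q + 1) := by ring
  have h9 : (q * q + q + 1) * (q * q + q + 1) = (q * q + q) * (q * q + q + 1) + (q * q + q + 1) := by ring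
  rw [h8] at h7
  rw [h9] at h6
  omega

end Three

end Cfsg.Agent.H150.AH
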