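import Cfsg.Agent.H150.AH.WtClass

/-!
# S2451: a simple reflection which commutes with no common displacement (helper150)
-/

set_option autoImplicit false
set_option linter.unusedSectionVars false
set_option linter.unusedVariables false

open scoped Pointwise

namespace Cfsg.Agent.H150.AH

open Cfsg.Agent.Tits.Core Cfsg.Agent.Tits.Core.Bldg Cfsg.Agent.Tits.Exchange Cfsg.Agent.Tits Cfsg.Agent.FixBN
open Cfsg.Agent.H197.Cls Cfsg.Agent.H330.ClassProd

theorem good_of_allConj {G : Type*} [Group G] {p : ℕ} {a b c : G} (hc : AllConj a b c) (hpe : PE p c) :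
    Good p a b := by
  intro g
  have h2 := hc 1 g
  have e : 1 * a * 1⁻¹ * (g * b * g⁻¹) = a * (g * b * g⁻¹) := by group
  rw [e] at h2
  obtain ⟨h, hh⟩ := isConj_iff.1 h2
  rw [← hh]
  exact hpe.conj h

variable {I : Type*} {M : CoxeterMatrix I} {W : Type*} [Group W] {cs : CoxeterSystem M W} {C : Type*}

local prefix:100 "ℓ" => cs.length

variable {Δ : Bldg cs C} {G : Type*} [Group G] [MulAction G C]

/-- double counting of adjacent pairs -/
theorem card_adj [Finite C] {i : I} {q : ℕ} (hq : Δ.Param i q) {α : Type*} [Finite α] (T : α × C → Prop) :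
    Nat.card {x : (α × C) × C // T x.1 ∧ x.2 ∈ Δ.Pan i x.1.2} = Nat.card {x : α × C // T x} * (q + 1) := by
  classical
  have e : {x : (α × C) × C // T x.1 ∧ x.2 ∈ Δ.Pan i x.1.2} ≃ {z : {x : α × C // T x} × C // z.2 ∈ Δ.Pan i z.1.1.2} :=
    { toFun := fun x => ⟨(⟨x.1.1, x.2.1⟩, x.1.2), x.2.2⟩
      invFun := fun z => ⟨(z.1.1.1, z.1.2), z.1.1.2, z.2⟩
      left_inv := fun x => rfl
      right_inv := fun x => rfl }
  rw [Nat.card_congr (e.trans (Equiv.subtypeProdEquivSigmaSubtype (fun (x : {x : α × C // T x}) (y : C) =>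
    y ∈ Δ.Pan i x.1.2)))]
  have := Fintype.ofFinite {x : α × C // T x}
  rw [Nat.card_sigma, Finset.sum_congr rfl (fun x _ => hq x.1.2), Finset.sum_const, Finset.card_univ,
    smul_eq_mul, ← Nat.card_eq_fintype_card]

variable {p : ℕ} (S : Sys Δ G p)

include S

variable [hp : Fact p.Prime] [F : OppRes.Cox cs] [Finite C]

/-- the gate of the panel of a fixed chamber -/
theorem exists_gate (hth : Δ.Thick) {a b : G} (hab : Good p a b) {j : I}
    (hfree : ∀ w ∈ Dis Δ a b, cs.simple j * w ≠ w * cs.simple j) {g : G} {x : C}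
    (hx : (a * (g * b * g⁻¹)) • x = x) :
    ∃ x0 ∈ Δ.Pan j x, (a * (g * b * g⁻¹)) • x0 = x0 ∧
      ¬ ℓ (cs.simple j * Δ.δ x0 (a⁻¹ • x0)) < ℓ (Δ.δ x0 (a⁻¹ • x0)) ∧
      ∀ y ∈ Δ.Pan j x, y ≠ x0 → ℓ (cs.simple j * Δ.δ y (a⁻¹ • y)) < ℓ (Δ.δ y (a⁻¹ • y)) := by
  have h1 : (g * b * g⁻¹) • x = a⁻¹ • x := by
    rw [mul_smul] at hx
    rw [eq_inv_smul_iff]; exact hx
  have h2 : Δ.δ x ((g * b * g⁻¹) • x) ∈ Dis Δ a b := by
    have := mem_dis (Δ := Δ) S h1
    rwa [dis_conj S] at this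
  obtain ⟨x0, hx0, y0, hy0, h, h3, h4, -⟩ := lemY_pair S hth (hab.conjR g) h1 (i := j) (hfree _ h2)
  have h5 : a⁻¹ • x0 = y0 := by rw [inv_smul_eq_iff, h3]
  refine ⟨x0, hx0, ?_, ?_, ?_⟩
  · rw [mul_smul, h4, h3]
  · rw [h5]
    have := h.left
    omega
  · intro y hy hne
    have h6 : y ∈ Δ.Pan j x0 := by rw [Δ.Pan_eq_of_mem hx0]; exact hy
    have h7 : a⁻¹ • y ∈ Δ.Pan j y0 := by
      rw [← h5]
      exact smul_mem_Pan S h6
    have h8 : a⁻¹ • y ≠ y0 := by
      rw [← h5]
      exact fun h9 => hne (smul_left_cancel _ h9)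
    rw [h.dLR h6 hne h7 h8]
    have hss : cs.simple j * cs.simple j = 1 := cs.simple_mul_simple_self j
    have e : cs.simple j * (cs.simple j * Δ.δ x0 y0 * cs.simple j) = Δ.δ x0 y0 * cs.simple j := by
      calc cs.simple j * (cs.simple j * Δ.δ x0 y0 * cs.simple j) =
          (cs.simple j * cs.simple j) * (Δ.δ x0 y0 * cs.simple j) := by group
        _ = _ := by rw [hss, one_mul]
    rw [e, h.len]
    have := cs.length_mul_simple (Δ.δ x0 y0) j
    omega

/-- **No simple reflection is free**: if all products are conjugate to the `p`-element `c`, each simple reflection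
commutes with an element of `Dis Δ a b`. -/
theorem false_of_free [Nonempty C] [Finite G] (hth : Δ.Thick) {a b c : G} (hc : AllConj a b c) (hpe : PE p c)
    {j : I} (hfree : ∀ w ∈ Dis Δ a b, cs.simple j * w ≠ w * cs.simple j) : False := by
  classical
  have hab := good_of_allConj hc hpe
  have := finite_W Δ
  have := Fintype.ofFinite W
  obtain ⟨q, hq⟩ := exists_param S hth j
  have hpq := param_mod S hth hq
  let A : W → Prop := fun w => ℓ (cs.simple j * w) < ℓ w
  let L : G × C → Prop := fun x => A (Δ.δ x.2 (a⁻¹ • x.2)) ∧ (a * (x.1 * b * x.1⁻¹)) • x.2 = x.2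
  let R : G × C → Prop := fun x => ∀ y ∈ Δ.Pan j x.2, (a * (x.1 * b * x.1⁻¹)) • y = y
  -- the pairs
  have hLR : ∀ (g : G) (x y : C), y ∈ Δ.Pan j x → (L (g, x) ↔ R (g, y) ∧ A (Δ.δ x (a⁻¹ • x))) := by
    intro g x y hy
    constructor
    · rintro ⟨h1, h2⟩
      refine ⟨?_, h1⟩
      obtain ⟨x0, hx0, h3, h4, h5⟩ := exists_gate S hth hab hfree (g := g) h2
      have hne : x0 ≠ x := by
        rintro rfl
        exact h4 h1
      intro z hz
      have hz' : z ∈ Δ.Pan j x := by rw [← Δ.Pan_eq_of_mem hy]; exact hz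
      exact fix_pan S (mem_U S (hab g) h2) hx0 hne h3 hz'
    · rintro ⟨h1, h2⟩
      exact ⟨h2, h1 x (Δ.mem_Pan_symm hy)⟩
  have hcard : Nat.card {x : G × C // L x} * (q + 1) = Nat.card {x : G × C // R x} * q := by
    rw [← card_adj hq L]
    have e1 : {x : (G × C) × C // L x.1 ∧ x.2 ∈ Δ.Pan j x.1.2} ≃
        {z : {x : G × C // R x} × C // z.2 ∈ Δ.Pan j z.1.1.2 ∧ A (Δ.δ z.2 (a⁻¹ • z.2))} :=
      { toFun := fun x => ⟨(⟨(x.1.1.1, x.1.2), ((hLR _ _ _ x.2.2).1 x.2.1).1⟩, x.1.1.2),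
          Δ.mem_Pan_symm x.2.2, x.2.1.1⟩
        invFun := fun z => ⟨((z.1.1.1.1, z.1.2), z.1.1.1.2),
          (hLR _ _ _ (Δ.mem_Pan_symm z.2.1)).2 ⟨z.1.1.2, z.2.2⟩, Δ.mem_Pan_symm z.2.1⟩
        left_inv := fun x => rfl
        right_inv := fun x => rfl }
    rw [Nat.card_congr (e1.trans (Equiv.subtypeProdEquivSigmaSubtype (fun (x : {x : G × C // R x}) (y : C) =>
      y ∈ Δ.Pan j x.1.2 ∧ A (Δ.δ y (a⁻¹ • y)))))]
    have := Fintype.ofFinite {x : G × C // R x}
    rw [Nat.card_sigma]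
    have h1 : ∀ x ∈ (Finset.univ : Finset {x : G × C // R x}),
        Nat.card {y : C // y ∈ Δ.Pan j x.1.2 ∧ A (Δ.δ y (a⁻¹ • y))} = q := by
      rintro ⟨⟨g, x⟩, hx⟩ -
      obtain ⟨x0, hx0, h3, h4, h5⟩ := exists_gate S hth hab hfree (g := g) (hx x (Δ.self_mem_Pan j x))
      rw [← card_pan_ne hq x0]
      apply Nat.card_congr
      refine Equiv.subtypeEquivRight fun y => ?_
      rw [Δ.Pan_eq_of_mem hx0]
      constructor
      · rintro ⟨h6, h7⟩
        refine ⟨h6, ?_⟩
        rintro rfl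
        exact h4 h7
      · rintro ⟨h6, h7⟩
        exact ⟨h6, h5 y h6 h7⟩
    rw [Finset.sum_congr rfl h1, Finset.sum_const, Finset.card_univ, smul_eq_mul, ← Nat.card_eq_fintype_card]
  -- the class function
  have hR := card_pairs_const (C := C) hc (fun z x => ∀ y ∈ Δ.Pan j x, z • y = y) (fun g z x hx y hy => by
    have h1 : g⁻¹ • y ∈ Δ.Pan j x := by
      have h2 := smul_mem_Pan S (g := g⁻¹) hy
      rwa [inv_smul_smul] at h2
    rw [mul_smul, mul_smul, hx _ h1, smul_inv_smul])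
  have hL := card_fixed_on S hth a b A
  have hG : (Nat.card G : ℚ) ≠ 0 := by exact_mod_cast Nat.card_pos.ne'
  set f' := Nat.card {x : C // ∀ y ∈ Δ.Pan j x, c • y = y} with hf'
  set σ := ∑ w with A w, wt Δ a b w with hσ
  have h1 : σ * (q + 1) = f' * q := by
    have h2 : (Nat.card {x : G × C // L x} : ℚ) = Nat.card G * σ := hL
    have h3 : (Nat.card {x : G × C // R x} : ℚ) = Nat.card G * f' := by exact_mod_cast hR
    have h4 : (Nat.card {x : G × C // L x} : ℚ) * (q + 1) = (Nat.card {x : G × C // R x} : ℚ) * q := by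
      exact_mod_cast hcard
    rw [h2, h3] at h4
    have h5 : (Nat.card G : ℚ) * (σ * (q + 1)) = Nat.card G * (f' * q) := by rw [← mul_assoc, h4, mul_assoc]
    exact mul_left_cancel₀ hG h5
  -- the pairing
  have hss : cs.simple j * cs.simple j = 1 := cs.simple_mul_simple_self j
  have hcc : ∀ u : W, cs.simple j * (cs.simple j * u * cs.simple j) * cs.simple j = u := by
    intro u
    calc cs.simple j * (cs.simple j * u * cs.simple j) * cs.simple j
        = (cs.simple j * cs.simple j) * u * (cs.simple j * cs.simple j) := by group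
      _ = u := by rw [hss, one_mul, mul_one]
  have hsu : ∀ u : W, cs.simple j * (cs.simple j * u * cs.simple j) = u * cs.simple j := by
    intro u
    calc cs.simple j * (cs.simple j * u * cs.simple j)
        = (cs.simple j * cs.simple j) * (u * cs.simple j) := by group
      _ = _ := by rw [hss, one_mul]
  have hAswap : ∀ u ∈ Dis Δ a b, (A (cs.simple j * u * cs.simple j) ↔ ¬ A u) := by
    intro u hu
    have h2 := (dis_simple S hth hab hu (hfree u hu)).2
    have h3 := cs.length_mul_simple u j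
    change (ℓ (cs.simple j * (cs.simple j * u * cs.simple j)) < _ ↔ ¬ ℓ (cs.simple j * u) < ℓ u)
    rw [hsu]
    rcases h2 with ⟨h4, h5, h6⟩ | ⟨h4, h5, h6⟩ <;> omega
  have hmem : ∀ u ∈ Dis Δ a b, cs.simple j * u * cs.simple j ∈ Dis Δ a b := fun u hu =>
    (dis_simple S hth hab hu (hfree u hu)).1
  have hdis : ∀ u, wt Δ a b u ≠ 0 → u ∈ Dis Δ a b := fun u hu => by
    by_contra hcon
    exact hu (wt_eq_zero_iff.2 hcon)
  have hpair : ∑ w with ¬ A w, wt Δ a b w = σ := by
    refine Finset.sum_bij_ne_zero (fun u _ _ => cs.simple j * u * cs.simple j) ?_ ?_ ?_ ?_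
    · intro u hu hu0
      rw [Finset.mem_filter] at hu ⊢
      exact ⟨Finset.mem_univ _, (hAswap u (hdis u hu0)).2 hu.2⟩
    · intro u _ _ v _ _ huv
      have h2 := congrArg (fun z => cs.simple j * z * cs.simple j) huv
      simpa only [hcc] using h2
    · intro u hu hu0
      have hu1 := hdis u hu0
      rw [Finset.mem_filter] at hu
      refine ⟨cs.simple j * u * cs.simple j, ?_, ?_, hcc u⟩
      · rw [Finset.mem_filter]
        refine ⟨Finset.mem_univ _, ?_⟩
        rw [hAswap u hu1, not_not]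
        exact hu.2
      · rw [wt_simple S hth hab hu1]
        exact hu0
    · intro u _ hu0
      rw [wt_simple S hth hab (hdis u hu0)]
  have htot : (fx C c : ℚ) = 2 * σ := by
    rw [sum_wt S hth hc, ← Finset.sum_filter_add_sum_filter_not Finset.univ A, hpair, two_mul]
  have h6 : fx C c * (q + 1) = 2 * (f' * q) := by
    have h7 : (fx C c : ℚ) * (q + 1) = 2 * (f' * q) := by rw [htot, mul_assoc, h1]
    exact_mod_cast h7
  have h8 := congrArg (Nat.cast : ℕ → ZMod p) h6
  have h9 : (q : ZMod p) = 0 := (ZMod.natCast_eq_zero_iff q p).2 hpq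
  push_cast at h8
  rw [fx_mod S hth hpe, h9] at h8
  simp at h8

end Cfsg.Agent.H150.AH
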