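import Cfsg.Agent.H150.AH.FixSet
import Cfsg.Agent.H150.AH.Tri
import Cfsg.Agent.H150.AH.WtFree
import Cfsg.Agent.H82.AH.Hex
import Cfsg.Agent.H197.Cls.SSet

/-!
# S2451: `G₂(3)` (helper150)

`g2_false` : type `G₂`, one parameter `q ≥ 3`, all the products conjugate, `Dis ⊆ {1, w₀}`, `w₀ ∈ Dis`: contradiction.
-/

set_option autoImplicit false
set_option linter.unusedSectionVars false
set_option linter.unusedVariables false

open scoped Pointwise

namespace Cfsg.Agent.H150.AH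

open Cfsg.Agent.Tits.Core Cfsg.Agent.Tits.Core.Bldg Cfsg.Agent.Tits.Exchange Cfsg.Agent.Tits Cfsg.Agent.FixBN
open Cfsg.Agent.H197.Cls Cfsg.Agent.H330.ClassProd Cfsg.Agent.H82.AH

section Arith

theorem arith1 {q N A B : ℕ} (hq : 2 ≤ q) (hN : N = (q + 1) ^ 2 * (q ^ 4 + q ^ 2 + 1))
    (hA : A * (q * q + q + 1) ≤ q * q * N) (hB : B * (q * q + q + 1) ≤ q * q * N) (h : N * q ^ 6 ≤ A * B) : False := by
  have hN0 : 0 < N := by rw [hN]; positivity
  have h1 : (N * q ^ 4) * (q ^ 2 * (q * q + q + 1) ^ 2) ≤ (N * q ^ 4) * N := by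
    calc (N * q ^ 4) * (q ^ 2 * (q * q + q + 1) ^ 2) = (N * q ^ 6) * (q * q + q + 1) ^ 2 := by ring
      _ ≤ (A * B) * (q * q + q + 1) ^ 2 := Nat.mul_le_mul_right _ h
      _ = (A * (q * q + q + 1)) * (B * (q * q + q + 1)) := by ring
      _ ≤ (q * q * N) * (q * q * N) := Nat.mul_le_mul hA hB
      _ = (N * q ^ 4) * N := by ring
  have h2 := Nat.le_of_mul_le_mul_left h1 (by positivity)
  rw [hN] at h2
  obtain ⟨k, rfl⟩ := Nat.exists_eq_add_of_le hq
  revert h2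
  apply not_le_of_gt
  ring_nf
  nlinarith [Nat.zero_le k, Nat.zero_le (k ^ 2), Nat.zero_le (k ^ 3), Nat.zero_le (k ^ 4), Nat.zero_le (k ^ 5),
    Nat.zero_le (k ^ 6)]

theorem arith2 {q N A B : ℕ} (hq : 3 ≤ q) (hN : N = (q + 1) ^ 2 * (q ^ 4 + q ^ 2 + 1))
    (hA : A * (q * q + q + 1) ≤ q * q * N) (hB : B * (q * q + q + 1) ≤ q * q * N)
    (h : N * q ^ 6 ≤ (q + 1) * (q + 1) * q ^ 6 + A * B) : False := by
  have hN0 : 0 < N := by rw [hN]; positivity
  have h1 : q ^ 4 * (N * (q ^ 2 * (q * q + q + 1) ^ 2)) ≤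
      q ^ 4 * ((q + 1) ^ 2 * q ^ 2 * (q * q + q + 1) ^ 2 + N * N) := by
    calc q ^ 4 * (N * (q ^ 2 * (q * q + q + 1) ^ 2)) = (N * q ^ 6) * (q * q + q + 1) ^ 2 := by ring
      _ ≤ ((q + 1) * (q + 1) * q ^ 6 + A * B) * (q * q + q + 1) ^ 2 := Nat.mul_le_mul_right _ h
      _ = (q + 1) * (q + 1) * q ^ 6 * (q * q + q + 1) ^ 2 + (A * (q * q + q + 1)) * (B * (q * q + q + 1)) := by ring
      _ ≤ (q + 1) * (q + 1) * q ^ 6 * (q * q + q + 1) ^ 2 + (q * q * N) * (q * q * N) :=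
          Nat.add_le_add_left (Nat.mul_le_mul hA hB) _
      _ = q ^ 4 * ((q + 1) ^ 2 * q ^ 2 * (q * q + q + 1) ^ 2 + N * N) := by ring
  have h2 := Nat.le_of_mul_le_mul_left h1 (by positivity)
  have h3 : (q + 1) ^ 2 * ((q ^ 4 + q ^ 2 + 1) * (q ^ 2 * (q * q + q + 1) ^ 2)) ≤
      (q + 1) ^ 2 * (q ^ 2 * (q * q + q + 1) ^ 2 + (q ^ 4 + q ^ 2 + 1) * N) := by
    calc (q + 1) ^ 2 * ((q ^ 4 + q ^ 2 + 1) * (q ^ 2 * (q * q + q + 1) ^ 2)) = N * (q ^ 2 * (q * q + q + 1) ^ 2) := by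
          rw [hN]; ring
      _ ≤ (q + 1) ^ 2 * q ^ 2 * (q * q + q + 1) ^ 2 + N * N := h2
      _ = (q + 1) ^ 2 * (q ^ 2 * (q * q + q + 1) ^ 2 + (q ^ 4 + q ^ 2 + 1) * N) := by
          nth_rewrite 1 [hN]; ring
  have h4 := Nat.le_of_mul_le_mul_left h3 (by positivity)
  rw [hN] at h4
  obtain ⟨k, rfl⟩ := Nat.exists_eq_add_of_le hq
  revert h4
  apply not_le_of_gt
  ring_nf
  nlinarith [Nat.zero_le k, Nat.zero_le (k ^ 2), Nat.zero_le (k ^ 3), Nat.zero_le (k ^ 4), Nat.zero_le (k ^ 5),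
    Nat.zero_le (k ^ 6), Nat.zero_le (k ^ 7), Nat.zero_le (k ^ 8), Nat.zero_le (k ^ 9), Nat.zero_le (k ^ 10)]

end Arith

section WF

variable {W : Type*} [Group W] {cs : CoxeterSystem CoxeterMatrix.G₂ W} [F : OppRes.Cox cs] [Finite W]
  {e : W ≃* DihedralGroup 6} (he : ∀ i, e (cs.simple i) = Hex.gen i) (hl : ∀ w, cs.length w = Hex.len (e w))

include hl in
theorem e_w0 : e (w0 cs) = DihedralGroup.r 3 := by
  have h1 := length_le_w0 cs (e.symm (DihedralGroup.r 3))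
  rw [hl, hl, MulEquiv.apply_symm_apply] at h1
  have key : ∀ d : DihedralGroup 6, Hex.len (DihedralGroup.r 3) ≤ Hex.len d → d = DihedralGroup.r 3 := by decide
  exact key _ h1

end WF

variable {W : Type*} [Group W] {cs : CoxeterSystem CoxeterMatrix.G₂ W} {C : Type*}

local prefix:100 "ℓ" => cs.length

variable {Δ : Bldg cs C} {G : Type*} [Group G] [MulAction G C] {p : ℕ} (S : Sys Δ G p) [F : OppRes.Cox cs] [Finite W]
  [Finite G] [Finite C] [Nonempty C] [hp : Fact p.Prime]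

theorem pair_univ {i j : Fin 2} (hij : i ≠ j) : ({i, j} : Set (Fin 2)) = Set.univ := by
  apply Set.eq_univ_of_forall
  intro k
  have : k = i ∨ k = j := by revert hij; revert i j k; decide
  simpa using this

theorem other (j : Fin 2) : ∃ i, i ≠ j := by revert j; decide

theorem dih_facts1 : ∀ i j : Fin 2, i ≠ j →
    Hex.len (Hex.gen i * (DihedralGroup.r 3 * Hex.gen j)) < Hex.len (DihedralGroup.r 3 * Hex.gen j) ∧
    Hex.len (DihedralGroup.r 3 * Hex.gen j * Hex.gen i) < Hex.len (DihedralGroup.r 3 * Hex.gen j) ∧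
    Hex.gen i * (DihedralGroup.r 3 * Hex.gen j) ≠ DihedralGroup.r 3 * Hex.gen j * Hex.gen i := by decide

theorem dih_facts2 : ∀ i j : Fin 2, i ≠ j → Hex.gen j * DihedralGroup.r 3 = DihedralGroup.r 3 * Hex.gen j ∧
    Hex.len (Hex.gen i * (DihedralGroup.r 3 * Hex.gen j) * Hex.gen i) < 5 ∧
    Hex.len (Hex.gen i * (DihedralGroup.r 3 * Hex.gen j)) < 5 := by decide

theorem dih_facts3 : ¬ Hex.len (DihedralGroup.r 3) < 5 := by decide

theorem dih_facts4 : ∀ j : Fin 2, ¬ Hex.len (DihedralGroup.r 3 * Hex.gen j) < 5 ∧ Hex.gen j ≠ 1 ∧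
    Hex.gen j ≠ DihedralGroup.r 3 := by decide

theorem dih_facts5 : ∀ j : Fin 2,
    DihedralGroup.r 3 * Hex.gen j ≠ 1 ∧ DihedralGroup.r 3 * Hex.gen j ≠ DihedralGroup.r 3 := by decide

theorem dih_facts6 : (DihedralGroup.r 3 : DihedralGroup 6) ≠ 1 := by decide

include S in
theorem g2_ineq {q : ℕ} (hq : ∀ i, Δ.Param i q) {i j : Fin 2} (hij : i ≠ j) {x : G}
    (hr : Role1 Δ x j (w0 cs)) : dn Δ x (w0 cs) * (q * q + q + 1) ≤ q * q * Nat.card C := by
  obtain ⟨e, he, hl⟩ := Hex.exists_dih cs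
  have hw0 := e_w0 hl
  obtain ⟨x0⟩ := ‹Nonempty C›
  obtain ⟨d1, d2, d3⟩ := dih_facts1 i j hij
  obtain ⟨d4, d5, d6⟩ := dih_facts2 i j hij
  have d7 := dih_facts3
  have d8 := (dih_facts4 j).1
  have e1 : ℓ (cs.simple i * (w0 cs * cs.simple j)) < ℓ (w0 cs * cs.simple j) := by
    rw [hl, hl]; simp only [map_mul, he, hw0]; exact d1
  have e2 : ℓ (w0 cs * cs.simple j * cs.simple i) < ℓ (w0 cs * cs.simple j) := by
    rw [hl, hl]; simp only [map_mul, he, hw0]; exact d2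
  have e3 : cs.simple i * (w0 cs * cs.simple j) ≠ w0 cs * cs.simple j * cs.simple i := by
    intro h
    have h1 := congrArg e h
    simp only [map_mul, he, hw0] at h1
    exact d3 h1
  have e4 : cs.simple j * w0 cs = w0 cs * cs.simple j := by
    apply e.injective
    simp only [map_mul, he, hw0]
    exact d4
  have e5 : ℓ (cs.simple i * (w0 cs * cs.simple j) * cs.simple i) < 5 := by
    rw [hl]; simp only [map_mul, he, hw0]; exact d5
  have e6 : ℓ (cs.simple i * (w0 cs * cs.simple j)) < 5 := by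
    rw [hl]; simp only [map_mul, he, hw0]; exact d6
  have e7 : ¬ ℓ (w0 cs) < 5 := by
    rw [hl, hw0]; exact d7
  have e8 : ¬ ℓ (w0 cs * cs.simple j) < 5 := by
    rw [hl]; simp only [map_mul, he, hw0]; exact d8
  have h1 := gen_ineq S (hq i) (hq j) e4 (fun u => ℓ u < 5) (x := x) (x0 := x0) (fun d hd => by
    obtain ⟨y, hy, h2⟩ := exists_gate_small S (i := i) hd e1 e2 e3
    refine ⟨y, hy, ?_⟩
    rcases h2 with h2 | h2
    · rw [h2]; exact e5
    · rw [h2]; exact e6) e7 e8 hr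
  have h2 : Nat.card {d : C // d ∈ Δ.Res {i, j} x0 ∧ Δ.δ d (x • d) = w0 cs} = dn Δ x (w0 cs) := by
    unfold dn
    refine Nat.card_congr (Equiv.subtypeEquivRight fun d => ?_)
    rw [pair_univ hij, Δ.Res_univ]
    simp
  have h3 : (Δ.Res {i, j} x0).ncard = Nat.card C := by
    rw [pair_univ hij, Δ.Res_univ, Set.ncard_univ]
  rw [h2, h3] at h1
  exact h1

omit hp [Finite G] in
theorem g2_card {q : ℕ} (hq : ∀ i, Δ.Param i q) : Nat.card C = (q + 1) ^ 2 * (q ^ 4 + q ^ 2 + 1) := by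
  classical
  have := Fintype.ofFinite W
  obtain ⟨x0⟩ := ‹Nonempty C›
  obtain ⟨e, he, hl⟩ := Hex.exists_dih cs
  rw [card_pow x0 hq]
  have h1 : ∑ w : W, q ^ ℓ w = ∑ d : DihedralGroup 6, q ^ Hex.len d :=
    Fintype.sum_equiv e.toEquiv _ _ fun w => by rw [hl]; rfl
  rw [h1, ← Finset.sum_fiberwise_of_maps_to (t := Finset.range 7) (g := Hex.len) (s := Finset.univ)
    (by decide) (fun d => q ^ Hex.len d)]
  have h2 : ∀ k ∈ Finset.range 7, ∑ d ∈ Finset.univ.filter (fun d : DihedralGroup 6 => Hex.len d = k), q ^ Hex.len d =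
      (![1, 2, 2, 2, 2, 2, 1] : Fin 7 → ℕ) (Fin.ofNat 7 k) * q ^ k := by
    intro k hk
    have h3 : ∀ d ∈ Finset.univ.filter (fun d : DihedralGroup 6 => Hex.len d = k), q ^ Hex.len d = q ^ k := by
      intro d hd
      rw [(Finset.mem_filter.1 hd).2]
    rw [Finset.sum_congr rfl h3, Finset.sum_const, smul_eq_mul]
    congr 1
    revert hk
    have h4 : ∀ k ∈ Finset.range 7, (Finset.univ.filter (fun d : DihedralGroup 6 => Hex.len d = k)).card =
      (![1, 2, 2, 2, 2, 2, 1] : Fin 7 → ℕ) (Fin.ofNat 7 k) := by decide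
    exact h4 k
  rw [Finset.sum_congr rfl h2]
  simp only [Finset.sum_range_succ, Finset.sum_range_zero]
  have e0 : (![1, 2, 2, 2, 2, 2, 1] : Fin 7 → ℕ) (Fin.ofNat 7 0) = 1 := rfl
  have e1 : (![1, 2, 2, 2, 2, 2, 1] : Fin 7 → ℕ) (Fin.ofNat 7 1) = 2 := rfl
  have e2 : (![1, 2, 2, 2, 2, 2, 1] : Fin 7 → ℕ) (Fin.ofNat 7 2) = 2 := rfl
  have e3 : (![1, 2, 2, 2, 2, 2, 1] : Fin 7 → ℕ) (Fin.ofNat 7 3) = 2 := rfl
  have e4 : (![1, 2, 2, 2, 2, 2, 1] : Fin 7 → ℕ) (Fin.ofNat 7 4) = 2 := rfl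
  have e5 : (![1, 2, 2, 2, 2, 2, 1] : Fin 7 → ℕ) (Fin.ofNat 7 5) = 2 := rfl
  have e6 : (![1, 2, 2, 2, 2, 2, 1] : Fin 7 → ℕ) (Fin.ofNat 7 6) = 1 := rfl
  rw [e0, e1, e2, e3, e4, e5, e6]
  ring

omit F [Finite W] [Finite G] [Finite C] [Nonempty C] hp in
theorem dn_one (x : G) : dn Δ x 1 = fx C x := by
  unfold dn fx
  refine Nat.card_congr (Equiv.subtypeEquivRight fun c => ?_)
  rw [Δ.eq_one]
  exact eq_comm

omit F [Finite W] [Finite G] [Finite C] [Nonempty C] hp in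
theorem fx_inv (x : G) : fx C x⁻¹ = fx C x := by
  unfold fx
  refine Nat.card_congr (Equiv.subtypeEquivRight fun c => ?_)
  rw [inv_smul_eq_iff]
  exact eq_comm

include S in
/-- **`G₂(q)`, `q ≥ 3`, `w₀`.** -/
theorem g2_false (hth : Δ.Thick) (hfaith : ∀ g : G, (∀ x : C, g • x = x) → g = 1) {a b c : G} (hc : AllConj a b c)
    (hpe : PE p c) (ha1 : a ≠ 1) (hb1 : b ≠ 1) {q : ℕ} (hq3 : 3 ≤ q) (hq : ∀ i, Δ.Param i q)
    (hD : ∀ w ∈ Dis Δ a b, w = 1 ∨ w = w0 cs) (h0 : w0 cs ∈ Dis Δ a b) : False := by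
  classical
  have := Fintype.ofFinite W
  obtain ⟨e, he, hl⟩ := Hex.exists_dih cs
  have hw0 := e_w0 hl
  have hab : Good p a b := good_of_allConj hc hpe
  have h01 : w0 cs ≠ 1 := by
    intro h
    have h1 := congrArg e h
    rw [hw0, map_one] at h1
    exact dih_facts6 h1
  -- facts on `W`
  have f1 : ∀ j, cs.simple j ∉ Dis Δ a b := by
    intro j hj
    obtain ⟨-, d9, d10⟩ := dih_facts4 j
    rcases hD _ hj with h | h
    · have h1 := congrArg e h
      rw [he, map_one] at h1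
      exact d9 h1
    · have h1 := congrArg e h
      rw [he, hw0] at h1
      exact d10 h1
  have f2 : ∀ j, w0 cs * cs.simple j ∉ Dis Δ a b := by
    intro j hj
    obtain ⟨d9, d10⟩ := dih_facts5 j
    rcases hD _ hj with h | h
    · have h1 := congrArg e h
      rw [map_mul, he, hw0, map_one] at h1
      exact d9 h1
    · have h1 := congrArg e h
      rw [map_mul, he, hw0] at h1
      exact d10 h1
  have f3 : ∀ j, cs.simple j * w0 cs = w0 cs * cs.simple j := by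
    intro j
    obtain ⟨i, hij⟩ := other j
    apply e.injective
    simp only [map_mul, he, hw0]
    exact (dih_facts2 i j hij).1
  -- the roles
  obtain ⟨i, j, hij, r1, r2, r3, r4⟩ : ∃ i j : Fin 2, i ≠ j ∧ RoleE Δ a⁻¹ i (w0 cs) ∧ RoleO Δ b i (w0 cs) ∧
      RoleO Δ a⁻¹ j (w0 cs) ∧ RoleE Δ b j (w0 cs) := by
    have hu : wJ cs ({0, 1} : Set (Fin 2)) = w0 cs := by
      rw [pair_univ (by decide)]
      rfl
    have h1 := roles_mixed S hth hab (i := 0) (j := 1) (by decide) (by decide) (by rw [hu]; exact f3 0)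
      (by rw [hu]; exact f3 1) (by rw [hu]; exact h0) (by rw [hu]; exact f2 0) (by rw [hu]; exact f2 1)
    rw [hu] at h1
    rcases h1 with ⟨h2, h3, h4, h5⟩ | ⟨h2, h3, h4, h5⟩
    · exact ⟨0, 1, by decide, h2, h3, h4, h5⟩
    · exact ⟨1, 0, by decide, h4, h5, h2, h3⟩
  have hA := g2_ineq S hq hij (fun E hE => r3 E (Or.inl hE) : Role1 Δ a⁻¹ j (w0 cs))
  have hB := g2_ineq S hq hij.symm (fun E hE => r2 E (Or.inl hE) : Role1 Δ b i (w0 cs))
  have hN := g2_card (cs := cs) (Δ := Δ) hq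
  have hNpos : 0 < Nat.card C := Nat.card_pos
  -- the weights
  have hw : wt Δ a b (w0 cs) = (dn Δ a⁻¹ (w0 cs) * dn Δ b (w0 cs) : ℕ) / ((Nat.card C * q ^ 6 : ℕ) : ℚ) := by
    unfold wt
    rw [pn_pow hq, show ℓ (w0 cs) = 6 by rw [hl, hw0]; rfl]
  have hsum : (fx C c : ℚ) = wt Δ a b 1 + wt Δ a b (w0 cs) := by
    rw [sum_wt S hth hc]
    symm
    rw [← Finset.sum_pair h01.symm]
    refine Finset.sum_subset (Finset.subset_univ _) fun w _ hw => ?_
    rw [wt_eq_zero_iff]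
    intro h3
    apply hw
    rcases hD w h3 with rfl | rfl <;> simp
  have hP : (0 : ℚ) < ((Nat.card C * q ^ 6 : ℕ) : ℚ) := by
    have : 0 < Nat.card C * q ^ 6 := by positivity
    exact_mod_cast this
  by_cases h1 : (1 : W) ∈ Dis Δ a b
  · -- `z` fixes one chamber only
    obtain ⟨g, c0, hc0, hgc⟩ := exists_pair S hth h0
    have hz1 : fx C (a * (g * b * g⁻¹)) = 1 := by
      refine fx_eq_one S (c := c0) ?_ ?_
      · rw [mul_smul, hgc, smul_inv_smul]
      · intro m y hy hzy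
        have hE : ∀ {k : Fin 2}, RoleE Δ b k (w0 cs) → RoleE Δ (g * b * g⁻¹) k (w0 cs) := by
          intro k h E hE'
          apply h (g⁻¹ • E)
          rw [← S.iso g (g⁻¹ • E), smul_inv_smul, ← mul_smul, ← mul_smul]
          exact hE'
        have hO : ∀ {k : Fin 2}, RoleO Δ b k (w0 cs) → RoleO Δ (g * b * g⁻¹) k (w0 cs) := by
          intro k h E hE'
          have e1 : ∀ D : C, Δ.δ (g⁻¹ • D) (b • (g⁻¹ • D)) = Δ.δ D ((g * b * g⁻¹) • D) := by
            intro D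
            rw [← S.iso g (g⁻¹ • D), smul_inv_smul, ← mul_smul, ← mul_smul]
          obtain ⟨D, ⟨hD1, hD2⟩, hD3⟩ := h (g⁻¹ • E) (by rw [e1]; exact hE')
          have hgD : g • D ∈ Δ.Pan k E := by
            have := smul_mem_Pan S (g := g) hD1
            rwa [smul_inv_smul] at this
          refine ⟨g • D, ⟨hgD, ?_⟩, ?_⟩
          · rw [← e1, inv_smul_smul]; exact hD2
          · rintro D' ⟨h5, h6⟩
            have h7 := hD3 (g⁻¹ • D') ⟨smul_mem_Pan S h5, by rw [e1]; exact h6⟩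
            rw [← h7, smul_inv_smul]
        have hm : m = i ∨ m = j := by revert hij; clear * -; revert i j m; decide
        rcases hm with rfl | rfl
        · exact unique_of_roles S (hab g) (Or.inl ⟨r1, hO r2⟩) hc0 hgc hy hzy
        · exact unique_of_roles S (hab g) (Or.inr ⟨r3, hE r4⟩) hc0 hgc hy hzy
    have hzall : ∀ g : G, fx C (a * (g * b * g⁻¹)) = 1 := by
      have key : ∀ g : G, fx C (a * (g * b * g⁻¹)) = fx C c := by
        intro g
        have h2 := hc 1 g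
        have e2 : 1 * a * 1⁻¹ * (g * b * g⁻¹) = a * (g * b * g⁻¹) := by group
        rw [e2] at h2
        obtain ⟨h, hh⟩ := isConj_iff.1 h2
        rw [← hh, fx_conj]
      intro g'
      rw [key, ← key g, hz1]
    -- the moved types
    obtain ⟨⟨ca, hca⟩, cb, hcb⟩ := h1
    have hca' : a • ca = ca := by
      have := Δ.eq_of_δ_eq_one hca
      rw [eq_inv_smul_iff] at this
      exact this
    have hcb' : b • cb = cb := (Δ.eq_of_δ_eq_one hcb).symm
    have hmv : ∀ x : G, x ≠ 1 → ∀ c1 : C, x • c1 = c1 → ∃ k, Mv Δ k x := by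
      intro x hx c1 hc1
      by_contra hcon
      apply hx
      apply hfaith
      intro d
      by_contra hd
      exact hcon (exists_mv hc1 hd)
    obtain ⟨k, hk⟩ := hmv a ha1 ca hca'
    obtain ⟨l, hlb⟩ := hmv b hb1 cb hcb'
    have hnot : ∀ m, ¬ (Mv Δ m a ∧ Mv Δ m b) := by
      rintro m ⟨h3, h4⟩
      exact f1 m ⟨delta_of_mv S (Mv.inv S h3), delta_of_mv S h4⟩
    have hkl : k ≠ l := fun h => hnot l ⟨h ▸ hk, hlb⟩
    have hka : ¬ Mv Δ l a := fun h => hnot l ⟨h, hlb⟩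
    have hkb : ¬ Mv Δ k b := fun h => hnot k ⟨hk, h⟩
    have hcase : ∀ m : Fin 2, m = k ∨ m = l := by
      intro m; revert hkl; clear * -; revert k l m; decide
    -- no fixed neighbours in the moved direction
    have hna : ∀ c1, a • c1 = c1 → ∀ m, ∀ y ∈ Δ.Pan m c1, y ≠ c1 → a • y = y → m = l := by
      intro c1 hc1 m y hy hne hay
      rcases hcase m with rfl | h
      · exfalso
        obtain ⟨g, hg⟩ := exists_smul S hth cb c1
        have e1 : (g * b * g⁻¹) • c1 = c1 := by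
          rw [← hg, mul_smul, mul_smul, inv_smul_smul, hcb']
        have e2 : (g * b * g⁻¹) • y = y := by
          have h5 : g⁻¹ • y ∈ Δ.Pan m cb := by
            have := smul_mem_Pan S (g := g⁻¹) hy
            rwa [← hg, inv_smul_smul] at this
          rw [mul_smul, mul_smul, fix_of_not_mv hkb hcb' h5, smul_inv_smul]
        exact hne (eq_of_fx_eq_one (hzall g) (by rw [mul_smul, e2, hay]) (by rw [mul_smul, e1, hc1]))
      · exact h
    have hnb : ∀ c1, b • c1 = c1 → ∀ m, ∀ y ∈ Δ.Pan m c1, y ≠ c1 → b • y = y → m = k := by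
      intro c1 hc1 m y hy hne hay
      rcases hcase m with h | rfl
      · exact h
      · exfalso
        obtain ⟨g, hg⟩ := exists_smul S hth c1 ca
        have e1 : a • (g • c1) = g • c1 := by rw [hg, hca']
        have e2 : a • (g • y) = g • y := by
          have h5 : g • y ∈ Δ.Pan m ca := by
            have := smul_mem_Pan S (g := g) hy
            rwa [hg] at this
          exact fix_of_not_mv hka hca' h5
        have e3 : (g * b * g⁻¹) • (g • y) = g • y := by rw [mul_smul, mul_smul, inv_smul_smul, hay]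
        have e4 : (g * b * g⁻¹) • (g • c1) = g • c1 := by rw [mul_smul, mul_smul, inv_smul_smul, hc1]
        exact hne (smul_left_cancel g (eq_of_fx_eq_one (hzall g) (by rw [mul_smul, e3, e2]) (by rw [mul_smul, e4, e1])))
    have hfa : fx C a = q + 1 := fx_of_panel S (hq l) hna (fun c1 hc1 y hy => fix_of_not_mv hka hc1 hy) hca'
    have hfb : fx C b = q + 1 := fx_of_panel S (hq k) hnb (fun c1 hc1 y hy => fix_of_not_mv hkb hc1 hy) hcb'
    have hw1 : wt Δ a b 1 = ((q + 1) * (q + 1) : ℕ) / (Nat.card C : ℚ) := by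
      unfold wt
      rw [pn_pow hq, cs.length_one, pow_zero, mul_one, dn_one, dn_one, fx_inv, hfa, hfb]
    have hfc : fx C c = 1 := by
      have h2 := hc 1 1
      obtain ⟨h, hh⟩ := isConj_iff.1 h2
      rw [← fx_conj c h, hh]
      have e2 : 1 * a * 1⁻¹ * (1 * b * 1⁻¹) = a * (1 * b * 1⁻¹) := by group
      rw [e2]
      exact hzall 1
    rw [hfc, hw1, hw] at hsum
    have hC : (Nat.card C : ℚ) ≠ 0 := by exact_mod_cast hNpos.ne'
    have hq0 : (q : ℚ) ≠ 0 := by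
      have : q ≠ 0 := by omega
      exact_mod_cast this
    have h3 : (Nat.card C * q ^ 6 : ℚ) = (q + 1) * (q + 1) * q ^ 6 + dn Δ a⁻¹ (w0 cs) * dn Δ b (w0 cs) := by
      push_cast at hsum
      field_simp at hsum
      linarith
    have h4 : Nat.card C * q ^ 6 = (q + 1) * (q + 1) * q ^ 6 + dn Δ a⁻¹ (w0 cs) * dn Δ b (w0 cs) := by
      exact_mod_cast h3
    exact arith2 hq3 hN hA hB h4.le
  · have hfc : 1 ≤ fx C c := by
      obtain ⟨x, hx⟩ := exists_fixed S hpe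
      unfold fx
      have : Nonempty {x : C // c • x = x} := ⟨⟨x, hx⟩⟩
      exact Nat.card_pos
    rw [wt_eq_zero_iff.2 h1, zero_add, hw] at hsum
    have h2 : (1 : ℚ) ≤ (dn Δ a⁻¹ (w0 cs) * dn Δ b (w0 cs) : ℕ) / ((Nat.card C * q ^ 6 : ℕ) : ℚ) := by
      rw [← hsum]
      exact_mod_cast hfc
    rw [le_div_iff₀ hP, one_mul] at h2
    exact arith1 (by omega) hN hA hB (by exact_mod_cast h2)

include S in
/-- **`G₂(q)`, `q ≥ 3`** : `Dis ⊆ {1}`. -/
theorem g2_eq_one (hth : Δ.Thick) (hfaith : ∀ g : G, (∀ x : C, g • x = x) → g = 1) {a b c : G} (hc : AllConj a b c)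
    (hpe : PE p c) (ha1 : a ≠ 1) (hb1 : b ≠ 1) {q : ℕ} (hq3 : 3 ≤ q) (hq : ∀ i, Δ.Param i q)
    (hD : ∀ w ∈ Dis Δ a b, w = 1 ∨ w = w0 cs) : ∀ w ∈ Dis Δ a b, w = 1 := by
  intro w hw
  rcases hD w hw with h | h
  · exact h
  · rw [h] at hw
    exact (g2_false S hth hfaith hc hpe ha1 hb1 hq3 hq hD hw).elim

end Cfsg.Agent.H150.AH
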