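import Cfsg.Agent.H150.AH.QuadIneq

/-!
# S2451: mixed roles in a residue of type `B2` (helper150)

* `local_count` : the double counting in a residue;
* `quad_false` : if `m w_E` is the only common displacement in `m W_E`, `E = {i, j}`, `m_ij = 4`, and `a⁻¹` has role 1
  at `j`, `b` has role 1 at `i`: contradiction.
-/

set_option autoImplicit false
set_option linter.unusedSectionVars false
set_option linter.unusedVariables false

open scoped Pointwise

namespace Cfsg.Agent.H150.AH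

open Cfsg.Agent.Tits.Core Cfsg.Agent.Tits.Core.Bldg Cfsg.Agent.Tits.Exchange Cfsg.Agent.Tits Cfsg.Agent.FixBN
open Cfsg.Agent.H197.Cls Cfsg.Agent.H330.ClassProd

variable {I : Type*} {M : CoxeterMatrix I} {W : Type*} [Group W] {cs : CoxeterSystem M W} {C : Type*}

local prefix:100 "ℓ" => cs.length

variable {Δ : Bldg cs C} {G : Type*} [Group G] [MulAction G C] {p : ℕ} (S : Sys Δ G p)

/-- the pairs of two residues at distance `w` -/
abbrev XX (Δ : Bldg cs C) (J : Set I) (x y : C) (w : W) : Type _ :=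
  {z : C × C // z.1 ∈ Δ.Res J x ∧ z.2 ∈ Δ.Res J y ∧ Δ.δ z.1 z.2 = w}

include S

/-- **The double counting in a residue.** -/
theorem local_count [hp : Fact p.Prime] [F : OppRes.Cox cs] [Finite C] [Finite G] (hth : Δ.Thick) {a b : G}
    (hab : Good p a b) {J : Set I} {w : W} {x0 : C} (h0 : Δ.δ x0 (a⁻¹ • x0) = w) (h1 : b • x0 = a⁻¹ • x0)
    (hmin : ∀ d ∈ Δ.Res J x0, Δ.δ d (a⁻¹ • d) ∈ Dis Δ a b → Δ.δ d (a⁻¹ • d) = w) :
    Nat.card (XX Δ J x0 (a⁻¹ • x0) w) ≤
      Nat.card {d : C // d ∈ Δ.Res J x0 ∧ Δ.δ d (a⁻¹ • d) = w} *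
        Nat.card {d : C // d ∈ Δ.Res J x0 ∧ Δ.δ d (b • d) = w} := by
  classical
  set R := Δ.Res J x0 with hR
  set R' := Δ.Res J (a⁻¹ • x0) with hR'
  let H : Subgroup G := MulAction.stabilizer G R ⊓ MulAction.stabilizer G R'
  have hHR : ∀ h ∈ H, ∀ d ∈ R, h • d ∈ R := by
    rintro h ⟨h2, -⟩ d hd
    have h3 : h • R = R := h2
    rw [← h3]
    exact Set.smul_mem_smul_set hd
  have hHR' : ∀ h ∈ H, ∀ d ∈ R', h • d ∈ R' := by
    rintro h ⟨-, h2⟩ d hd
    have h3 : h • R' = R' := h2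
    rw [← h3]
    exact Set.smul_mem_smul_set hd
  let X := XX Δ J x0 (a⁻¹ • x0) w
  have hXfin : Finite X := Subtype.finite
  let _ : MulAction H X :=
    { smul := fun g x => ⟨((g : G) • x.1.1, (g : G) • x.1.2), hHR g g.2 _ x.2.1, hHR' g g.2 _ x.2.2.1, by
        rw [S.iso]; exact x.2.2.2⟩
      one_smul := fun x => Subtype.ext (Prod.ext (one_smul G _) (one_smul G _))
      mul_smul := fun g h x => Subtype.ext (Prod.ext (mul_smul (g : G) (h : G) _) (mul_smul (g : G) (h : G) _)) }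
  have hcoe : ∀ (g : H) (x : X), ((g • x : X) : C × C) = ((g : G) • x.1.1, (g : G) • x.1.2) := fun _ _ => rfl
  have htr : ∀ x y : X, ∃ g : H, g • x = y := by
    rintro ⟨⟨x1, x2⟩, hx1, hx2, hx⟩ ⟨⟨y1, y2⟩, hy1, hy2, hy⟩
    obtain ⟨g, e1, e2⟩ := exists_smul_pair S hth (x := x1) (y := x2) (x' := y1) (y' := y2) (hx.trans hy.symm)
    have hg : g ∈ H := by
      constructor
      · change g • R = R
        have h3 : R = Δ.Res J x1 := (Δ.Res_eq_of_mem hx1).symm
        have h4 : R = Δ.Res J y1 := (Δ.Res_eq_of_mem hy1).symm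
        rw [h3, S.smul_Res, e1, ← h4, h3]
      · change g • R' = R'
        have h3 : R' = Δ.Res J x2 := (Δ.Res_eq_of_mem hx2).symm
        have h4 : R' = Δ.Res J y2 := (Δ.Res_eq_of_mem hy2).symm
        rw [h3, S.smul_Res, e2, ← h4, h3]
    exact ⟨⟨g, hg⟩, Subtype.ext (Prod.ext e1 e2)⟩
  let A := {d : C // d ∈ R ∧ Δ.δ d (a⁻¹ • d) = w}
  let B := {d : C // d ∈ R ∧ Δ.δ d (b • d) = w}
  have haR : ∀ d ∈ R, a⁻¹ • d ∈ R' := fun d hd => S.smul_mem_Res hd
  have haR' : ∀ d ∈ R', a • d ∈ R := by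
    intro d hd
    have h2 := S.smul_mem_Res (g := a) hd
    rwa [smul_inv_smul] at h2
  have hbR : ∀ d ∈ R, b • d ∈ R' := by
    intro d hd
    have h2 := S.smul_mem_Res (g := b) hd
    rwa [h1] at h2
  let pa : A → X := fun d => ⟨(d, a⁻¹ • (d : C)), d.2.1, haR d d.2.1, d.2.2⟩
  let pb : B → X := fun d => ⟨(d, b • (d : C)), d.2.1, hbR d d.2.1, d.2.2⟩
  let T := {z : (A × B) × H // z.2 • pb z.1.2 = pa z.1.1}
  have hT : Nat.card T * Nat.card X = Nat.card A * Nat.card B * Nat.card H := by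
    rw [Nat.card_congr (Equiv.subtypeProdEquivSigmaSubtype (fun (z : A × B) (g : H) => g • pb z.2 = pa z.1))]
    have := Fintype.ofFinite A
    have := Fintype.ofFinite B
    rw [Nat.card_sigma, Finset.sum_mul, Finset.sum_congr rfl (fun z _ => card_smul_eq htr (pb z.2) (pa z.1)),
      Finset.sum_const, Finset.card_univ, Fintype.card_prod, smul_eq_mul, ← Nat.card_eq_fintype_card,
      ← Nat.card_eq_fintype_card]
  have hsurj : Function.Surjective (fun z : T => z.1.2) := by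
    intro h
    have hPE : PE p (a * ((h : G) * b * (h : G)⁻¹)) := hab h
    have hinv : ∀ d ∈ R, (h : G)⁻¹ • d ∈ R := hHR _ (inv_mem h.2)
    have hzR : (a * ((h : G) * b * (h : G)⁻¹)) • x0 ∈ Δ.Res J x0 := by
      rw [mul_smul, mul_smul, mul_smul]
      exact haR' _ (hHR' h h.2 _ (hbR _ (hinv x0 (Δ.self_mem_Res J x0))))
    obtain ⟨d, hd, hfix⟩ := exists_fixed_res S hPE hzR
    have hd1 : ((h : G) * b * (h : G)⁻¹) • d = a⁻¹ • d := by
      rw [eq_inv_smul_iff, ← mul_smul]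
      exact hfix
    have hdis : Δ.δ d (a⁻¹ • d) ∈ Dis Δ a b := by
      have h2 := mem_dis (Δ := Δ) S hd1
      rw [hd1] at h2
      rwa [dis_conj S] at h2
    have hdw := hmin d hd hdis
    have hd2 : (h : G) • b • (h : G)⁻¹ • d = a⁻¹ • d := by
      rw [← hd1, mul_smul, mul_smul]
    have hB : (h : G)⁻¹ • d ∈ R ∧ Δ.δ ((h : G)⁻¹ • d) (b • (h : G)⁻¹ • d) = w := by
      refine ⟨hinv d hd, ?_⟩
      rw [← S.iso (h : G), smul_inv_smul, hd2]
      exact hdw
    refine ⟨⟨((⟨d, hd, hdw⟩, ⟨(h : G)⁻¹ • d, hB⟩), h), ?_⟩, rfl⟩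
    apply Subtype.ext
    rw [hcoe]
    exact Prod.ext (smul_inv_smul _ _) hd2
  have hcard := Nat.card_le_card_of_surjective _ hsurj
  have hHpos : 0 < Nat.card H := Nat.card_pos
  have h5 : Nat.card H * Nat.card X ≤ Nat.card H * (Nat.card A * Nat.card B) := by
    calc Nat.card H * Nat.card X ≤ Nat.card T * Nat.card X := Nat.mul_le_mul_right _ hcard
      _ = Nat.card H * (Nat.card A * Nat.card B) := by rw [hT]; ring
  exact Nat.le_of_mul_le_mul_left h5 hHpos

omit S in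
theorem Role1.conj (S : Sys Δ G p) {x : G} {i : I} {v : W} (h : Role1 Δ x i v) (g : G) :
    Role1 Δ (g * x * g⁻¹) i v := by
  intro E hE
  have e : ∀ D : C, Δ.δ (g⁻¹ • D) (x • g⁻¹ • D) = Δ.δ D ((g * x * g⁻¹) • D) := by
    intro D
    rw [← S.iso g, smul_inv_smul, mul_smul, mul_smul]
  obtain ⟨D, ⟨h1, h2⟩, h3⟩ := h (g⁻¹ • E) (by rw [e]; exact hE)
  refine ⟨g • D, ⟨?_, ?_⟩, ?_⟩
  · have h4 := smul_mem_Pan S (g := g) h1
    rwa [smul_inv_smul] at h4
  · rw [← e, inv_smul_smul]; exact h2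
  · rintro D' ⟨h4, h5⟩
    have h6 := h3 (g⁻¹ • D') ⟨smul_mem_Pan S h4, by rw [e]; exact h5⟩
    rw [← h6, smul_inv_smul]

variable [Finite I] [Finite W] [Finite C]

omit S [Finite I] [Finite W] in
theorem param_pos (hth : Δ.Thick) {i : I} {q : ℕ} (hq : Δ.Param i q) (x : C) : 0 < q := by
  obtain ⟨y, -, -, hy, -⟩ := hth x i
  rw [← card_pan_ne hq x]
  have : Nonempty {y : C // y ∈ Δ.Pan i x ∧ y ≠ x} := ⟨⟨y, Δ.mem_Pan_of_δ hy, (Δ.ne_of_δ_simple hy).symm⟩⟩
  exact Nat.card_pos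

/-- the number of the pairs -/
theorem card_XX {i j : I} (hij : i ≠ j) (hm4 : M i j = 4) {q r : ℕ} (hqi : Δ.Param i q) (hqj : Δ.Param j r) {m : W}
    (hmJ : ∀ u ∈ WJ cs {i, j}, u * m = m * u) (hadd : ∀ u ∈ WJ cs {i, j}, ℓ (m * u) = ℓ m + ℓ u) {x y : C}
    (hxy : m⁻¹ * Δ.δ x y ∈ WJ cs {i, j}) :
    (Δ.Res {i, j} x).ncard * (q * r * q * r) ≤
      Nat.card (XX Δ {i, j} x y (m * (cs.simple i * cs.simple j * cs.simple i * cs.simple j))) := by
  classical
  have hsi := Generic.simple_mem_left cs i j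
  have hsj := Generic.simple_mem_right cs i j
  have hwEm : cs.simple i * cs.simple j * cs.simple i * cs.simple j ∈ WJ cs {i, j} :=
    mul_mem (mul_mem (mul_mem hsi hsj) hsi) hsj
  -- for each chamber of the first residue a chamber at distance `m`
  have hex : ∀ d : Δ.Res {i, j} x, ∃ e ∈ Δ.Res {i, j} y, Δ.δ (d : C) e = m := by
    rintro ⟨d, hd⟩
    obtain ⟨t, ht, e1⟩ := Δ.exists_mul_of_mem_left y (Δ.mem_Res.1 (Δ.mem_Res_symm hd))
    set v := m⁻¹ * Δ.δ x y with hv
    have e2 : Δ.δ d y = m * (t * v) := by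
      rw [e1, show Δ.δ x y = m * v by rw [hv]; group, ← mul_assoc, hmJ t ht, mul_assoc]
    have hu : t * v ∈ WJ cs {i, j} := mul_mem ht hxy
    obtain ⟨e, he1, he2⟩ := Δ.exists_between e2 (hadd _ hu)
    exact ⟨e, Δ.mem_Res_symm (Δ.mem_Res.2 (by rw [he2]; exact hu)), he1⟩
  choose f hf1 hf2 using hex
  have h1 : Nat.card {z : Δ.Res {i, j} x × C // Δ.δ (f z.1) z.2 =
      cs.simple i * cs.simple j * cs.simple i * cs.simple j} = (Δ.Res {i, j} x).ncard * (q * r * q * r) := by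
    rw [Nat.card_congr (Equiv.subtypeProdEquivSigmaSubtype (fun (d : Δ.Res {i, j} x) (z : C) => Δ.δ (f d) z =
      cs.simple i * cs.simple j * cs.simple i * cs.simple j))]
    have := Fintype.ofFinite (Δ.Res {i, j} x)
    have h2 : ∀ d ∈ (Finset.univ : Finset (Δ.Res {i, j} x)), Nat.card {z : C // Δ.δ (f d) z =
        cs.simple i * cs.simple j * cs.simple i * cs.simple j} = q * r * q * r :=
      fun d _ => cn_ijij hij hm4 hqi hqj (f d)
    rw [Nat.card_sigma, Finset.sum_congr rfl h2, Finset.sum_const,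
      Finset.card_univ, smul_eq_mul, ← Nat.card_eq_fintype_card, Nat.card_coe_set_eq]
  rw [← h1]
  have : Finite (XX Δ {i, j} x y (m * (cs.simple i * cs.simple j * cs.simple i * cs.simple j))) := Subtype.finite
  refine Nat.card_le_card_of_injective (fun z => ⟨(z.1.1, z.1.2), z.1.1.2, ?_, ?_⟩) ?_
  · refine Δ.mem_Res_trans (hf1 z.1.1) (Δ.mem_Res.2 ?_)
    rw [z.2]
    exact hwEm
  · exact Δ.δ_mul_of (hf2 z.1.1) z.2 (hadd _ hwEm)
  · intro z z' h
    have h2 := congrArg (fun t => t.1.1) h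
    have h3 := congrArg (fun t => t.1.2) h
    exact Subtype.ext (Prod.ext (Subtype.ext h2) h3)

variable [hp : Fact p.Prime]

/-- **GAIN 1** : mixed roles at a pair `m_ij = 4`. -/
theorem quad_false [Finite G] (hth : Δ.Thick) {a b : G} (hab : Good p a b) {i j : I} (hij : i ≠ j) (hm4 : M i j = 4)
    {m : W} (hmi : cs.simple i * m = m * cs.simple i) (hmj : cs.simple j * m = m * cs.simple j)
    (hli : ℓ m < ℓ (m * cs.simple i)) (hlj : ℓ m < ℓ (m * cs.simple j))
    (hmem : m * wJ cs {i, j} ∈ Dis Δ a b)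
    (hmin : ∀ u ∈ WJ cs {i, j}, m * u ∈ Dis Δ a b → u = wJ cs {i, j})
    (ha : Role1 Δ a⁻¹ j (m * wJ cs {i, j})) (hb : Role1 Δ b i (m * wJ cs {i, j})) : False := by
  classical
  have hm4' : M j i = 4 := by rw [M.symmetric]; exact hm4
  have hadd : ∀ u ∈ WJ cs {i, j}, ℓ (m * u) = ℓ m + ℓ u := by
    refine (isMinR_iff cs).2 ?_
    intro k hk
    rcases hk with rfl | hk
    · exact hli
    · rw [Set.mem_singleton_iff] at hk
      subst hk
      exact hlj
  have hadd' : ∀ u ∈ WJ cs {j, i}, ℓ (m * u) = ℓ m + ℓ u := by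
    rw [Set.pair_comm]; exact hadd
  have hmJ : ∀ u ∈ WJ cs {i, j}, u * m = m * u := by
    refine comm_of_simple ?_
    intro k hk
    rcases hk with rfl | hk
    · exact hmi
    · rw [Set.mem_singleton_iff] at hk
      subst hk
      exact hmj
  have hwJ := Generic.wJ_four cs hij hm4
  have hbr := Generic.braid_four cs hm4
  rw [hwJ] at hmem hmin ha hb
  obtain ⟨g, x0, hx0, hgb⟩ := exists_pair S hth hmem
  have hab' := hab.conjR g
  have hb' := hb.conj S g
  rw [← dis_conj S g] at hmin hmem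
  set b' := g * b * g⁻¹ with hb'def
  have : Nonempty C := ⟨x0⟩
  obtain ⟨q, hq⟩ := exists_param S hth i
  obtain ⟨r, hr⟩ := exists_param S hth j
  have hq0 := param_pos hth hq x0
  have hr0 := param_pos hth hr x0
  have hwEm : cs.simple i * cs.simple j * cs.simple i * cs.simple j ∈ WJ cs {i, j} :=
    mul_mem (mul_mem (mul_mem (Generic.simple_mem_left cs i j) (Generic.simple_mem_right cs i j))
      (Generic.simple_mem_left cs i j)) (Generic.simple_mem_right cs i j)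
  have h0 : m⁻¹ * Δ.δ x0 (a⁻¹ • x0) ∈ WJ cs {i, j} := by
    rw [hx0, inv_mul_cancel_left]
    exact hwEm
  have h1 := local_count S hth hab' hx0 hgb (J := {i, j}) (fun d hd hdd => by
    have h2 := disp_mem S hmJ h0 hd
    have h3 := hmin _ h2 (by rw [mul_inv_cancel_left]; exact hdd)
    rw [← h3, mul_inv_cancel_left])
  have h2 := card_XX S hij hm4 hq hr hmJ hadd h0
  have hA := quad_ineq S hij hm4 hq hr hmi hmj hadd (x0 := x0) ha
  have hB := quad_ineq S hij.symm hm4' hr hq hmj hmi hadd' (x0 := x0) (x := b') (by rw [← hbr]; exact hb')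
  rw [Set.pair_comm j i, ← hbr] at hB
  have hN := card_Res_four (Δ := Δ) hij hm4 hq hr x0
  have hNpos : 0 < (Δ.Res {i, j} x0).ncard := by
    rw [Set.ncard_pos (Set.toFinite _)]
    exact ⟨x0, Δ.self_mem_Res _ x0⟩
  have h3 := h2.trans h1
  generalize (Δ.Res {i, j} x0).ncard = N at *
  generalize Nat.card {d : C // d ∈ Δ.Res {i, j} x0 ∧
    Δ.δ d (a⁻¹ • d) = m * (cs.simple i * cs.simple j * cs.simple i * cs.simple j)} = nA at *
  generalize Nat.card {d : C // d ∈ Δ.Res {i, j} x0 ∧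
    Δ.δ d (b' • d) = m * (cs.simple i * cs.simple j * cs.simple i * cs.simple j)} = nB at *
  have h4 : (N * (q * r * q * r)) * ((q * r + q + 1) * (q * r + r + 1)) ≤ (N * (q * r * q * r)) * N := by
    calc (N * (q * r * q * r)) * ((q * r + q + 1) * (q * r + r + 1))
        ≤ (nA * nB) * ((q * r + q + 1) * (q * r + r + 1)) := Nat.mul_le_mul_right _ h3
      _ = (nA * (q * r + q + 1)) * (nB * (r * q + r + 1)) := by ring
      _ ≤ (q * r * N) * (r * q * N) := Nat.mul_le_mul hA hB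
      _ = (N * (q * r * q * r)) * N := by ring
  have h5 : 0 < N * (q * r * q * r) := by positivity
  have h6 := (Nat.le_of_mul_le_mul_left h4 h5).trans hN
  have h7 : (q * r + q + 1) * (q * r + r + 1) = (1 + q) * (1 + r) * (1 + q * r) + q * r := by ring
  rw [h7] at h6
  have h8 : 0 < q * r := Nat.mul_pos hq0 hr0
  omega

end Cfsg.Agent.H150.AH
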