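import Cfsg.Agent.H150.AH.WtInt
import Cfsg.Agent.Tits.Generic

/-!
# S2451: chambers of a residue of type `B2` (helper150)
-/

set_option autoImplicit false
set_option linter.unusedSectionVars false
set_option linter.unusedVariables false

open scoped Pointwise

namespace Cfsg.Agent.H150.AH

open Cfsg.Agent.Tits.Core Cfsg.Agent.Tits.Core.Bldg Cfsg.Agent.Tits.Exchange Cfsg.Agent.Tits Cfsg.Agent.FixBN
open Cfsg.Agent.H197.Cls Cfsg.Agent.H330.ClassProd

variable {I : Type*} {M : CoxeterMatrix I} {W : Type*} [Group W] {cs : CoxeterSystem M W} {C : Type*}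

local prefix:100 "ℓ" => cs.length

variable {Δ : Bldg cs C}

/-- the number of the chambers at distance `u` from `x` -/
noncomputable def cn (Δ : Bldg cs C) (x : C) (u : W) : ℕ := Nat.card {y : C // Δ.δ x y = u}

theorem cn_one (x : C) : cn Δ x 1 = 1 := by
  unfold cn
  rw [Nat.card_eq_one_iff_unique]
  refine ⟨⟨fun a b => ?_⟩, ⟨⟨x, Δ.δ_self x⟩⟩⟩
  have h1 := Δ.eq_of_δ_eq_one a.2
  have h2 := Δ.eq_of_δ_eq_one b.2
  exact Subtype.ext (h1.symm.trans h2)

theorem cn_mul_simple [Finite C] {i : I} {q : ℕ} (hq : Δ.Param i q) (x : C) {v : W}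
    (hv : ℓ v < ℓ (v * cs.simple i)) : cn Δ x (v * cs.simple i) = cn Δ x v * q := by
  classical
  have hss : cs.simple i * cs.simple i = 1 := cs.simple_mul_simple_self i
  have hne : v * cs.simple i ≠ v := fun h => by rw [h] at hv; exact lt_irrefl _ hv
  let X := {y : C // Δ.δ x y = v}
  let f : {z : X × C // z.2 ∈ Δ.Pan i z.1 ∧ z.2 ≠ z.1} → {y : C // Δ.δ x y = v * cs.simple i} := fun z =>
    ⟨z.1.2, by
      have h1 : Δ.δ (z.1.1 : C) z.1.2 = cs.simple i := Δ.δ_eq_of_mem_Pan (Δ.self_mem_Pan i _) z.2.1 z.2.2.symm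
      have h2 := Δ.step_lt x z.1.1 z.1.2 i h1 (by rw [z.1.1.2]; exact hv)
      rwa [z.1.1.2] at h2⟩
  have hf : Function.Bijective f := by
    constructor
    · rintro ⟨⟨⟨y, hy⟩, z⟩, hz, hzn⟩ ⟨⟨⟨y', hy'⟩, z'⟩, hz', hzn'⟩ h
      have h3 : z = z' := congrArg Subtype.val h
      subst h3
      have h4 : y = y' := by
        by_contra hcon
        have h5 : Δ.δ y y' = cs.simple i :=
          Δ.δ_eq_of_mem_Pan (Δ.mem_Pan_symm hz) (Δ.mem_Pan_symm hz') hcon
        have h6 := Δ.step_lt x y y' i h5 (by rw [hy]; exact hv)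
        rw [hy', hy] at h6
        exact hne h6.symm
      subst h4
      rfl
    · rintro ⟨z, hxz⟩
      obtain ⟨y, hy, hy'⟩ := Δ.exists_step x z i
      rw [hxz, mul_assoc, hss, mul_one] at hy'
      exact ⟨⟨(⟨y, hy'⟩, z), Δ.mem_Pan_symm (Δ.mem_Pan_of_δ hy), Δ.ne_of_δ_simple hy⟩, rfl⟩
  unfold cn
  rw [← Nat.card_eq_of_bijective f hf, Nat.card_congr (Equiv.subtypeProdEquivSigmaSubtype
    (fun (x : X) (z : C) => z ∈ Δ.Pan i x ∧ z ≠ x))]
  have := Fintype.ofFinite X
  rw [Nat.card_sigma, Finset.sum_congr rfl (fun x _ => card_pan_ne hq x.1), Finset.sum_const, Finset.card_univ,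
    smul_eq_mul, ← Nat.card_eq_fintype_card]

variable [Finite I] [Finite W]

omit [Finite I] [Finite W] in
/-- the eight elements -/
theorem mem_WJ_four {i j : I} (hm : M i j = 4) {u : W} (hu : u ∈ WJ cs {i, j}) :
    u = 1 ∨ u = cs.simple i ∨ u = cs.simple j ∨ u = cs.simple i * cs.simple j ∨ u = cs.simple j * cs.simple i ∨
      u = cs.simple i * cs.simple j * cs.simple i ∨ u = cs.simple j * cs.simple i * cs.simple j ∨
      u = cs.simple i * cs.simple j * cs.simple i * cs.simple j := by
  have hb := Generic.braid_four cs hm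
  obtain ⟨ω, hω, hred, rfl⟩ := exists_reduced_of_mem_WJ cs hu
  clear hu hred
  induction ω using List.reverseRecOn with
  | nil => left; rw [cs.wordProd_nil]
  | append_singleton ω k ih =>
    have hk : k = i ∨ k = j := by
      have := hω k (by simp)
      simpa using this
    have h1 := ih (fun a ha => hω a (by simp [ha]))
    rw [cs.wordProd_append, cs.wordProd_singleton]
    rcases hk with rfl | rfl
    · rcases h1 with h | h | h | h | h | h | h | h <;> rw [h]
      · right; left; rw [one_mul]
      · left; rw [cs.simple_mul_simple_self]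
      · right; right; right; right; left; rfl
      · right; right; right; right; right; left; rfl
      · right; right; left; rw [mul_assoc, cs.simple_mul_simple_self, mul_one]
      · right; right; right; left; rw [mul_assoc, cs.simple_mul_simple_self, mul_one]
      · right; right; right; right; right; right; right; rw [hb]
      · right; right; right; right; right; right; left
        rw [hb, mul_assoc, cs.simple_mul_simple_self, mul_one]
    · rcases h1 with h | h | h | h | h | h | h | h <;> rw [h]
      · right; right; left; rw [one_mul]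
      · right; right; right; left; rfl
      · left; rw [cs.simple_mul_simple_self]
      · right; left; rw [mul_assoc, cs.simple_mul_simple_self, mul_one]
      · right; right; right; right; right; right; left; rfl
      · right; right; right; right; right; right; right; rfl
      · right; right; right; right; left; rw [mul_assoc, cs.simple_mul_simple_self, mul_one]
      · right; right; right; right; right; left
        rw [mul_assoc, cs.simple_mul_simple_self, mul_one]

variable {i j : I} {q r : ℕ}

theorem cn_i [Finite C] (hqi : Δ.Param i q) (x : C) : cn Δ x (cs.simple i) = q := by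
  have h1 := cn_mul_simple hqi x (v := 1) (by rw [one_mul, cs.length_one, cs.length_simple]; omega)
  rw [one_mul, cn_one, one_mul] at h1
  exact h1

theorem cn_ij [Finite C] (hij : i ≠ j) (hqi : Δ.Param i q) (hqj : Δ.Param j r) (x : C) :
    cn Δ x (cs.simple i * cs.simple j) = q * r := by
  rw [cn_mul_simple hqj x (by rw [Generic.length_two cs hij, cs.length_simple]; omega), cn_i hqi]

theorem cn_iji [Finite C] (hij : i ≠ j) (hm : M i j = 4) (hqi : Δ.Param i q) (hqj : Δ.Param j r) (x : C) :
    cn Δ x (cs.simple i * cs.simple j * cs.simple i) = q * r * q := by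
  rw [cn_mul_simple hqi x (by rw [Generic.length_three cs hij (by omega), Generic.length_two cs hij]; omega),
    cn_ij hij hqi hqj]

theorem cn_ijij [Finite C] (hij : i ≠ j) (hm : M i j = 4) (hqi : Δ.Param i q) (hqj : Δ.Param j r) (x : C) :
    cn Δ x (cs.simple i * cs.simple j * cs.simple i * cs.simple j) = q * r * q * r := by
  rw [cn_mul_simple hqj x (by rw [Generic.length_four cs hij hm, Generic.length_three cs hij (by omega)]; omega),
    cn_iji hij hm hqi hqj]

/-- the number of chambers of the residue -/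
theorem card_Res_four [Finite C] (hij : i ≠ j) (hm : M i j = 4) (hqi : Δ.Param i q) (hqj : Δ.Param j r) (x : C) :
    (Δ.Res {i, j} x).ncard ≤ (1 + q) * (1 + r) * (1 + q * r) := by
  have hm' : M j i = 4 := by rw [M.symmetric]; exact hm
  let A : W → Set C := fun u => {y | Δ.δ x y = u}
  have hA : ∀ u, (A u).ncard = cn Δ x u := fun u => by
    rw [← Nat.card_coe_set_eq]; rfl
  have h1 : Δ.Res {i, j} x ⊆ A 1 ∪ A (cs.simple i) ∪ A (cs.simple j) ∪ A (cs.simple i * cs.simple j) ∪
      A (cs.simple j * cs.simple i) ∪ A (cs.simple i * cs.simple j * cs.simple i) ∪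
      A (cs.simple j * cs.simple i * cs.simple j) ∪ A (cs.simple i * cs.simple j * cs.simple i * cs.simple j) := by
    intro y hy
    simp only [A, Set.mem_union, Set.mem_ofPred_eq]
    have h2 := mem_WJ_four hm (Δ.mem_Res.1 hy)
    tauto
  have h2 := Set.ncard_le_ncard h1 (Set.toFinite _)
  have h3 := Set.ncard_union_le (A 1) (A (cs.simple i))
  have h4 := Set.ncard_union_le (A 1 ∪ A (cs.simple i)) (A (cs.simple j))
  have h5 := Set.ncard_union_le (A 1 ∪ A (cs.simple i) ∪ A (cs.simple j)) (A (cs.simple i * cs.simple j))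
  have h6 := Set.ncard_union_le (A 1 ∪ A (cs.simple i) ∪ A (cs.simple j) ∪ A (cs.simple i * cs.simple j))
    (A (cs.simple j * cs.simple i))
  have h7 := Set.ncard_union_le (A 1 ∪ A (cs.simple i) ∪ A (cs.simple j) ∪ A (cs.simple i * cs.simple j) ∪
    A (cs.simple j * cs.simple i)) (A (cs.simple i * cs.simple j * cs.simple i))
  have h8 := Set.ncard_union_le (A 1 ∪ A (cs.simple i) ∪ A (cs.simple j) ∪ A (cs.simple i * cs.simple j) ∪
    A (cs.simple j * cs.simple i) ∪ A (cs.simple i * cs.simple j * cs.simple i))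
    (A (cs.simple j * cs.simple i * cs.simple j))
  have h9 := Set.ncard_union_le (A 1 ∪ A (cs.simple i) ∪ A (cs.simple j) ∪ A (cs.simple i * cs.simple j) ∪
    A (cs.simple j * cs.simple i) ∪ A (cs.simple i * cs.simple j * cs.simple i) ∪
    A (cs.simple j * cs.simple i * cs.simple j)) (A (cs.simple i * cs.simple j * cs.simple i * cs.simple j))
  simp only [hA] at h3 h4 h5 h6 h7 h8 h9
  rw [cn_one, cn_i hqi] at h3
  rw [cn_i hqj] at h4
  rw [cn_ij hij hqi hqj] at h5
  rw [cn_ij hij.symm hqj hqi] at h6
  rw [cn_iji hij hm hqi hqj] at h7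
  rw [cn_iji hij.symm hm' hqj hqi] at h8
  rw [cn_ijij hij hm hqi hqj] at h9
  have e : (1 + q) * (1 + r) * (1 + q * r) = 1 + q + r + q * r + r * q + q * r * q + r * q * r + q * r * q * r := by
    ring
  rw [e]
  omega

end Cfsg.Agent.H150.AH
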