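import Cfsg.Agent.H150.AH.QuadCard

/-!
# S2451: the inequality for an element of role 1 at one node of a `B2` residue (helper150)
-/

set_option autoImplicit false
set_option linter.unusedSectionVars false
set_option linter.unusedVariables false

open scoped Pointwise

namespace Cfsg.Agent.H150.AH

open Cfsg.Agent.Tits.Core Cfsg.Agent.Tits.Core.Bldg Cfsg.Agent.Tits.Exchange Cfsg.Agent.Tits Cfsg.Agent.FixBN
open Cfsg.Agent.H197.Cls Cfsg.Agent.H330.ClassProd

variable {I : Type*} {M : CoxeterMatrix I} {W : Type*} [Group W] {cs : CoxeterSystem M W} {C : Type*}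

local prefix:100 "ℓ" => cs.length

variable {Δ : Bldg cs C}

/-- the elements of `W_J` commute with `m` -/
theorem comm_of_simple {J : Set I} {m : W} (h : ∀ k ∈ J, cs.simple k * m = m * cs.simple k) :
    ∀ u ∈ WJ cs J, u * m = m * u := by
  have h1 : WJ cs J ≤ Subgroup.centralizer {m} := by
    rw [WJ, Subgroup.closure_le]
    rintro _ ⟨j, hj, rfl⟩
    rw [SetLike.mem_coe, Subgroup.mem_centralizer_singleton_iff]
    exact h j hj
  intro u hu
  have h2 := h1 hu
  rwa [Subgroup.mem_centralizer_singleton_iff] at h2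

variable {G : Type*} [Group G] [MulAction G C] {p : ℕ} (S : Sys Δ G p)

include S

/-- the displacements in the residue -/
theorem disp_mem {J : Set I} {m : W} (hm : ∀ u ∈ WJ cs J, u * m = m * u) {x : G} {x0 d : C}
    (h : m⁻¹ * Δ.δ x0 (x • x0) ∈ WJ cs J) (hd : d ∈ Δ.Res J x0) : m⁻¹ * Δ.δ d (x • d) ∈ WJ cs J := by
  have h1 : x • d ∈ Δ.Res J (x • x0) := S.smul_mem_Res hd
  obtain ⟨t, ht, e1⟩ := Δ.exists_mul_of_mem x0 (Δ.mem_Res.1 h1)
  obtain ⟨t', ht', e2⟩ := Δ.exists_mul_of_mem_left (x • d) (Δ.mem_Res.1 (Δ.mem_Res_symm hd))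
  rw [e2, e1]
  set v := Δ.δ x0 (x • x0) with hv
  have e3 : m⁻¹ * (t' * (v * t)) = t' * (m⁻¹ * v) * t := by
    have h4 : m⁻¹ * t' = t' * m⁻¹ := by
      rw [inv_mul_eq_iff_eq_mul, ← mul_assoc, ← hm t' ht', mul_assoc, mul_inv_cancel, mul_one]
    calc m⁻¹ * (t' * (v * t)) = (m⁻¹ * t') * v * t := by group
      _ = (t' * m⁻¹) * v * t := by rw [h4]
      _ = _ := by group
  rw [e3]
  exact mul_mem (mul_mem ht' h) ht

variable [Finite I] [Finite W] [Finite C] {i j : I} {q r : ℕ}

/-- the panel of type `i` of a chamber of displacement `m s t s` -/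
theorem exists_small (hij : i ≠ j) (hm4 : M i j = 4) {m : W} (hmi : cs.simple i * m = m * cs.simple i)
    (hadd : ∀ u ∈ WJ cs {i, j}, ℓ (m * u) = ℓ m + ℓ u) {x : G} {d : C}
    (hd : Δ.δ d (x • d) = m * (cs.simple i * cs.simple j * cs.simple i)) :
    ∃ e ∈ Δ.Pan i d, Δ.δ e (x • e) = m * cs.simple j ∨ Δ.δ e (x • e) = m * (cs.simple j * cs.simple i) := by
  have hss : cs.simple i * cs.simple i = 1 := cs.simple_mul_simple_self i
  have hsi := Generic.simple_mem_left cs i j
  have hsj := Generic.simple_mem_right cs i j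
  have l1 : ℓ (m * cs.simple j) = ℓ m + 1 := by rw [hadd _ hsj, cs.length_simple]
  have l2 : ℓ (m * (cs.simple j * cs.simple i)) = ℓ m + 2 := by
    rw [hadd _ (mul_mem hsj hsi), Generic.length_two cs hij.symm]
  have l2' : ℓ (m * (cs.simple i * cs.simple j)) = ℓ m + 2 := by
    rw [hadd _ (mul_mem hsi hsj), Generic.length_two cs hij]
  have l3 : ℓ (m * (cs.simple i * cs.simple j * cs.simple i)) = ℓ m + 3 := by
    rw [hadd _ (mul_mem (mul_mem hsi hsj) hsi), Generic.length_three cs hij (by omega)]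
  -- products with `s_i`
  have e1 : cs.simple i * (m * (cs.simple i * cs.simple j * cs.simple i)) = m * (cs.simple j * cs.simple i) := by
    calc cs.simple i * (m * (cs.simple i * cs.simple j * cs.simple i))
        = (cs.simple i * m) * (cs.simple i * cs.simple j * cs.simple i) := by group
      _ = m * ((cs.simple i * cs.simple i) * (cs.simple j * cs.simple i)) := by rw [hmi]; group
      _ = _ := by rw [hss, one_mul]
  have e2 : m * (cs.simple i * cs.simple j * cs.simple i) * cs.simple i = m * (cs.simple i * cs.simple j) := by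
    calc m * (cs.simple i * cs.simple j * cs.simple i) * cs.simple i
        = m * (cs.simple i * cs.simple j * (cs.simple i * cs.simple i)) := by group
      _ = _ := by rw [hss, mul_one]
  have e3 : cs.simple i * (m * (cs.simple i * cs.simple j)) = m * cs.simple j := by
    calc cs.simple i * (m * (cs.simple i * cs.simple j))
        = (cs.simple i * m) * (cs.simple i * cs.simple j) := by group
      _ = m * ((cs.simple i * cs.simple i) * cs.simple j) := by rw [hmi]; group
      _ = _ := by rw [hss, one_mul]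
  have e4 : m * (cs.simple j * cs.simple i) * cs.simple i = m * cs.simple j := by
    calc m * (cs.simple j * cs.simple i) * cs.simple i = m * (cs.simple j * (cs.simple i * cs.simple i)) := by group
      _ = _ := by rw [hss, mul_one]
  have hne : cs.simple i * Δ.δ d (x • d) ≠ Δ.δ d (x • d) * cs.simple i := by
    rw [hd, e1, e2]
    intro h
    have h1 := mul_left_cancel h
    have h2 : cs.simple i * cs.simple j * cs.simple i = cs.simple j := by
      rw [← h1, mul_assoc, hss, mul_one]
    have h3 := Generic.length_three cs hij (by omega : M i j ≠ 2)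
    rw [h2, cs.length_simple] at h3
    omega
  obtain ⟨x0, hx0, y0, hy0, h⟩ := exists_np hne
  have hxe : x • x0 ∈ Δ.Pan i y0 := by
    rw [Δ.Pan_eq_of_mem hy0]
    exact smul_mem_Pan S hx0
  -- `δ x0 y0 = m s_j`
  have hn : Δ.δ x0 y0 = m * cs.simple j := by
    have hdp : d ∈ Δ.Pan i x0 := Δ.mem_Pan_symm hx0
    have hxdp : x • d ∈ Δ.Pan i y0 := Δ.mem_Pan_symm hy0
    have hL := h.left
    have hR := h.right
    by_cases h1 : d = x0
    · by_cases h2 : x • d = y0
      · exfalso
        rw [← h1, ← h2, hd, e2, l3, l2'] at hR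
        omega
      · exfalso
        have h3 := h.dR hxdp h2
        rw [← h1, hd] at h3
        have h4 : Δ.δ x0 y0 = m * (cs.simple i * cs.simple j) := by
          have h5 : Δ.δ d y0 * cs.simple i * cs.simple i = Δ.δ d y0 := by rw [mul_assoc, hss, mul_one]
          rw [← h1, ← h5, ← h3, e2]
        rw [h4, e3, l1, l2'] at hL
        omega
    · by_cases h2 : x • d = y0
      · exfalso
        have h3 := h.dL hdp h1
        rw [← h2, hd] at h3
        have h4 : Δ.δ x0 y0 = m * (cs.simple j * cs.simple i) := by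
          have h5 : cs.simple i * (cs.simple i * Δ.δ x0 (x • d)) = Δ.δ x0 (x • d) := by
            rw [← mul_assoc, hss, one_mul]
          rw [← h2, ← h5, ← h3, e1]
        rw [h4, e4, l1, l2] at hR
        omega
      · have h3 := h.dLR hdp h1 hxdp h2
        rw [hd] at h3
        have h5 : cs.simple i * (cs.simple i * Δ.δ x0 y0 * cs.simple i) * cs.simple i = Δ.δ x0 y0 := by
          calc cs.simple i * (cs.simple i * Δ.δ x0 y0 * cs.simple i) * cs.simple i
              = (cs.simple i * cs.simple i) * Δ.δ x0 y0 * (cs.simple i * cs.simple i) := by group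
            _ = _ := by rw [hss, one_mul, mul_one]
        rw [← h5, ← h3, e1, e4]
  refine ⟨x0, hx0, ?_⟩
  by_cases h6 : x • x0 = y0
  · left; rw [h6, hn]
  · right; rw [h.dR hxe h6, hn, mul_assoc]

/-- **The inequality.** -/
theorem quad_ineq (hij : i ≠ j) (hm4 : M i j = 4) (hqi : Δ.Param i q) (hqj : Δ.Param j r) {m : W}
    (hmi : cs.simple i * m = m * cs.simple i) (hmj : cs.simple j * m = m * cs.simple j)
    (hadd : ∀ u ∈ WJ cs {i, j}, ℓ (m * u) = ℓ m + ℓ u) {x : G} {x0 : C}
    (hr : Role1 Δ x j (m * (cs.simple i * cs.simple j * cs.simple i * cs.simple j))) :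
    Nat.card {d : C // d ∈ Δ.Res {i, j} x0 ∧
      Δ.δ d (x • d) = m * (cs.simple i * cs.simple j * cs.simple i * cs.simple j)} * (q * r + q + 1) ≤
      q * r * (Δ.Res {i, j} x0).ncard := by
  classical
  have hm4' : M j i = 4 := by rw [M.symmetric]; exact hm4
  have hss : cs.simple i * cs.simple i = 1 := cs.simple_mul_simple_self i
  have htt : cs.simple j * cs.simple j = 1 := cs.simple_mul_simple_self j
  have hsi := Generic.simple_mem_left cs i j
  have hsj := Generic.simple_mem_right cs i j
  have hb := Generic.braid_four cs hm4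
  set wE := cs.simple i * cs.simple j * cs.simple i * cs.simple j with hwE
  have l1 : ℓ (m * cs.simple j) = ℓ m + 1 := by rw [hadd _ hsj, cs.length_simple]
  have l2 : ℓ (m * (cs.simple j * cs.simple i)) = ℓ m + 2 := by
    rw [hadd _ (mul_mem hsj hsi), Generic.length_two cs hij.symm]
  have l3 : ℓ (m * (cs.simple i * cs.simple j * cs.simple i)) = ℓ m + 3 := by
    rw [hadd _ (mul_mem (mul_mem hsi hsj) hsi), Generic.length_three cs hij (by omega)]
  have l4 : ℓ (m * wE) = ℓ m + 4 := by
    rw [hadd _ (mul_mem (mul_mem (mul_mem hsi hsj) hsi) hsj), Generic.length_four cs hij hm4]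
  have ewt : m * wE * cs.simple j = m * (cs.simple i * cs.simple j * cs.simple i) := by
    rw [hwE]
    calc m * (cs.simple i * cs.simple j * cs.simple i * cs.simple j) * cs.simple j
        = m * (cs.simple i * cs.simple j * cs.simple i * (cs.simple j * cs.simple j)) := by group
      _ = _ := by rw [htt, mul_one]
  have hcomm : cs.simple j * (m * wE) = (m * wE) * cs.simple j := by
    rw [ewt, ← mul_assoc, hmj, mul_assoc, hb]
    congr 1
    calc cs.simple j * (cs.simple j * cs.simple i * cs.simple j * cs.simple i)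
        = (cs.simple j * cs.simple j) * (cs.simple i * cs.simple j * cs.simple i) := by group
      _ = _ := by rw [htt, one_mul]
  let R := Δ.Res {i, j} x0
  let Y : C → Prop := fun e => e ∈ R ∧ Δ.δ e (x • e) = m * wE
  have hPanR : ∀ k, k = i ∨ k = j → ∀ e ∈ R, ∀ d ∈ Δ.Pan k e, d ∈ R := by
    intro k hk e he d hd
    refine Δ.mem_Res_trans he (Δ.Pan_subset_Res ?_ e hd)
    rcases hk with rfl | rfl <;> simp
  have hi : ∀ E, Y E → ∃ D ∈ Δ.Pan j E, Δ.δ D (x • D) = m * wE * cs.simple j ∧
      ∀ D' ∈ Δ.Pan j E, D' ≠ D → Y D' := by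
    rintro E ⟨hE1, hE2⟩
    obtain ⟨D, ⟨h1, h2⟩, h3⟩ := hr E hE2
    refine ⟨D, h1, h2, fun D' hD' hne => ⟨hPanR j (Or.inr rfl) E hE1 D' hD', ?_⟩⟩
    rcases disp_adj S hcomm hE2 hD' with h4 | h4
    · exact h4
    · exact absurd (h3 D' ⟨hD', h4⟩) hne
  have hcard := HH.card S hqj (fun E hE => hE.2) hi
  let P : C → Prop := fun D => Δ.δ D (x • D) = m * wE * cs.simple j ∧ ∃ E, Y E ∧ D ∈ Δ.Pan j E
  let Z : C → Prop := fun e => e ∈ R ∧ (Δ.δ e (x • e) = m * cs.simple j ∨ Δ.δ e (x • e) = m * (cs.simple j * cs.simple i))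
  have hPR : ∀ D, P D → D ∈ R := by
    rintro D ⟨-, E, hE, hD⟩
    exact hPanR j (Or.inr rfl) E hE.1 D hD
  -- `P` and `Z`
  have hex : ∀ D : {D // P D}, ∃ e : {e // Z e}, (e : C) ∈ Δ.Pan i D ∧ (D : C) ≠ e := by
    rintro ⟨D, hD⟩
    have hD1 : Δ.δ D (x • D) = m * (cs.simple i * cs.simple j * cs.simple i) := by rw [hD.1, ewt]
    obtain ⟨e, he, he'⟩ := exists_small S hij hm4 hmi hadd hD1
    refine ⟨⟨e, hPanR i (Or.inl rfl) D (hPR D hD) e he, he'⟩, he, ?_⟩
    intro h1
    have h1' : D = e := h1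
    rw [← h1', hD1] at he'
    rcases he' with h2 | h2 <;> have h3 := congrArg cs.length h2 <;> omega
  choose g hg1 hg2 using hex
  have hPZ : Nat.card {D // P D} ≤ Nat.card {e // Z e} * q := by
    have h1 : Nat.card {z : {e // Z e} × C // z.2 ∈ Δ.Pan i z.1 ∧ z.2 ≠ z.1} = Nat.card {e // Z e} * q := by
      rw [Nat.card_congr (Equiv.subtypeProdEquivSigmaSubtype
        (fun (e : {e // Z e}) (z : C) => z ∈ Δ.Pan i e ∧ z ≠ e))]
      have := Fintype.ofFinite {e // Z e}
      rw [Nat.card_sigma, Finset.sum_congr rfl (fun e _ => card_pan_ne hqi e.1), Finset.sum_const, Finset.card_univ,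
        smul_eq_mul, ← Nat.card_eq_fintype_card]
    rw [← h1]
    refine Nat.card_le_card_of_injective (fun D : {D // P D} => (⟨(g D, D), Δ.mem_Pan_symm (hg1 D), hg2 D⟩ :
      {z : {e // Z e} × C // z.2 ∈ Δ.Pan i z.1 ∧ z.2 ≠ z.1})) ?_
    intro D D' h
    exact Subtype.ext (congrArg (fun z => z.1.2) h)
  -- disjointness
  have hsum : Nat.card {d // Y d} + Nat.card {D // P D} + Nat.card {e // Z e} ≤ R.ncard := by
    have a1 : Nat.card {d // Y d} = ({d | Y d} : Set C).ncard := by rw [← Nat.card_coe_set_eq]; rfl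
    have a2 : Nat.card {d // P d} = ({d | P d} : Set C).ncard := by rw [← Nat.card_coe_set_eq]; rfl
    have a3 : Nat.card {d // Z d} = ({d | Z d} : Set C).ncard := by rw [← Nat.card_coe_set_eq]; rfl
    rw [a1, a2, a3, ← Set.ncard_union_eq ?_ (Set.toFinite _) (Set.toFinite _),
      ← Set.ncard_union_eq ?_ (Set.toFinite _) (Set.toFinite _)]
    · refine Set.ncard_le_ncard ?_ (Set.toFinite _)
      rintro d ((hd | hd) | hd)
      · exact hd.1
      · exact hPR d hd
      · exact hd.1
    · rw [Set.disjoint_left]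
      rintro d (hd | hd) hd'
      · have hd1 : Δ.δ d (x • d) = m * wE := hd.2
        rcases hd'.2 with h2 | h2 <;> rw [hd1] at h2 <;> have h3 := congrArg cs.length h2 <;> omega
      · have hd1 : Δ.δ d (x • d) = m * wE * cs.simple j := hd.1
        rw [ewt] at hd1
        rcases hd'.2 with h2 | h2 <;> rw [hd1] at h2 <;> have h3 := congrArg cs.length h2 <;> omega
    · rw [Set.disjoint_left]
      rintro d hd hd'
      have hd1 : Δ.δ d (x • d) = m * wE := hd.2
      have hd2 : Δ.δ d (x • d) = m * wE * cs.simple j := hd'.1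
      rw [hd1, ewt] at hd2
      have h3 := congrArg cs.length hd2
      omega
  change Nat.card {d // Y d} * (q * r + q + 1) ≤ q * r * R.ncard
  have hcard' : Nat.card {d // Y d} = Nat.card {D // P D} * r := hcard
  rw [hcard'] at hsum ⊢
  generalize Nat.card {D // P D} = P' at *
  generalize Nat.card {e // Z e} = Z' at *
  generalize R.ncard = N at *
  -- `P' r + P' + Z' ≤ N`, `P' ≤ Z' q`
  have h1 : P' * (q * r + q + 1) ≤ q * N := by
    calc P' * (q * r + q + 1) = q * (P' * r + P') + P' := by ring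
      _ ≤ q * (P' * r + P') + Z' * q := by omega
      _ = q * (P' * r + P' + Z') := by ring
      _ ≤ q * N := Nat.mul_le_mul_left q hsum
  calc P' * r * (q * r + q + 1) = r * (P' * (q * r + q + 1)) := by ring
    _ ≤ r * (q * N) := Nat.mul_le_mul_left r h1
    _ = q * r * N := by ring

end Cfsg.Agent.H150.AH
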