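import Cfsg.Agent.H307.ZeroHecke
import Cfsg.Agent.H150.AH.Quad
import Cfsg.Agent.H197.Cls.Roles

/-!
# S2451: the same element has role E at two nodes (helper150)

`aniso_false` : the chambers of a `K`-residue are not all moved to the longest possible distance (`0`-Hecke trace
formula of `H307/ZeroHecke`).
`same_false` : `v = w_K m`; `x` has role E at all nodes of `K` : contradiction, as soon as `W_K` has an element of full
support which is not the longest one.
`same_pair_false`, `same_wJ_false` : `K = {i, j}`, `m_ij ≥ 3`.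
-/

set_option autoImplicit false
set_option linter.unusedSectionVars false
set_option linter.unusedVariables false

open scoped Pointwise

namespace Cfsg.Agent.H150.AH

open Cfsg.Agent.Tits.Core Cfsg.Agent.Tits.Core.Bldg Cfsg.Agent.Tits.Exchange Cfsg.Agent.Tits Cfsg.Agent.FixBN
open Cfsg.Agent.H197.Cls

variable {I : Type*} {M : CoxeterMatrix I} {W : Type*} [Group W] {cs : CoxeterSystem M W} {C : Type*}

local prefix:100 "ℓ" => cs.length

/-- the longest element has full support -/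
theorem mem_of_longest_mem {K K' : Set I} {w1 w : W} (hw1 : IsLongest cs K w1) (hw : w ∈ WJ cs K)
    (h1 : w1 ∈ WJ cs K') : w ∈ WJ cs K' := by
  have key : ∀ k ∈ K, cs.simple k ∈ WJ cs K' := by
    intro k hk
    refine mem_WJ_of_nn cs h1 ((nn_eq_one_iff_isRightInversion cs (cs.isReflection_simple k)).2
      ⟨cs.isReflection_simple k, ?_⟩)
    have := (hw1.2 (cs.simple k) (simple_mem_WJ cs hk)).1
    rw [cs.length_simple] at this
    omega
  obtain ⟨ω, hω, rfl⟩ := exists_word_of_mem_WJ cs hw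
  refine Subgroup.list_prod_mem _ ?_
  intro y hy
  obtain ⟨k, hk, rfl⟩ := List.mem_map.1 hy
  exact key k (hω k hk)

variable {Δ : Bldg cs C} {G : Type*} [Group G] [MulAction G C] {p : ℕ} (S : Sys Δ G p)

include S

variable [hp : Fact p.Prime] [F : OppRes.Cox cs] [Finite C]

theorem panOne (hth : Δ.Thick) (x : C) (i : I) : H307.ZeroHecke.PanOne Δ p i := by
  have : Nonempty C := ⟨x⟩
  obtain ⟨q, hq⟩ := exists_param S hth i
  have h1 := param_mod S hth hq
  intro y
  have h2 := card_pan_ne hq y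
  have h3 : Nat.card {z // Δ.δ y z = cs.simple i} = Nat.card {z : C // z ∈ Δ.Pan i y ∧ z ≠ y} := by
    refine Nat.card_congr (Equiv.subtypeEquivRight fun z => ?_)
    constructor
    · intro h
      exact ⟨Δ.mem_Pan_of_δ h, (Δ.ne_of_δ_simple h).symm⟩
    · rintro ⟨h, hne⟩
      exact Δ.δ_eq_of_mem_Pan (Δ.self_mem_Pan i y) h hne.symm
  rw [h3, h2]
  exact h1

/-- **No residue is moved to the longest distance everywhere.** -/
theorem aniso_false (hth : Δ.Thick) {K : Set I} {w1 m : W} (hw1 : IsLongest cs K w1) (hmR : IsMinR cs K m)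
    (hmc : ∀ u ∈ WJ cs K, u * m = m * u) {x : G} {c0 : C}
    (h : ∀ c ∈ Δ.Res K c0, Δ.δ c (x • c) = m * w1) {w : W} (hw : w ∈ WJ cs K)
    (hfull : ∀ K' ⊆ K, K' ≠ K → w ∉ WJ cs K') (hne : w ≠ w1) : False := by
  classical
  have : Nonempty C := ⟨c0⟩
  have : Finite W := finite_W Δ
  have hadd : ∀ u ∈ WJ cs K, ℓ (u * m) = ℓ u + ℓ m := by
    intro u hu
    rw [hmc u hu, hmR u hu, add_comm]
  have hex : ∀ c : Δ.Res K c0, ∃ y : Δ.Res K c0, Δ.δ (c : C) (y : C) = w1 ∧ Δ.δ (y : C) (x • (c : C)) = m := by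
    intro c
    obtain ⟨y, h1, h2⟩ := Δ.exists_between (v := w1) (w := m) (by rw [h c c.2, hmc _ hw1.1]) (hadd _ hw1.1)
    refine ⟨⟨y, Δ.mem_Res_trans c.2 (Δ.mem_Res.2 ?_)⟩, h1, h2⟩
    rw [h1]
    exact hw1.1
  choose f hf1 hf2 using hex
  have hiso : ∀ c c' : Δ.Res K c0, Δ.δ (f c : C) (f c' : C) = Δ.δ (c : C) (c' : C) := by
    intro c c'
    have hu : Δ.δ (c : C) (c' : C) ∈ WJ cs K := Δ.δ_mem_of_mem_Res c.2 c'.2
    have hu' : Δ.δ (f c : C) (f c' : C) ∈ WJ cs K := Δ.δ_mem_of_mem_Res (f c).2 (f c').2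
    have h1 : Δ.δ (f c : C) (x • (c' : C)) = m * Δ.δ (c : C) (c' : C) :=
      Δ.δ_mul_of (hf2 c) (S.iso x _ _) (hmR _ hu)
    have h2 : Δ.δ (f c : C) (x • (c' : C)) = Δ.δ (f c : C) (f c' : C) * m :=
      Δ.δ_mul_of rfl (hf2 c') (hadd _ hu')
    rw [h1, hmc _ hu'] at h2
    exact (mul_left_cancel h2).symm
  have hinj : Function.Injective f := by
    intro c c' hcc
    apply Subtype.ext
    rw [← Δ.eq_one, ← hiso, hcc, Δ.δ_self]
  have hbij : Function.Bijective f := Finite.injective_iff_bijective.1 hinj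
  let e : Equiv.Perm (Δ.Res K c0) := Equiv.ofBijective f hbij
  obtain ⟨c, hc⟩ := H307.ZeroHecke.exists_delta_eq Δ (p := p) (K := K) (x0 := c0) (fun i _ => panOne S hth c0 i)
    (f := e) hiso (fun c K' h1 h2 h3 => by
      have h4 : Δ.δ (c : C) (e c : C) = w1 := hf1 c
      rw [h4] at h3
      exact hfull K' h1 h2 (mem_of_longest_mem hw1 hw h3)) hw hfull
  have h4 : Δ.δ (c : C) (e c : C) = w1 := hf1 c
  exact hne (hc.symm.trans h4)

/-- **The same element has role E at all nodes of `K`.** -/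
theorem same_false (hth : Δ.Thick) {K : Set I} {w1 m : W} (hw1 : IsLongest cs K w1) (hmR : IsMinR cs K m)
    (hmc : ∀ u ∈ WJ cs K, u * m = m * u) (hcen : ∀ k ∈ K, cs.simple k * w1 = w1 * cs.simple k) {x : G}
    (hv : ∃ c, Δ.δ c (x • c) = m * w1) (hE : ∀ k ∈ K, RoleE Δ x k (m * w1)) {w : W} (hw : w ∈ WJ cs K)
    (hfull : ∀ K' ⊆ K, K' ≠ K → w ∉ WJ cs K') (hne : w ≠ w1) : False := by
  obtain ⟨c0, hc0⟩ := hv
  refine aniso_false S hth hw1 hmR hmc (x := x) (c0 := c0) ?_ hw hfull hne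
  -- one step
  have step : ∀ k ∈ K, ∀ c d : C, Δ.δ c (x • c) = m * w1 → Δ.δ c d = cs.simple k → Δ.δ d (x • d) = m * w1 := by
    intro k hk c d hc hd
    have hcomm : cs.simple k * (m * w1) = m * w1 * cs.simple k := by
      rw [← mul_assoc, hmc _ (simple_mem_WJ cs hk), mul_assoc, hcen k hk, mul_assoc]
    rcases disp_adj S hcomm hc (Δ.mem_Pan_of_δ hd) with h1 | h1
    · exact h1
    · exact absurd h1 (hE k hk d)
  -- all chambers of the residue
  have main : ∀ ω : List I, (∀ i ∈ ω, i ∈ K) → ∀ c : C, Δ.δ c (x • c) = m * w1 → ∀ d, cs.IsReduced ω →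
      Δ.δ c d = cs.wordProd ω → Δ.δ d (x • d) = m * w1 := by
    intro ω
    induction ω with
    | nil =>
      intro _ c hc d _ hd
      rw [cs.wordProd_nil] at hd
      rw [← Δ.eq_of_δ_eq_one hd]
      exact hc
    | cons k ω ih =>
      intro hω c hc d hr hd
      have hr' : cs.IsReduced ω := by
        have := hr.drop 1
        rwa [List.drop_one, List.tail_cons] at this
      rw [cs.wordProd_cons] at hd
      obtain ⟨y, hy1, hy2⟩ := Δ.exists_between hd (by
        rw [← cs.wordProd_cons]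
        have h1 : ℓ (cs.wordProd (k :: ω)) = (k :: ω).length := hr
        have h2 : ℓ (cs.wordProd ω) = ω.length := hr'
        rw [h1, h2, cs.length_simple, List.length_cons, add_comm])
      exact ih (fun i hi => hω i (List.mem_cons_of_mem _ hi)) y (step k (hω k List.mem_cons_self) c y hc hy1) d hr' hy2
  intro c hc
  obtain ⟨ω, hω, hr, e⟩ := exists_reduced_of_mem_WJ cs (Δ.mem_Res.1 hc)
  exact main ω hω c0 hc0 c hr e.symm

variable [Finite I]

omit S hp [Finite C] in
theorem full_pair [Finite W] {i j : I} (hij : i ≠ j) (K' : Set I) (h1 : K' ⊆ {i, j}) (h2 : K' ≠ {i, j}) :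
    cs.simple i * cs.simple j ∉ WJ cs K' := by
  intro h
  have h3 : K' ⊆ {i} ∨ K' ⊆ {j} := by
    by_contra hcon
    push Not at hcon
    obtain ⟨ha, hb⟩ := hcon
    rw [Set.not_subset] at ha hb
    obtain ⟨a, ha1, ha2⟩ := ha
    obtain ⟨b, hb1, hb2⟩ := hb
    apply h2
    apply Set.Subset.antisymm h1
    have e1 : a = j := by
      rcases h1 ha1 with h | h
      · exact absurd h ha2
      · exact h
    have e2 : b = i := by
      rcases h1 hb1 with h | h
      · exact h
      · exact absurd h hb2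
    rintro k (rfl | hk)
    · rw [← e2]; exact hb1
    · rw [Set.mem_singleton_iff] at hk
      rw [hk, ← e1]; exact ha1
  have hl := Generic.length_two cs hij
  rcases h3 with h3 | h3
  · rcases mem_WJ_singleton.1 (WJ_mono cs h3 h) with h4 | h4
    · rw [h4, cs.length_one] at hl; omega
    · rw [h4, cs.length_simple] at hl; omega
  · rcases mem_WJ_singleton.1 (WJ_mono cs h3 h) with h4 | h4
    · rw [h4, cs.length_one] at hl; omega
    · rw [h4, cs.length_simple] at hl; omega

/-- **The same element has role E at `i` and `j`**, `v = m w_ij`. -/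
theorem same_pair_false (hth : Δ.Thick) {i j : I} (hij : i ≠ j) (hM : M i j ≠ 2) {m : W}
    (hmi : cs.simple i * m = m * cs.simple i) (hmj : cs.simple j * m = m * cs.simple j)
    (hli : ℓ m < ℓ (m * cs.simple i)) (hlj : ℓ m < ℓ (m * cs.simple j))
    (hci : cs.simple i * wJ cs {i, j} = wJ cs {i, j} * cs.simple i)
    (hcj : cs.simple j * wJ cs {i, j} = wJ cs {i, j} * cs.simple j) {x : G}
    (hv : ∃ c, Δ.δ c (x • c) = m * wJ cs {i, j}) (hi : RoleE Δ x i (m * wJ cs {i, j}))
    (hj : RoleE Δ x j (m * wJ cs {i, j})) : False := by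
  have : Nonempty C := ⟨hv.choose⟩
  have : Finite W := finite_W Δ
  have hl := isLongest_wJ cs ({i, j} : Set I)
  refine same_false S hth hl ?_ ?_ ?_ hv ?_ (w := cs.simple i * cs.simple j)
    (mul_mem (Generic.simple_mem_left cs i j) (Generic.simple_mem_right cs i j)) (fun K' => full_pair hij K') ?_
  · refine (isMinR_iff cs).2 ?_
    rintro k (rfl | hk)
    · exact hli
    · rw [Set.mem_singleton_iff] at hk
      subst hk
      exact hlj
  · refine comm_of_simple ?_
    rintro k (rfl | hk)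
    · exact hmi
    · rw [Set.mem_singleton_iff] at hk
      subst hk
      exact hmj
  · rintro k (rfl | hk)
    · exact hci
    · rw [Set.mem_singleton_iff] at hk
      subst hk
      exact hcj
  · rintro k (rfl | hk)
    · exact hi
    · rw [Set.mem_singleton_iff] at hk
      subst hk
      exact hj
  · intro h
    have h1 := hl.length_le (v := cs.simple i * cs.simple j * cs.simple i)
      (mul_mem (mul_mem (Generic.simple_mem_left cs i j) (Generic.simple_mem_right cs i j))
        (Generic.simple_mem_left cs i j))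
    rw [← h, Generic.length_three cs hij hM, Generic.length_two cs hij] at h1
    omega

/-- **The same element has role E at `i` and `j`**, `v = w_ij`. -/
theorem same_wJ_false (hth : Δ.Thick) {i j : I} (hij : i ≠ j) (hM : M i j ≠ 2)
    (hci : cs.simple i * wJ cs {i, j} = wJ cs {i, j} * cs.simple i)
    (hcj : cs.simple j * wJ cs {i, j} = wJ cs {i, j} * cs.simple j) {x : G}
    (hv : ∃ c, Δ.δ c (x • c) = wJ cs {i, j}) (hi : RoleE Δ x i (wJ cs {i, j}))
    (hj : RoleE Δ x j (wJ cs {i, j})) : False := by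
  refine same_pair_false S hth hij hM (m := 1) (by rw [mul_one, one_mul]) (by rw [mul_one, one_mul]) ?_ ?_ hci hcj
    (x := x) ?_ ?_ ?_
  · rw [one_mul, cs.length_one, cs.length_simple]; omega
  · rw [one_mul, cs.length_one, cs.length_simple]; omega
  · rw [one_mul]; exact hv
  · rw [one_mul]; exact hi
  · rw [one_mul]; exact hj

/-- **The roles at a bond are mixed**, `v = w_ij ∈ Dis`, `v s_i, v s_j ∉ Dis`. -/
theorem roles_mixed (hth : Δ.Thick) {a b : G} (hab : Good p a b) {i j : I} (hij : i ≠ j) (hM : M i j ≠ 2)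
    (hci : cs.simple i * wJ cs {i, j} = wJ cs {i, j} * cs.simple i)
    (hcj : cs.simple j * wJ cs {i, j} = wJ cs {i, j} * cs.simple j) (hv : wJ cs {i, j} ∈ Dis Δ a b)
    (hi : wJ cs {i, j} * cs.simple i ∉ Dis Δ a b) (hj : wJ cs {i, j} * cs.simple j ∉ Dis Δ a b) :
    (RoleE Δ a⁻¹ i (wJ cs {i, j}) ∧ RoleO Δ b i (wJ cs {i, j}) ∧ RoleO Δ a⁻¹ j (wJ cs {i, j}) ∧
        RoleE Δ b j (wJ cs {i, j})) ∨
      (RoleO Δ a⁻¹ i (wJ cs {i, j}) ∧ RoleE Δ b i (wJ cs {i, j}) ∧ RoleE Δ a⁻¹ j (wJ cs {i, j}) ∧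
        RoleO Δ b j (wJ cs {i, j})) := by
  have : Nonempty C := ⟨hv.1.choose⟩
  have : Finite W := finite_W Δ
  have hl := isLongest_wJ cs ({i, j} : Set I)
  have hd : ∀ k ∈ ({i, j} : Set I), ℓ (wJ cs {i, j} * cs.simple k) < ℓ (wJ cs {i, j}) := by
    intro k hk
    have := (hl.2 (cs.simple k) (simple_mem_WJ cs hk)).1
    rw [cs.length_simple] at this
    omega
  rcases roles S hth hab hv hci (hd i (by simp)) hi with ⟨h1, h2⟩ | ⟨h1, h2⟩ <;>
    rcases roles S hth hab hv hcj (hd j (by simp)) hj with ⟨h3, h4⟩ | ⟨h3, h4⟩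
  · exact (same_wJ_false S hth hij hM hci hcj hv.1 h1 h3).elim
  · exact Or.inl ⟨h1, h2, h3, h4⟩
  · exact Or.inr ⟨h1, h2, h3, h4⟩
  · exact (same_wJ_false S hth hij hM hci hcj hv.2 h2 h4).elim

end Cfsg.Agent.H150.AH
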