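import Mathlib
import Cfsg.Agent.H197.Cls.DisW
import Cfsg.Agent.H330.ClassProd
import Cfsg.Agent.FixBN.TraceSys

/-!
# S2451: the weights `e_w = N_{a⁻¹}(w) N_b(w) / |{(x, y) : δ x y = w}|` (helper150)

* `dn Δ x w` : the number of chambers `c` with `δ c (x c) = w`; `pn Δ w` the number of pairs at distance `w`;
* `wt Δ a b w : ℚ` : the weight;
* `sum_card_eq` : `∑_g #{c : a (g b g⁻¹) c = c, δ c (a⁻¹ c) ∈ A} = |G| ∑_{w ∈ A} wt w`;
-/

set_option autoImplicit false
set_option linter.unusedSectionVars false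

open scoped Pointwise

namespace Cfsg.Agent.H150.AH

open Cfsg.Agent.Tits.Core Cfsg.Agent.Tits.Core.Bldg Cfsg.Agent.Tits.Exchange Cfsg.Agent.Tits Cfsg.Agent.FixBN
open Cfsg.Agent.H197.Cls

/-- counting the elements moving `x` to `y` in a transitive action -/
theorem card_smul_eq {G P : Type*} [Group G] [Finite G] [MulAction G P] [Finite P]
    (htr : ∀ x y : P, ∃ g : G, g • x = y) (x y : P) :
    Nat.card {g : G // g • x = y} * Nat.card P = Nat.card G := by
  obtain ⟨g₀, h0⟩ := htr x y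
  have h1 : Nat.card {g : G // g • x = y} = Nat.card (MulAction.stabilizer G x) := by
    apply Nat.card_congr
    refine ⟨fun g => ⟨g₀⁻¹ * g, ?_⟩, fun g => ⟨g₀ * g, ?_⟩, ?_, ?_⟩
    · rw [MulAction.mem_stabilizer_iff, mul_smul, g.2, inv_smul_eq_iff, h0]
    · rw [mul_smul, MulAction.mem_stabilizer_iff.1 g.2, h0]
    · intro g; exact Subtype.ext (mul_inv_cancel_left _ _)
    · intro g; exact Subtype.ext (inv_mul_cancel_left _ _)
  have h2 : (MulAction.orbit G x) = Set.univ := by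
    rw [Set.eq_univ_iff_forall]
    exact fun z => htr x z
  have h3 := (MulAction.stabilizer G x).card_mul_index
  rw [MulAction.index_stabilizer, h2, Set.ncard_univ] at h3
  rw [h1, h3]

/-- splitting a count by a value -/
theorem card_split {α V : Type*} [Finite α] [Fintype V] (f : α → V) (P : α → Prop) (A : V → Prop) [DecidablePred A] :
    Nat.card {x : α // A (f x) ∧ P x} = ∑ w with A w, Nat.card {x : α // f x = w ∧ P x} := by
  classical
  have e : {x : α // A (f x) ∧ P x} ≃ {z : {w : V // A w} × α // f z.2 = z.1 ∧ P z.2} :=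
    { toFun := fun x => ⟨(⟨f x, x.2.1⟩, x), rfl, x.2.2⟩
      invFun := fun z => ⟨z.1.2, by rw [z.2.1]; exact z.1.1.2, z.2.2⟩
      left_inv := fun x => rfl
      right_inv := fun z => Subtype.ext (Prod.ext (Subtype.ext z.2.1) rfl) }
  rw [Nat.card_congr (e.trans (Equiv.subtypeProdEquivSigmaSubtype (fun (w : {w : V // A w}) (x : α) =>
    f x = w ∧ P x))), Nat.card_sigma]
  symm
  apply Finset.sum_subtype
  intro x
  rw [Finset.mem_filter]
  simp

variable {I : Type*} {M : CoxeterMatrix I} {W : Type*} [Group W] {cs : CoxeterSystem M W} {C : Type*}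

local prefix:100 "ℓ" => cs.length

/-- the number of chambers of displacement `w` -/
noncomputable def dn (Δ : Bldg cs C) {G : Type*} [Group G] [MulAction G C] (x : G) (w : W) : ℕ :=
  Nat.card {c : C // Δ.δ c (x • c) = w}

/-- the number of pairs at distance `w` -/
noncomputable def pn (Δ : Bldg cs C) (w : W) : ℕ := Nat.card {x : C × C // Δ.δ x.1 x.2 = w}

/-- the weight -/
noncomputable def wt (Δ : Bldg cs C) {G : Type*} [Group G] [MulAction G C] (a b : G) (w : W) : ℚ :=
  (dn Δ a⁻¹ w * dn Δ b w : ℕ) / (pn Δ w : ℚ)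

theorem pn_pos (Δ : Bldg cs C) [Finite C] [Nonempty C] (w : W) : 0 < pn Δ w := by
  obtain ⟨x⟩ := ‹Nonempty C›
  obtain ⟨y, hy⟩ := Δ.exists_δ x w
  have : Nonempty {x : C × C // Δ.δ x.1 x.2 = w} := ⟨⟨(x, y), hy⟩⟩
  exact Nat.card_pos

theorem finite_W (Δ : Bldg cs C) [Finite C] [Nonempty C] : Finite W := by
  obtain ⟨x⟩ := ‹Nonempty C›
  exact Finite.of_surjective (Δ.δ x) (Δ.exists_δ x)

variable {Δ : Bldg cs C} {G : Type*} [Group G] [MulAction G C] {p : ℕ} (S : Sys Δ G p)

include S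

/-- **The double counting.** -/
theorem card_triples [F : OppRes.Cox cs] [Finite C] [Finite G] (hth : Δ.Thick) (a b : G) (w : W) :
    Nat.card {x : G × C // Δ.δ x.2 (a⁻¹ • x.2) = w ∧ (x.1 * b * x.1⁻¹) • x.2 = a⁻¹ • x.2} * pn Δ w =
      Nat.card G * (dn Δ a⁻¹ w * dn Δ b w) := by
  classical
  let P := {x : C × C // Δ.δ x.1 x.2 = w}
  let _ : MulAction G P :=
    { smul := fun g x => ⟨(g • x.1.1, g • x.1.2), by rw [S.iso]; exact x.2⟩
      one_smul := fun x => Subtype.ext (Prod.ext (one_smul _ _) (one_smul _ _))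
      mul_smul := fun g h x => Subtype.ext (Prod.ext (mul_smul _ _ _) (mul_smul _ _ _)) }
  have hcoe : ∀ (g : G) (x : P), ((g • x : P) : C × C) = (g • x.1.1, g • x.1.2) := fun _ _ => rfl
  have htr : ∀ x y : P, ∃ g : G, g • x = y := by
    intro x y
    obtain ⟨g, h1, h2⟩ := exists_smul_pair S hth (x := x.1.1) (y := x.1.2) (x' := y.1.1) (y' := y.1.2)
      (by rw [x.2, y.2])
    exact ⟨g, Subtype.ext (Prod.ext h1 h2)⟩
  let X := {c : C // Δ.δ c (a⁻¹ • c) = w}
  let Y := {c : C // Δ.δ c (b • c) = w}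
  let pa : X → P := fun c => ⟨(c, a⁻¹ • (c : C)), c.2⟩
  let pb : Y → P := fun c => ⟨(c, b • (c : C)), c.2⟩
  have e : {x : G × C // Δ.δ x.2 (a⁻¹ • x.2) = w ∧ (x.1 * b * x.1⁻¹) • x.2 = a⁻¹ • x.2} ≃
      {z : (X × Y) × G // z.2 • pb z.1.2 = pa z.1.1} :=
    { toFun := fun x => ⟨((⟨x.1.2, x.2.1⟩, ⟨x.1.1⁻¹ • x.1.2, by
          have h1 := x.2.2
          rw [mul_smul, mul_smul] at h1
          rw [← S.iso x.1.1, smul_inv_smul, h1]
          exact x.2.1⟩), x.1.1), by
            apply Subtype.ext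
            rw [hcoe]
            refine Prod.ext ?_ ?_
            · exact smul_inv_smul _ _
            · have h1 := x.2.2
              rw [mul_smul, mul_smul] at h1
              exact h1⟩
      invFun := fun z => ⟨(z.1.2, z.1.1.1), z.1.1.1.2, by
        have h1 := congrArg Subtype.val z.2
        rw [hcoe] at h1
        have h2 : z.1.2 • (z.1.1.2 : C) = z.1.1.1 := congrArg Prod.fst h1
        have h3 : z.1.2 • b • (z.1.1.2 : C) = a⁻¹ • (z.1.1.1 : C) := congrArg Prod.snd h1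
        change (z.1.2 * b * z.1.2⁻¹) • (z.1.1.1 : C) = a⁻¹ • (z.1.1.1 : C)
        rw [← h3, mul_smul, mul_smul, ← h2, inv_smul_smul]⟩
      left_inv := fun x => rfl
      right_inv := fun z => by
        obtain ⟨⟨⟨x, y⟩, g⟩, hg⟩ := z
        have h1 := congrArg Subtype.val hg
        rw [hcoe] at h1
        have h2 : g • (y : C) = x := congrArg Prod.fst h1
        refine Subtype.ext (Prod.ext (Prod.ext rfl (Subtype.ext ?_)) rfl)
        change g⁻¹ • (x : C) = y
        rw [← h2, inv_smul_smul] }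
  rw [Nat.card_congr (e.trans (Equiv.subtypeProdEquivSigmaSubtype (fun (z : X × Y) (g : G) => g • pb z.2 = pa z.1)))]
  have := Fintype.ofFinite X
  have := Fintype.ofFinite Y
  rw [Nat.card_sigma, Finset.sum_mul]
  have h1 : ∀ z ∈ (Finset.univ : Finset (X × Y)),
      Nat.card {g : G // g • pb z.2 = pa z.1} * pn Δ w = Nat.card G := fun z _ => card_smul_eq htr _ _
  rw [Finset.sum_congr rfl h1, Finset.sum_const, Finset.card_univ, Fintype.card_prod, smul_eq_mul,
    ← Nat.card_eq_fintype_card, ← Nat.card_eq_fintype_card, mul_comm]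
  rfl

/-- **The weighted count** over a set of displacements. -/
theorem card_fixed_on [F : OppRes.Cox cs] [Finite C] [Nonempty C] [Finite G] [Fintype W] (hth : Δ.Thick) (a b : G)
    (A : W → Prop) [DecidablePred A] :
    (Nat.card {x : G × C // A (Δ.δ x.2 (a⁻¹ • x.2)) ∧ (a * (x.1 * b * x.1⁻¹)) • x.2 = x.2} : ℚ) =
      Nat.card G * ∑ w with A w, wt Δ a b w := by
  have h1 : ∀ x : G × C, (a * (x.1 * b * x.1⁻¹)) • x.2 = x.2 ↔ (x.1 * b * x.1⁻¹) • x.2 = a⁻¹ • x.2 := by
    intro x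
    rw [mul_smul, eq_inv_smul_iff]
  have h2 := card_split (α := G × C) (fun x => Δ.δ x.2 (a⁻¹ • x.2))
    (fun x => (a * (x.1 * b * x.1⁻¹)) • x.2 = x.2) A
  rw [h2, Nat.cast_sum, Finset.mul_sum]
  refine Finset.sum_congr rfl fun w _ => ?_
  have h3 := card_triples S hth a b w
  have h4 : (pn Δ w : ℚ) ≠ 0 := by exact_mod_cast (pn_pos Δ w).ne'
  unfold wt
  rw [← mul_div_assoc, eq_div_iff h4]
  simp only [h1]
  exact_mod_cast h3

omit S in
/-- a class function is constant on the products -/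
theorem card_pairs_const [Finite C] [Finite G] {a b c : G} (hc : Cfsg.Agent.H330.ClassProd.AllConj a b c)
    (Q : G → C → Prop) (hQ : ∀ g z x, Q z x → Q (g * z * g⁻¹) (g • x)) :
    Nat.card {x : G × C // Q (a * (x.1 * b * x.1⁻¹)) x.2} = Nat.card G * Nat.card {x : C // Q c x} := by
  classical
  have := Fintype.ofFinite G
  rw [Nat.card_congr (Equiv.subtypeProdEquivSigmaSubtype (fun (g : G) (x : C) => Q (a * (g * b * g⁻¹)) x)),
    Nat.card_sigma]
  have h1 : ∀ g ∈ (Finset.univ : Finset G), Nat.card {x : C // Q (a * (g * b * g⁻¹)) x} = Nat.card {x : C // Q c x} := by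
    intro g _
    have h2 := hc 1 g
    have e : 1 * a * 1⁻¹ * (g * b * g⁻¹) = a * (g * b * g⁻¹) := by group
    rw [e] at h2
    obtain ⟨h, hh⟩ := isConj_iff.1 h2
    rw [← hh]
    symm
    apply Nat.card_congr
    refine ⟨fun x => ⟨h • x, hQ h c x x.2⟩, fun x => ⟨h⁻¹ • x, ?_⟩, fun x => Subtype.ext (inv_smul_smul _ _),
      fun x => Subtype.ext (smul_inv_smul _ _)⟩
    have h3 := hQ h⁻¹ _ _ x.2
    have e2 : h⁻¹ * (h * c * h⁻¹) * h⁻¹⁻¹ = c := by group
    rwa [e2] at h3
  rw [Finset.sum_congr rfl h1, Finset.sum_const, Finset.card_univ, smul_eq_mul, ← Nat.card_eq_fintype_card]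

/-- the number of the fixed chambers -/
noncomputable def fx (C : Type*) {G : Type*} [Group G] [MulAction G C] (z : G) : ℕ := Nat.card {x : C // z • x = x}

/-- **The sum of the weights.** -/
theorem sum_wt [F : OppRes.Cox cs] [Finite C] [Nonempty C] [Finite G] [Fintype W] (hth : Δ.Thick) {a b c : G}
    (hc : Cfsg.Agent.H330.ClassProd.AllConj a b c) : (fx C c : ℚ) = ∑ w, wt Δ a b w := by
  classical
  have h1 := card_fixed_on S hth a b (fun _ => True)
  have h2 := card_pairs_const (C := C) hc (fun z x => z • x = x) (fun g z x hx => by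
    rw [mul_smul, mul_smul, inv_smul_smul, hx])
  have h3 : Nat.card {x : G × C // True ∧ (a * (x.1 * b * x.1⁻¹)) • x.2 = x.2} =
      Nat.card {x : G × C // (a * (x.1 * b * x.1⁻¹)) • x.2 = x.2} :=
    Nat.card_congr (Equiv.subtypeEquivRight fun x => by simp)
  have hG : (Nat.card G : ℚ) ≠ 0 := by exact_mod_cast Nat.card_pos.ne'
  have h4 : (Nat.card G : ℚ) * fx C c = Nat.card G * ∑ w, wt Δ a b w := by
    have h5 : ((Nat.card {x : G × C // (a * (x.1 * b * x.1⁻¹)) • x.2 = x.2} : ℕ) : ℚ) =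
        ((Nat.card G * fx C c : ℕ) : ℚ) := by
      exact_mod_cast h2
    rw [h3, h5] at h1
    push_cast at h1
    rw [h1]
    simp
  exact mul_left_cancel₀ hG h4

/-- `|C| = 1` modulo `p` -/
theorem card_C [F : OppRes.Cox cs] [Finite C] [Nonempty C] [hp : Fact p.Prime] (hth : Δ.Thick) :
    ((Nat.card C : ℕ) : ZMod p) = 1 := by
  obtain ⟨x⟩ := ‹Nonempty C›
  have h1 := S.card_Res hth Set.univ x
  rwa [Δ.Res_univ, Nat.card_univ] at h1

/-- the number of the fixed chambers of a `p`-element is `1` modulo `p` -/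
theorem fx_mod [F : OppRes.Cox cs] [Finite C] [Nonempty C] [hp : Fact p.Prime] (hth : Δ.Thick) {z : G}
    (hz : PE p z) : ((fx C z : ℕ) : ZMod p) = 1 := by
  classical
  have h1 := hz.isPGroup.card_modEq_card_fixedPoints C
  have h2 : Nat.card (MulAction.fixedPoints (Subgroup.zpowers z) C) = fx C z := by
    apply Nat.card_congr
    refine Equiv.subtypeEquivRight fun x => ?_
    constructor
    · intro hx
      exact hx ⟨z, Subgroup.mem_zpowers z⟩
    · rintro hx ⟨g, hg⟩
      have h3 : z ∈ MulAction.stabilizer G x := hx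
      exact (Subgroup.zpowers_le.2 h3) hg
  rw [h2] at h1
  rw [← card_C S hth]
  exact ((ZMod.natCast_eq_natCast_iff _ _ _).2 h1).symm

theorem param_mod [F : OppRes.Cox cs] [Finite C] [Nonempty C] [hp : Fact p.Prime] (hth : Δ.Thick) {i : I} {q : ℕ}
    (hq : Δ.Param i q) : p ∣ q := by
  obtain ⟨x⟩ := ‹Nonempty C›
  have h1 := S.card_Pan_eq hth x i
  rw [hq x, Nat.cast_add, Nat.cast_one] at h1
  rw [← ZMod.natCast_eq_zero_iff]
  simpa using h1

theorem exists_param [F : OppRes.Cox cs] [Finite C] [Nonempty C] (hth : Δ.Thick) (i : I) : ∃ q, Δ.Param i q := by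
  obtain ⟨x⟩ := ‹Nonempty C›
  have hpos : 0 < Nat.card (Δ.Pan i x) := by
    have : Nonempty (Δ.Pan i x) := ⟨⟨x, Δ.self_mem_Pan i x⟩⟩
    exact Nat.card_pos
  refine ⟨Nat.card (Δ.Pan i x) - 1, fun y => ?_⟩
  obtain ⟨g, rfl⟩ := exists_smul S hth x y
  rw [← smul_Pan S]
  have h1 : Nat.card ((g • Δ.Pan i x : Set C)) = Nat.card (Δ.Pan i x) := by
    rw [Nat.card_coe_set_eq, Nat.card_coe_set_eq, Set.ncard_smul_set]
  rw [h1]
  omega

end Cfsg.Agent.H150.AH
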