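import Cfsg.Agent.H150.AH.Weights

/-!
# S2451: the weights are constant on the conjugacy classes of `W` (helper150)
-/

set_option autoImplicit false
set_option linter.unusedSectionVars false

open scoped Pointwise

namespace Cfsg.Agent.H150.AH

open Cfsg.Agent.Tits.Core Cfsg.Agent.Tits.Core.Bldg Cfsg.Agent.Tits.Exchange Cfsg.Agent.Tits Cfsg.Agent.FixBN
open Cfsg.Agent.H197.Cls

variable {I : Type*} {M : CoxeterMatrix I} {W : Type*} [Group W] {cs : CoxeterSystem M W} {C : Type*}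

local prefix:100 "ℓ" => cs.length

variable {Δ : Bldg cs C}

/-- the chambers `≠ x` of a panel -/
theorem card_pan_ne [Finite C] {i : I} {q : ℕ} (hq : Δ.Param i q) (x : C) :
    Nat.card {y : C // y ∈ Δ.Pan i x ∧ y ≠ x} = q := by
  have h1 := hq x
  have h2 : Nat.card {y : C // y ∈ Δ.Pan i x ∧ y ≠ x} = (Δ.Pan i x \ {x}).ncard := by
    rw [← Nat.card_coe_set_eq]
    rfl
  rw [h2, Set.ncard_sdiff_singleton_of_mem (Δ.self_mem_Pan i x), ← Nat.card_coe_set_eq, h1]
  rfl

/-- `pn (v s_i) = q_i pn v` if `v < v s_i` -/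
theorem pn_mul_simple [Finite C] {i : I} {q : ℕ} (hq : Δ.Param i q) {v : W} (hv : ℓ v < ℓ (v * cs.simple i)) :
    pn Δ (v * cs.simple i) = q * pn Δ v := by
  classical
  let X := {x : C × C // Δ.δ x.1 x.2 = v}
  let Z := {z : X × C // z.2 ∈ Δ.Pan i z.1.1.2 ∧ z.2 ≠ z.1.1.2}
  have hss : cs.simple i * cs.simple i = 1 := cs.simple_mul_simple_self i
  have hne : v * cs.simple i ≠ v := fun h => by rw [h] at hv; exact lt_irrefl _ hv
  let f : Z → {x : C × C // Δ.δ x.1 x.2 = v * cs.simple i} := fun z => ⟨(z.1.1.1.1, z.1.2), by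
    have h1 : Δ.δ z.1.1.1.2 z.1.2 = cs.simple i := Δ.δ_eq_of_mem_Pan (Δ.self_mem_Pan i _) z.2.1 z.2.2.symm
    have h2 := Δ.step_lt z.1.1.1.1 z.1.1.1.2 z.1.2 i h1 (by rw [z.1.1.2]; exact hv)
    rwa [z.1.1.2] at h2⟩
  have hf : Function.Bijective f := by
    constructor
    · rintro ⟨⟨⟨⟨x, y⟩, hxy⟩, z⟩, hz, hzn⟩ ⟨⟨⟨⟨x', y'⟩, hxy'⟩, z'⟩, hz', hzn'⟩ h
      have h1 := congrArg Subtype.val h
      have h2 : x = x' := congrArg Prod.fst h1
      have h3 : z = z' := congrArg Prod.snd h1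
      subst h2 h3
      have h4 : y = y' := by
        by_contra hcon
        have h5 : Δ.δ y y' = cs.simple i :=
          Δ.δ_eq_of_mem_Pan (Δ.mem_Pan_symm hz) (Δ.mem_Pan_symm hz') hcon
        have h6 := Δ.step_lt x y y' i h5 (by rw [show Δ.δ x y = v from hxy]; exact hv)
        rw [show Δ.δ x y' = v from hxy', show Δ.δ x y = v from hxy] at h6
        exact hne h6.symm
      subst h4
      rfl
    · rintro ⟨⟨x, z⟩, hxz⟩
      obtain ⟨y, hy, hy'⟩ := Δ.exists_step x z i
      rw [show Δ.δ x z = v * cs.simple i from hxz, mul_assoc, hss, mul_one] at hy'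
      exact ⟨⟨(⟨(x, y), hy'⟩, z), Δ.mem_Pan_symm (Δ.mem_Pan_of_δ hy), (Δ.ne_of_δ_simple hy)⟩, rfl⟩
  unfold pn
  rw [← Nat.card_eq_of_bijective f hf, Nat.card_congr (Equiv.subtypeProdEquivSigmaSubtype
    (fun (x : X) (z : C) => z ∈ Δ.Pan i x.1.2 ∧ z ≠ x.1.2))]
  have := Fintype.ofFinite X
  rw [Nat.card_sigma, Finset.sum_congr rfl (fun x _ => card_pan_ne hq x.1.2), Finset.sum_const, Finset.card_univ,
    smul_eq_mul, ← Nat.card_eq_fintype_card, mul_comm]

theorem pn_inv (v : W) : pn Δ v⁻¹ = pn Δ v := by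
  unfold pn
  apply Nat.card_congr
  refine ⟨fun x => ⟨(x.1.2, x.1.1), ?_⟩, fun x => ⟨(x.1.2, x.1.1), ?_⟩, fun x => rfl, fun x => rfl⟩
  · have h1 := Δ.symm x.1.1 x.1.2
    rw [x.2, inv_inv] at h1
    exact h1
  · have h1 := Δ.symm x.1.1 x.1.2
    rw [x.2] at h1
    exact h1

theorem pn_simple_mul [Finite C] {i : I} {q : ℕ} (hq : Δ.Param i q) {v : W} (hv : ℓ v < ℓ (cs.simple i * v)) :
    pn Δ (cs.simple i * v) = q * pn Δ v := by
  rw [← pn_inv, mul_inv_rev, cs.inv_simple, pn_mul_simple hq, pn_inv]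
  rw [cs.length_inv, ← cs.length_inv (v⁻¹ * _), mul_inv_rev, inv_inv, cs.inv_simple]
  exact hv

theorem pn_conj [Finite C] {i : I} {q : ℕ} (hq : Δ.Param i q) {v : W}
    (hv : ℓ (cs.simple i * v * cs.simple i) = ℓ v + 2) : pn Δ (cs.simple i * v * cs.simple i) = q * q * pn Δ v := by
  have h1 := cs.length_simple_mul v i
  have h2 := cs.length_mul_simple (cs.simple i * v) i
  rw [pn_mul_simple hq (by omega), pn_simple_mul hq (by omega), mul_assoc]

variable {G : Type*} [Group G] [MulAction G C]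

/-- the panel of `c` contains a gate pair `x0`, `x • x0` -/
def NCp (Δ : Bldg cs C) (x : G) (i : I) (c : C) : Prop := ∃ x0 ∈ Δ.Pan i c, NP Δ i x0 (x • x0)

/-- the displacements in such a panel -/
theorem NCp.spec {p : ℕ} (S : Sys Δ G p) {x : G} {i : I} {c : C} (h : NCp Δ x i c) :
    ∃ x0 ∈ Δ.Pan i c, NP Δ i x0 (x • x0) ∧ ∀ y ∈ Δ.Pan i c, y ≠ x0 →
      Δ.δ y (x • y) = cs.simple i * Δ.δ x0 (x • x0) * cs.simple i := by
  obtain ⟨x0, hx0, hn⟩ := h
  refine ⟨x0, hx0, hn, fun y hy hne => ?_⟩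
  have h1 : y ∈ Δ.Pan i x0 := by rw [Δ.Pan_eq_of_mem hx0]; exact hy
  exact hn.dLR h1 hne (smul_mem_Pan S h1) (fun h2 => hne (smul_left_cancel x h2))

/-- **The count**: `dn (s_i v s_i) = q_i dn v`. -/
theorem dn_conj {p : ℕ} (S : Sys Δ G p) [Finite C] {i : I} {q : ℕ} (hq : Δ.Param i q) {x : G} {v : W}
    (hl : ℓ (cs.simple i * v * cs.simple i) = ℓ v + 2) (h1 : ∀ c, Δ.δ c (x • c) = v → NCp Δ x i c)
    (h2 : ∀ c, Δ.δ c (x • c) = cs.simple i * v * cs.simple i → NCp Δ x i c) :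
    dn Δ x (cs.simple i * v * cs.simple i) = q * dn Δ x v := by
  classical
  have hss : cs.simple i * cs.simple i = 1 := cs.simple_mul_simple_self i
  have hcc : ∀ u : W, cs.simple i * (cs.simple i * u * cs.simple i) * cs.simple i = u := by
    intro u
    calc cs.simple i * (cs.simple i * u * cs.simple i) * cs.simple i
        = (cs.simple i * cs.simple i) * u * (cs.simple i * cs.simple i) := by group
      _ = u := by rw [hss, one_mul, mul_one]
  let X := {c : C // Δ.δ c (x • c) = v}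
  let Z := {z : X × C // z.2 ∈ Δ.Pan i z.1 ∧ z.2 ≠ z.1}
  -- a chamber of displacement `v` is the gate
  have hgate : ∀ c, Δ.δ c (x • c) = v → NP Δ i c (x • c) ∧ ∀ y ∈ Δ.Pan i c, y ≠ c →
      Δ.δ y (x • y) = cs.simple i * v * cs.simple i := by
    intro c hc
    obtain ⟨x0, hx0, hn, hx⟩ := (h1 c hc).spec S
    have h3 : c = x0 := by
      by_contra hne
      have h4 := hx c (Δ.self_mem_Pan i c) hne
      rw [hc] at h4
      have h5 := hn.len
      have h6 : cs.simple i * v * cs.simple i = Δ.δ x0 (x • x0) := by rw [h4, hcc]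
      rw [← h4] at h5
      rw [h6] at hl
      omega
    subst h3
    rw [hc] at hx
    exact ⟨hn, hx⟩
  let f : Z → {c : C // Δ.δ c (x • c) = cs.simple i * v * cs.simple i} := fun z =>
    ⟨z.1.2, (hgate z.1.1 z.1.1.2).2 z.1.2 z.2.1 z.2.2⟩
  have hvne : cs.simple i * v * cs.simple i ≠ v := fun h => by rw [h] at hl; omega
  have hf : Function.Bijective f := by
    constructor
    · rintro ⟨⟨⟨c, hc⟩, z⟩, hz, hzn⟩ ⟨⟨⟨c', hc'⟩, z'⟩, hz', hzn'⟩ h
      have h3 : z = z' := congrArg Subtype.val h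
      subst h3
      have h4 : c = c' := by
        by_contra hcon
        have h5 := (hgate c hc).2 c' (Δ.mem_Pan_trans hz (Δ.mem_Pan_symm hz')) (Ne.symm hcon)
        rw [hc'] at h5
        exact hvne h5.symm
      subst h4
      rfl
    · rintro ⟨c, hc⟩
      obtain ⟨x0, hx0, hn, hx⟩ := (h2 c hc).spec S
      have h3 : c ≠ x0 := by
        rintro rfl
        have h5 := hn.len
        rw [hc, hcc] at h5
        omega
      have h4 := hx c (Δ.self_mem_Pan i c) h3
      have h5 : Δ.δ x0 (x • x0) = v := by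
        rw [hc] at h4
        have h6 := congrArg (fun u => cs.simple i * u * cs.simple i) h4
        simp only [hcc] at h6
        exact h6.symm
      exact ⟨⟨(⟨x0, h5⟩, c), Δ.mem_Pan_symm hx0, h3⟩, rfl⟩
  unfold dn
  rw [← Nat.card_eq_of_bijective f hf, Nat.card_congr (Equiv.subtypeProdEquivSigmaSubtype
    (fun (x : X) (z : C) => z ∈ Δ.Pan i x ∧ z ≠ x))]
  have := Fintype.ofFinite X
  rw [Nat.card_sigma, Finset.sum_congr rfl (fun x _ => card_pan_ne hq x.1), Finset.sum_const, Finset.card_univ,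
    smul_eq_mul, ← Nat.card_eq_fintype_card, mul_comm]

theorem dis_symm (a b : G) : Dis Δ b⁻¹ a⁻¹ = Dis Δ a b := by
  ext w
  unfold Dis
  rw [inv_inv]
  exact and_comm

section Cls

variable {p : ℕ} (S : Sys Δ G p)

include S

variable [hp : Fact p.Prime] [F : OppRes.Cox cs] [Finite C]

theorem ncp_inv (hth : Δ.Thick) {a b : G} (hab : Good p a b) {v : W} (hv : v ∈ Dis Δ a b) {i : I}
    (hne : cs.simple i * v ≠ v * cs.simple i) {c : C} (hc : Δ.δ c (a⁻¹ • c) = v) : NCp Δ a⁻¹ i c := by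
  obtain ⟨-, d, hd⟩ := hv
  obtain ⟨g, hg1, hg2⟩ := exists_smul_pair S hth (x := d) (y := b • d) (x' := c) (y' := a⁻¹ • c)
    (by rw [hc, hd])
  have h1 : (g * b * g⁻¹) • c = a⁻¹ • c := by
    rw [mul_smul, mul_smul, ← hg2]
    congr 2
    rw [inv_smul_eq_iff, hg1]
  obtain ⟨x0, hx0, y0, hy0, h, h2, h3, -⟩ := lemY_pair S hth (hab.conjR g) h1 (i := i) (by rw [h1, hc]; exact hne)
  refine ⟨x0, hx0, ?_⟩
  have h4 : a⁻¹ • x0 = y0 := by rw [inv_smul_eq_iff, h2]
  rw [h4]
  exact h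

theorem ncp_right (hth : Δ.Thick) {a b : G} (hab : Good p a b) {v : W} (hv : v ∈ Dis Δ a b) {i : I}
    (hne : cs.simple i * v ≠ v * cs.simple i) {c : C} (hc : Δ.δ c (b • c) = v) : NCp Δ b i c := by
  have h1 := ncp_inv S hth hab.inv (v := v) (by rw [dis_symm]; exact hv) hne (c := c) (by rw [inv_inv]; exact hc)
  rwa [inv_inv] at h1

/-- the longer of the two -/
theorem wt_simple_up [Nonempty C] (hth : Δ.Thick) {a b : G} (hab : Good p a b) {v : W} (hv : v ∈ Dis Δ a b) {i : I}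
    (hl : ℓ (cs.simple i * v * cs.simple i) = ℓ v + 2) :
    wt Δ a b (cs.simple i * v * cs.simple i) = wt Δ a b v := by
  have hss : cs.simple i * cs.simple i = 1 := cs.simple_mul_simple_self i
  have hne : cs.simple i * v ≠ v * cs.simple i := by
    intro h
    rw [h, mul_assoc, hss, mul_one] at hl
    omega
  have hne' : cs.simple i * (cs.simple i * v * cs.simple i) ≠ (cs.simple i * v * cs.simple i) * cs.simple i := by
    intro h
    apply hne
    have h1 : cs.simple i * (cs.simple i * v * cs.simple i) = (cs.simple i * cs.simple i) * (v * cs.simple i) := by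
      group
    have h2 : (cs.simple i * v * cs.simple i) * cs.simple i = (cs.simple i * v) * (cs.simple i * cs.simple i) := by
      group
    rw [h1, h2, hss, one_mul, mul_one] at h
    exact h.symm
  have hv' := (dis_simple S hth hab hv hne).1
  obtain ⟨q, hq⟩ := exists_param S hth i
  have hq0 : (q : ℚ) ≠ 0 := by
    obtain ⟨x⟩ := ‹Nonempty C›
    obtain ⟨y, -, -, hy, -⟩ := hth x i
    have h1 := card_pan_ne hq x
    have : Nonempty {y : C // y ∈ Δ.Pan i x ∧ y ≠ x} := ⟨⟨y, Δ.mem_Pan_of_δ hy, (Δ.ne_of_δ_simple hy).symm⟩⟩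
    have h2 : 0 < Nat.card {y : C // y ∈ Δ.Pan i x ∧ y ≠ x} := Nat.card_pos
    rw [h1] at h2
    exact_mod_cast h2.ne'
  unfold wt
  rw [pn_conj hq hl, dn_conj S hq hl (fun c hc => ncp_inv S hth hab hv hne hc)
      (fun c hc => ncp_inv S hth hab hv' hne' hc),
    dn_conj S hq hl (fun c hc => ncp_right S hth hab hv hne hc) (fun c hc => ncp_right S hth hab hv' hne' hc)]
  have hp0 : (pn Δ v : ℚ) ≠ 0 := by exact_mod_cast (pn_pos Δ v).ne'
  push_cast
  field_simp

/-- **The weights are invariant under the simple reflections.** -/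
theorem wt_simple [Nonempty C] (hth : Δ.Thick) {a b : G} (hab : Good p a b) {v : W} (hv : v ∈ Dis Δ a b) (i : I) :
    wt Δ a b (cs.simple i * v * cs.simple i) = wt Δ a b v := by
  have hss : cs.simple i * cs.simple i = 1 := cs.simple_mul_simple_self i
  by_cases hne : cs.simple i * v = v * cs.simple i
  · rw [hne, mul_assoc, hss, mul_one]
  · obtain ⟨h1, ⟨h2, -, -⟩ | ⟨h2, -, -⟩⟩ := dis_simple S hth hab hv hne
    · exact wt_simple_up S hth hab hv h2
    · have h3 : cs.simple i * (cs.simple i * v * cs.simple i) * cs.simple i = v := by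
        calc cs.simple i * (cs.simple i * v * cs.simple i) * cs.simple i
            = (cs.simple i * cs.simple i) * v * (cs.simple i * cs.simple i) := by group
          _ = v := by rw [hss, one_mul, mul_one]
      have h4 := wt_simple_up S hth hab h1 (i := i) (by rw [h3]; exact h2.symm)
      rw [h3] at h4
      exact h4.symm

/-- **The weights are constant on the classes.** -/
theorem wt_conj [Nonempty C] (hth : Δ.Thick) {a b : G} (hab : Good p a b) {v : W} (hv : v ∈ Dis Δ a b) (w : W) :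
    wt Δ a b (w * v * w⁻¹) = wt Δ a b v := by
  induction w using cs.simple_induction_left with
  | one => simp
  | mul_simple_left w i ih =>
    have e : cs.simple i * w * v * (cs.simple i * w)⁻¹ = cs.simple i * (w * v * w⁻¹) * cs.simple i := by
      rw [mul_inv_rev, cs.inv_simple]
      group
    rw [e, wt_simple S hth hab (dis_conj_mem S hth hab hv w), ih]

end Cls

theorem wt_nonneg (a b : G) (v : W) : 0 ≤ wt Δ a b v := by
  unfold wt
  positivity

theorem wt_pos_iff [Finite C] [Nonempty C] {a b : G} {v : W} : 0 < wt Δ a b v ↔ v ∈ Dis Δ a b := by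
  have hp0 : (0 : ℚ) < pn Δ v := by exact_mod_cast pn_pos Δ v
  have hdn : ∀ x : G, 0 < dn Δ x v ↔ ∃ c, Δ.δ c (x • c) = v := by
    intro x
    unfold dn
    rw [Nat.card_pos_iff]
    constructor
    · rintro ⟨⟨c, hc⟩, -⟩
      exact ⟨c, hc⟩
    · rintro ⟨c, hc⟩
      exact ⟨⟨⟨c, hc⟩⟩, inferInstance⟩
  unfold wt
  rw [div_pos_iff_of_pos_right hp0, Nat.cast_pos, Nat.pos_iff_ne_zero, Ne, mul_eq_zero, not_or, ← Ne, ← Ne,
    ← Nat.pos_iff_ne_zero, ← Nat.pos_iff_ne_zero, hdn, hdn]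
  rfl

theorem wt_eq_zero_iff [Finite C] [Nonempty C] {a b : G} {v : W} : wt Δ a b v = 0 ↔ v ∉ Dis Δ a b := by
  rw [← wt_pos_iff, not_lt]
  exact ⟨fun h => h.le, fun h => le_antisymm h (wt_nonneg a b v)⟩

end Cfsg.Agent.H150.AH
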