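import Cfsg.Agent.H150.AH.WtClass

/-!
# S2451: integrality of the weight of `w_J`, `J` of type `A1^k` (helper150)

* `Role1 Δ x i v` : in the `i`-panel of each chamber of displacement `v` exactly one chamber has displacement `v s_i`;
* `prod_dvd_dn` : `Role1` for all `i ∈ K`, `K` commutative: `∏_K q_i ∣ dn Δ x v`;
* `exists_class` : if all weights are `p`-integral, a class of size prime to `p` is contained in `Dis`.
-/

set_option autoImplicit false
set_option linter.unusedSectionVars false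
set_option linter.unusedVariables false

open scoped Pointwise

namespace Cfsg.Agent.H150.AH

open Cfsg.Agent.Tits.Core Cfsg.Agent.Tits.Core.Bldg Cfsg.Agent.Tits.Exchange Cfsg.Agent.Tits Cfsg.Agent.FixBN
open Cfsg.Agent.H197.Cls Cfsg.Agent.H330.ClassProd

variable {I : Type*} {M : CoxeterMatrix I} {W : Type*} [Group W] {cs : CoxeterSystem M W} {C : Type*}

local prefix:100 "ℓ" => cs.length

variable {Δ : Bldg cs C}

theorem simple_ne_one' (cs : CoxeterSystem M W) (i : I) : cs.simple i ≠ 1 := fun h => by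
  have h1 := cs.length_simple i
  rw [h, cs.length_one] at h1
  omega

/-- the square of two commuting panels -/
theorem exists_square {i j : I} (hij : cs.simple i ≠ cs.simple j)
    (hc : cs.simple i * cs.simple j = cs.simple j * cs.simple i) {x y z : C} (hy : y ∈ Δ.Pan i x)
    (hz : z ∈ Δ.Pan j x) : ∃ t ∈ Δ.Pan i z, t ∈ Δ.Pan j y := by
  rcases hy with rfl | hy
  · exact ⟨z, Δ.self_mem_Pan i z, hz⟩
  rcases hz with rfl | hz
  · exact ⟨y, Or.inr hy, Δ.self_mem_Pan j y⟩
  have h1 : ℓ (cs.simple j) < ℓ (cs.simple j * cs.simple i) := by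
    have h2 := cs.length_mul_simple (cs.simple j) i
    rcases h2 with h2 | h2
    · omega
    · exfalso
      rw [cs.length_simple] at h2
      have h3 : cs.simple j * cs.simple i = 1 := cs.length_eq_zero_iff.1 (by omega)
      apply hij
      calc cs.simple i = (cs.simple j * cs.simple j) * cs.simple i := by rw [cs.simple_mul_simple_self, one_mul]
        _ = cs.simple j * (cs.simple j * cs.simple i) := by rw [mul_assoc]
        _ = cs.simple j := by rw [h3, mul_one]
  have h4 : Δ.δ z y = cs.simple j * cs.simple i := by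
    have h5 := Δ.δ_symm_simple hz
    have h6 := Δ.step_lt z x y i hy (by rw [h5]; exact h1)
    rwa [h5] at h6
  obtain ⟨t, ht, ht'⟩ := Δ.exists_step z y j
  refine ⟨t, Or.inr ?_, Δ.mem_Pan_of_δ ht⟩
  rw [ht', h4, ← hc, mul_assoc, cs.simple_mul_simple_self, mul_one]

theorem square_unique {i j : I} (hij : cs.simple i ≠ cs.simple j) {x y t t' : C} (h1 : t ∈ Δ.Pan i x)
    (h2 : t' ∈ Δ.Pan i x) (h3 : t ∈ Δ.Pan j y) (h4 : t' ∈ Δ.Pan j y) : t = t' := by
  by_contra hne
  apply hij
  rw [← Δ.δ_eq_of_mem_Pan h1 h2 hne, ← Δ.δ_eq_of_mem_Pan h3 h4 hne]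

variable {G : Type*} [Group G] [MulAction G C]

/-- in the `i`-panel of each chamber of displacement `v` exactly one chamber has displacement `v s_i` -/
def Role1 (Δ : Bldg cs C) {G : Type*} [Group G] [MulAction G C] (x : G) (i : I) (v : W) : Prop :=
  ∀ E, Δ.δ E (x • E) = v → ∃! D, D ∈ Δ.Pan i E ∧ Δ.δ D (x • D) = v * cs.simple i

/-- `Role1` for a set of chambers -/
structure HH (Δ : Bldg cs C) {G : Type*} [Group G] [MulAction G C] (x : G) (Y : C → Prop) (v : W) (K : Finset I) :
    Prop where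
  disp : ∀ E, Y E → Δ.δ E (x • E) = v
  role : ∀ i ∈ K, ∀ E, Y E → ∃ D ∈ Δ.Pan i E, Δ.δ D (x • D) = v * cs.simple i ∧ ∀ D' ∈ Δ.Pan i E, D' ≠ D → Y D'

variable {p : ℕ} (S : Sys Δ G p)

include S

/-- the displacement of an adjacent chamber, commuting position -/
theorem disp_adj {x : G} {i : I} {u : W} (hu : cs.simple i * u = u * cs.simple i) {E E' : C}
    (h : Δ.δ E (x • E) = u) (hE : E' ∈ Δ.Pan i E) : Δ.δ E' (x • E') = u ∨ Δ.δ E' (x • E') = u * cs.simple i := by
  have hss : cs.simple i * cs.simple i = 1 := cs.simple_mul_simple_self i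
  rcases eq_or_ne E' E with rfl | hne
  · left; exact h
  have h1 : Δ.δ E' E = cs.simple i := Δ.δ_eq_of_mem_Pan hE (Δ.self_mem_Pan i E) hne
  have h2 : Δ.δ (x • E) (x • E') = cs.simple i := by rw [S.iso]; exact Δ.δ_symm_simple h1
  have h3 := Δ.step_left (z := x • E) h1
  have h4 := Δ.step E' (x • E) (x • E') i h2
  rw [h] at h3
  rcases h3 with h3 | h3 <;> rcases h4 with h4 | h4 <;> rw [h3] at h4
  · left; rw [h4, hu, mul_assoc, hss, mul_one]
  · right; rw [h4, hu]
  · right; exact h4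
  · left; exact h4

theorem HH.step {x : G} {Y : C → Prop} {v : W} {K : Finset I} {i : I} (hiK : i ∉ K)
    (hinj : Function.Injective cs.simple) (hv : ∀ j ∈ insert i (K : Set I), cs.simple j * v = v * cs.simple j)
    (hc : ∀ j ∈ K, cs.simple i * cs.simple j = cs.simple j * cs.simple i)
    (hi : ∀ E, Y E → ∃ D ∈ Δ.Pan i E, Δ.δ D (x • D) = v * cs.simple i ∧ ∀ D' ∈ Δ.Pan i E, D' ≠ D → Y D')
    (h : HH Δ x Y v K) :
    HH Δ x (fun D => Δ.δ D (x • D) = v * cs.simple i ∧ ∃ E, Y E ∧ D ∈ Δ.Pan i E) (v * cs.simple i) K := by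
  have hvi : cs.simple i * v = v * cs.simple i := hv i (Set.mem_insert _ _)
  refine ⟨fun E hE => hE.1, ?_⟩
  rintro j hj D ⟨hD, E, hE, hDE⟩
  have hne : cs.simple i ≠ cs.simple j := fun h1 => hiK (by rw [hinj h1]; exact hj)
  have hcj := hc j hj
  have hvj : cs.simple j * v = v * cs.simple j := hv j (Set.mem_insert_of_mem _ hj)
  have hj1 : cs.simple j ≠ 1 := simple_ne_one' cs j
  have hvij : cs.simple j * (v * cs.simple i) = (v * cs.simple i) * cs.simple j := by
    rw [← mul_assoc, hvj, mul_assoc, mul_assoc, hcj]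
  have hvji : cs.simple i * (v * cs.simple j) = (v * cs.simple j) * cs.simple i := by
    rw [← mul_assoc, hvi, mul_assoc, mul_assoc, hcj]
  obtain ⟨F, hF, hFd, hFo⟩ := h.role j hj E hE
  obtain ⟨F', hF1, hF2⟩ := exists_square hne hcj hDE hF
  have hF'd : Δ.δ F' (x • F') = v * cs.simple i * cs.simple j := by
    rcases disp_adj S hvij hD hF2 with h1 | h1
    · exfalso
      rcases disp_adj S hvji hFd hF1 with h2 | h2
      · rw [h1] at h2
        exact hne (mul_left_cancel h2)
      · rw [h1, mul_assoc, ← hcj] at h2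
        have h3 := mul_left_cancel h2
        have h4 : cs.simple i * 1 = cs.simple i * cs.simple j := by rw [mul_one]; exact h3
        exact hj1 (mul_left_cancel h4).symm
    · exact h1
  refine ⟨F', hF2, hF'd, fun D' hD' hD'F => ?_⟩
  obtain ⟨E', hE1, hE2⟩ := exists_square hne.symm hcj.symm hD' (Δ.mem_Pan_symm hDE)
  -- `E' ∈ Pan j E`, `E' ∈ Pan i D'`
  have hE'F : E' ≠ F := by
    rintro rfl
    exact hD'F (square_unique hne (Δ.mem_Pan_symm hE2) hF1 hD' hF2)
  have hE' : Y E' := hFo E' hE1 hE'F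
  refine ⟨?_, E', hE', Δ.mem_Pan_symm hE2⟩
  rcases disp_adj S hvij hD hD' with h1 | h1
  · exact h1
  · exfalso
    rcases disp_adj S hvi (h.disp E' hE') (Δ.mem_Pan_symm hE2) with h2 | h2
    · rw [h1, mul_assoc] at h2
      have h3 : v * (cs.simple i * cs.simple j) = v * 1 := by rw [mul_one]; exact h2
      have h4 := mul_left_cancel h3
      have h5 : cs.simple i * cs.simple j = cs.simple i * cs.simple i := by
        rw [h4, cs.simple_mul_simple_self]
      exact hne (mul_left_cancel h5).symm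
    · rw [h1] at h2
      have h3 : v * cs.simple i * cs.simple j = v * cs.simple i * 1 := by rw [mul_one]; exact h2
      exact hj1 (mul_left_cancel h3)

theorem HH.card [Finite C] {x : G} {Y : C → Prop} {v : W} {i : I} {q : ℕ} (hq : Δ.Param i q)
    (hd : ∀ E, Y E → Δ.δ E (x • E) = v)
    (hi : ∀ E, Y E → ∃ D ∈ Δ.Pan i E, Δ.δ D (x • D) = v * cs.simple i ∧ ∀ D' ∈ Δ.Pan i E, D' ≠ D → Y D') :
    Nat.card {E : C // Y E} =
      Nat.card {D : C // Δ.δ D (x • D) = v * cs.simple i ∧ ∃ E, Y E ∧ D ∈ Δ.Pan i E} * q := by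
  classical
  have hvne : v * cs.simple i ≠ v := by
    intro h1
    have h2 : v * cs.simple i = v * 1 := by rw [mul_one]; exact h1
    exact simple_ne_one' cs i (mul_left_cancel h2)
  -- uniqueness
  have huniq : ∀ E, Y E → ∀ D ∈ Δ.Pan i E, ∀ D' ∈ Δ.Pan i E, Δ.δ D (x • D) = v * cs.simple i →
      Δ.δ D' (x • D') = v * cs.simple i → D = D' := by
    intro E hE D hD D' hD' h1 h2
    obtain ⟨D0, hD0, h3, h4⟩ := hi E hE
    have h5 : ∀ D ∈ Δ.Pan i E, Δ.δ D (x • D) = v * cs.simple i → D = D0 := by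
      intro D hD h6
      by_contra hne
      have h7 := hd D (h4 D hD hne)
      rw [h6] at h7
      exact hvne h7
    rw [h5 D hD h1, h5 D' hD' h2]
  have hY : ∀ D, (Δ.δ D (x • D) = v * cs.simple i ∧ ∃ E, Y E ∧ D ∈ Δ.Pan i E) → ∀ z ∈ Δ.Pan i D, z ≠ D → Y z := by
    rintro D ⟨h1, E, hE, hDE⟩ z hz hzD
    obtain ⟨D0, hD0, h3, h4⟩ := hi E hE
    have h5 : D = D0 := huniq E hE D hDE D0 hD0 h1 h3
    subst h5
    exact h4 z (Δ.mem_Pan_trans hDE hz) hzD
  let X := {D : C // Δ.δ D (x • D) = v * cs.simple i ∧ ∃ E, Y E ∧ D ∈ Δ.Pan i E}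
  let f : {z : X × C // z.2 ∈ Δ.Pan i z.1 ∧ z.2 ≠ z.1} → {E : C // Y E} :=
    fun z => ⟨z.1.2, hY z.1.1 z.1.1.2 z.1.2 z.2.1 z.2.2⟩
  have hf : Function.Bijective f := by
    constructor
    · rintro ⟨⟨⟨D, hD⟩, z⟩, hz, hzn⟩ ⟨⟨⟨D', hD'⟩, z'⟩, hz', hzn'⟩ h
      have h3 : z = z' := congrArg Subtype.val h
      subst h3
      have h4 : Y z := hY D hD z hz hzn
      have h5 : D = D' := huniq z h4 D (Δ.mem_Pan_symm hz) D' (Δ.mem_Pan_symm hz') hD.1 hD'.1
      subst h5
      rfl
    · rintro ⟨E, hE⟩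
      obtain ⟨D0, hD0, h3, h4⟩ := hi E hE
      refine ⟨⟨(⟨D0, h3, E, hE, hD0⟩, E), Δ.mem_Pan_symm hD0, ?_⟩, rfl⟩
      intro h5
      rw [← show E = D0 from h5, hd E hE] at h3
      exact hvne h3.symm
  rw [← Nat.card_eq_of_bijective f hf, Nat.card_congr (Equiv.subtypeProdEquivSigmaSubtype
    (fun (x : X) (z : C) => z ∈ Δ.Pan i x ∧ z ≠ x))]
  have := Fintype.ofFinite X
  rw [Nat.card_sigma, Finset.sum_congr rfl (fun x _ => card_pan_ne hq x.1), Finset.sum_const, Finset.card_univ,
    smul_eq_mul, ← Nat.card_eq_fintype_card]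

theorem HH.dvd [Finite C] {x : G} (q : I → ℕ) (hinj : Function.Injective cs.simple) (K : Finset I)
    (hq : ∀ i ∈ K, Δ.Param i (q i))
    (hc : ∀ i ∈ K, ∀ j ∈ K, cs.simple i * cs.simple j = cs.simple j * cs.simple i) :
    ∀ (Y : C → Prop) (v : W), (∀ j ∈ K, cs.simple j * v = v * cs.simple j) → HH Δ x Y v K →
      ∏ i ∈ K, q i ∣ Nat.card {E : C // Y E} := by
  classical
  induction K using Finset.induction_on with
  | empty => intro Y v _ _; simp
  | insert i K hiK ih =>
    intro Y v hv h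
    have hci : ∀ j ∈ K, cs.simple i * cs.simple j = cs.simple j * cs.simple i := fun j hj =>
      hc i (Finset.mem_insert_self _ _) j (Finset.mem_insert_of_mem hj)
    have h1 := h.role i (Finset.mem_insert_self _ _)
    rw [Finset.prod_insert hiK, HH.card S (hq i (Finset.mem_insert_self _ _)) h.disp h1, mul_comm]
    refine Nat.mul_dvd_mul ?_ dvd_rfl
    refine ih (fun j hj => hq j (Finset.mem_insert_of_mem hj))
      (fun j hj k hk => hc j (Finset.mem_insert_of_mem hj) k (Finset.mem_insert_of_mem hk)) _ (v * cs.simple i) ?_ ?_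
    · intro j hj
      rw [← mul_assoc, hv j (Finset.mem_insert_of_mem hj), mul_assoc, mul_assoc, hci j hj]
    · refine HH.step S hiK hinj ?_ hci h1 ⟨h.disp, fun j hj => h.role j (Finset.mem_insert_of_mem hj)⟩
      intro j hj
      rcases hj with rfl | hj
      · exact hv j (Finset.mem_insert_self _ _)
      · exact hv j (Finset.mem_insert_of_mem hj)

/-- **`∏_K q_i ∣ dn Δ x v`** if `x` has role 1 at `v` for all `i ∈ K`. -/
theorem prod_dvd_dn [Finite C] {x : G} (q : I → ℕ) (hinj : Function.Injective cs.simple) (K : Finset I)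
    (hq : ∀ i ∈ K, Δ.Param i (q i))
    (hc : ∀ i ∈ K, ∀ j ∈ K, cs.simple i * cs.simple j = cs.simple j * cs.simple i) {v : W}
    (hv : ∀ j ∈ K, cs.simple j * v = v * cs.simple j) (hr : ∀ i ∈ K, Role1 Δ x i v) :
    ∏ i ∈ K, q i ∣ dn Δ x v := by
  refine HH.dvd S q hinj K hq hc (fun E => Δ.δ E (x • E) = v) v hv ⟨fun E hE => hE, fun i hi E hE => ?_⟩
  obtain ⟨D, ⟨h1, h2⟩, h3⟩ := hr i hi E hE
  refine ⟨D, h1, h2, fun D' hD' hne => ?_⟩
  rcases disp_adj S (hv i hi) hE hD' with h4 | h4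
  · exact h4
  · exact absurd (h3 D' ⟨hD', h4⟩) hne

omit S in
/-- `w_K` for a commuting set -/
theorem pn_wJ [F : OppRes.Cox cs] [Finite C] (q : I → ℕ) (K : Finset I) (hq : ∀ i ∈ K, Δ.Param i (q i))
    (hc : ∀ i ∈ K, ∀ j ∈ K, cs.simple i * cs.simple j = cs.simple j * cs.simple i) :
    pn Δ (wJ cs (K : Set I)) = Nat.card C * ∏ i ∈ K, q i := by
  classical
  induction K using Finset.induction_on with
  | empty =>
    have h3 : wJ cs ((∅ : Finset I) : Set I) = 1 := by
      have h4 := F.wJ_mem ((∅ : Finset I) : Set I)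
      rw [Finset.coe_empty, WJ, Set.image_empty, Subgroup.closure_empty, Subgroup.mem_bot] at h4
      rw [Finset.coe_empty]
      exact h4
    rw [h3, Finset.prod_empty, mul_one]
    unfold pn
    apply Nat.card_congr
    refine ⟨fun x => x.1.1, fun x => ⟨(x, x), Δ.δ_self x⟩, fun x => ?_, fun x => rfl⟩
    have h5 := Δ.eq_of_δ_eq_one x.2
    exact Subtype.ext (Prod.ext rfl h5)
  | insert i K hiK ih =>
    have hci : ∀ j ∈ K, cs.simple i * cs.simple j = cs.simple j * cs.simple i := fun j hj =>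
      hc i (Finset.mem_insert_self _ _) j (Finset.mem_insert_of_mem hj)
    have hlt : ℓ (wJ cs (K : Set I)) < ℓ (wJ cs (K : Set I) * cs.simple i) := by
      rcases cs.length_mul_simple (wJ cs (K : Set I)) i with h1 | h1
      · omega
      · exact absurd (F.descent_mem _ _ (F.wJ_mem _) i (by omega)) hiK
    have hw : wJ cs ((insert i K : Finset I) : Set I) = wJ cs (K : Set I) * cs.simple i := by
      symm
      refine F.eq_wJ_of_descents ?_ ?_
      · refine mul_mem ?_ (OppRes.simple_mem_WJ (by simp))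
        exact OppRes.WJ_mono (by simp) (F.wJ_mem _)
      · intro j hj
        rw [Finset.coe_insert, Set.mem_insert_iff] at hj
        rcases hj with rfl | hj
        · rw [mul_assoc, cs.simple_mul_simple_self, mul_one]
          exact hlt
        · rw [mul_assoc, hci j hj, ← mul_assoc]
          have h1 : ℓ (wJ cs (K : Set I) * cs.simple j) < ℓ (wJ cs (K : Set I)) := by
            have h2 := F.len_wJ_mul (OppRes.simple_mem_WJ (cs := cs) hj)
            rw [cs.length_simple] at h2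
            omega
          have h3 := cs.length_mul_simple (wJ cs (K : Set I) * cs.simple j) i
          omega
    rw [hw, pn_mul_simple (hq i (Finset.mem_insert_self _ _)) hlt,
      ih (fun j hj => hq j (Finset.mem_insert_of_mem hj))
        (fun j hj k hk => hc j (Finset.mem_insert_of_mem hj) k (Finset.mem_insert_of_mem hk)),
      Finset.prod_insert hiK]
    ring

omit S in
theorem comm_wJ [F : OppRes.Cox cs] {J : Set I} (hc : ∀ i ∈ J, ∀ j ∈ J, cs.simple i * cs.simple j = cs.simple j * cs.simple i)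
    {i : I} (hi : i ∈ J) : cs.simple i * wJ cs J = wJ cs J * cs.simple i := by
  have h1 : WJ cs J ≤ Subgroup.centralizer {cs.simple i} := by
    rw [WJ, Subgroup.closure_le]
    rintro _ ⟨j, hj, rfl⟩
    rw [SetLike.mem_coe, Subgroup.mem_centralizer_singleton_iff]
    exact hc j hj i hi
  have h2 := h1 (F.wJ_mem J)
  rw [Subgroup.mem_centralizer_singleton_iff] at h2
  exact h2.symm

/-- **`wt w_K` is `p`-integral** (`|C|` is `1` modulo `p`). -/
theorem wt_int [F : OppRes.Cox cs] [Finite C] [Nonempty C] (hth : Δ.Thick) {a b : G} (K : Finset I)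
    (hc : ∀ i ∈ K, ∀ j ∈ K, cs.simple i * cs.simple j = cs.simple j * cs.simple i)
    (hr : ∀ i ∈ K, Role1 Δ a⁻¹ i (wJ cs (K : Set I)) ∨ Role1 Δ b i (wJ cs (K : Set I))) :
    ∃ m : ℕ, wt Δ a b (wJ cs (K : Set I)) * Nat.card C = m := by
  classical
  choose q hq using fun i => exists_param S hth i
  set v := wJ cs (K : Set I) with hvdef
  have hv : ∀ j ∈ K, cs.simple j * v = v * cs.simple j := fun j hj => comm_wJ hc hj
  have h1 : ∏ i ∈ K with Role1 Δ a⁻¹ i v, q i ∣ dn Δ a⁻¹ v :=
    prod_dvd_dn S q F.inj _ (fun i _ => hq i)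
      (fun i hi j hj => hc i (Finset.mem_of_mem_filter _ hi) j (Finset.mem_of_mem_filter _ hj))
      (fun j hj => hv j (Finset.mem_of_mem_filter _ hj)) (fun j hj => (Finset.mem_filter.1 hj).2)
  have h2 : ∏ i ∈ K with ¬ Role1 Δ a⁻¹ i v, q i ∣ dn Δ b v :=
    prod_dvd_dn S q F.inj _ (fun i _ => hq i)
      (fun i hi j hj => hc i (Finset.mem_of_mem_filter _ hi) j (Finset.mem_of_mem_filter _ hj))
      (fun j hj => hv j (Finset.mem_of_mem_filter _ hj))
      (fun j hj => (hr j (Finset.mem_of_mem_filter _ hj)).resolve_left (Finset.mem_filter.1 hj).2)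
  have h3 := Nat.mul_dvd_mul h1 h2
  rw [Finset.prod_filter_mul_prod_filter_not] at h3
  obtain ⟨m, hm⟩ := h3
  refine ⟨m, ?_⟩
  have h4 := pn_wJ (Δ := Δ) q K (fun i _ => hq i) hc
  rw [← hvdef] at h4
  have h5 := pn_pos Δ v
  rw [h4] at h5
  have hC0 : (Nat.card C : ℚ) ≠ 0 := by
    intro h6
    rw [Nat.cast_eq_zero] at h6
    rw [h6, zero_mul] at h5
    exact lt_irrefl _ h5
  have hP0 : ((∏ i ∈ K, q i : ℕ) : ℚ) ≠ 0 := by
    intro h6
    rw [Nat.cast_eq_zero] at h6
    rw [h6, mul_zero] at h5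
    exact lt_irrefl _ h5
  unfold wt
  rw [hm, h4, Nat.cast_mul, Nat.cast_mul]
  field_simp

/-- **If all the weights are `p`-integral**, `Dis` contains a class of size prime to `p`. -/
theorem exists_class [F : OppRes.Cox cs] [Finite C] [Nonempty C] [Finite G] [hp : Fact p.Prime] (hth : Δ.Thick)
    {a b c : G} (hc : AllConj a b c) (hpe : PE p c)
    (hint : ∀ v ∈ Dis Δ a b, ∃ m : ℕ, wt Δ a b v * Nat.card C = m) :
    ∃ v ∈ Dis Δ a b, ¬ p ∣ Nat.card {w : W // ConjClasses.mk w = ConjClasses.mk v} := by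
  classical
  by_contra hcon
  push Not at hcon
  have hab : Good p a b := by
    intro g
    have h2 := hc 1 g
    have e : 1 * a * 1⁻¹ * (g * b * g⁻¹) = a * (g * b * g⁻¹) := by group
    rw [e] at h2
    obtain ⟨h, hh⟩ := isConj_iff.1 h2
    rw [← hh]
    exact hpe.conj h
  have := finite_W Δ
  have := Fintype.ofFinite W
  have hex : ∀ v : W, ∃ m : ℕ, wt Δ a b v * Nat.card C = m := by
    intro v
    by_cases hv : v ∈ Dis Δ a b
    · exact hint v hv
    · exact ⟨0, by rw [wt_eq_zero_iff.2 hv, zero_mul, Nat.cast_zero]⟩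
  choose f hf using hex
  have hC0 : (Nat.card C : ℚ) ≠ 0 := by exact_mod_cast Nat.card_pos.ne'
  have h0 : ∀ v, v ∉ Dis Δ a b → f v = 0 := by
    intro v hv
    have h1 := hf v
    rw [wt_eq_zero_iff.2 hv, zero_mul] at h1
    exact_mod_cast h1.symm
  have hsum : fx C c * Nat.card C = ∑ w, f w := by
    have h1 := sum_wt S hth hc
    have h2 : (fx C c : ℚ) * Nat.card C = ∑ w, (f w : ℚ) := by
      rw [h1, Finset.sum_mul]
      exact Finset.sum_congr rfl fun w _ => hf w
    exact_mod_cast h2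
  have hfc : ∀ v w : W, ConjClasses.mk w = ConjClasses.mk v → f w = f v := by
    intro v w hvw
    rw [ConjClasses.mk_eq_mk_iff_isConj, isConj_comm, isConj_iff] at hvw
    obtain ⟨x, rfl⟩ := hvw
    by_cases hv : v ∈ Dis Δ a b
    · have h1 := wt_conj S hth hab hv x
      have h2 : (f (x * v * x⁻¹) : ℚ) = f v := by rw [← hf, ← hf, h1]
      exact_mod_cast h2
    · have h1 : x * v * x⁻¹ ∉ Dis Δ a b := fun h2 => hv (by
        have h3 := dis_conj_mem S hth hab h2 x⁻¹
        have e : x⁻¹ * (x * v * x⁻¹) * x⁻¹⁻¹ = v := by group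
        rwa [e] at h3)
      rw [h0 _ hv, h0 _ h1]
  have hdvd : p ∣ ∑ w, f w := by
    have : Finite (ConjClasses W) := inferInstance
    have := Fintype.ofFinite (ConjClasses W)
    rw [← Finset.sum_fiberwise Finset.univ (fun w : W => ConjClasses.mk w) f]
    refine Finset.dvd_sum fun k _ => ?_
    obtain ⟨v, rfl⟩ := ConjClasses.exists_rep k
    have h1 : ∀ w ∈ Finset.univ.filter (fun w : W => ConjClasses.mk w = ConjClasses.mk v), f w = f v := fun w hw =>
      hfc v w (Finset.mem_filter.1 hw).2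
    rw [Finset.sum_congr rfl h1, Finset.sum_const, smul_eq_mul]
    by_cases hv : v ∈ Dis Δ a b
    · refine Dvd.dvd.mul_right ?_ _
      have h2 := hcon v hv
      rwa [Nat.card_eq_fintype_card, Fintype.card_subtype] at h2
    · rw [h0 v hv, mul_zero]
      exact dvd_zero _
  rw [← hsum] at hdvd
  have h8 := (ZMod.natCast_eq_zero_iff _ p).2 hdvd
  rw [Nat.cast_mul, fx_mod S hth hpe, card_C S hth, mul_one] at h8
  exact one_ne_zero h8

/-- **The main form**: each `w_J` in `Dis` which centralises `W_J` has `J` of type `A1^k` and roles. -/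
theorem exists_class_of_roles [F : OppRes.Cox cs] [Finite C] [Nonempty C] [Finite G] [hp : Fact p.Prime]
    (hth : Δ.Thick) {a b c : G} (hc : AllConj a b c) (hpe : PE p c)
    (hJ : ∀ J : Set I, wJ cs J ∈ Dis Δ a b → (∀ i ∈ J, cs.simple i * wJ cs J = wJ cs J * cs.simple i) →
      (∀ i ∈ J, ∀ j ∈ J, cs.simple i * cs.simple j = cs.simple j * cs.simple i) ∧
      ∀ i ∈ J, Role1 Δ a⁻¹ i (wJ cs J) ∨ Role1 Δ b i (wJ cs J)) :
    ∃ v ∈ Dis Δ a b, ¬ p ∣ Nat.card {w : W // ConjClasses.mk w = ConjClasses.mk v} := by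
  classical
  have hab : Good p a b := by
    intro g
    have h2 := hc 1 g
    have e : 1 * a * 1⁻¹ * (g * b * g⁻¹) = a * (g * b * g⁻¹) := by group
    rw [e] at h2
    obtain ⟨h, hh⟩ := isConj_iff.1 h2
    rw [← hh]
    exact hpe.conj h
  have := finite_W Δ
  have : Finite I := Finite.of_injective _ F.inj
  refine exists_class S hth hc hpe fun v hv => ?_
  obtain ⟨w, J, h1, h2⟩ := exists_wJ S hth hab hv
  have h3 : wJ cs J ∈ Dis Δ a b := by
    rw [← h1]
    exact dis_conj_mem S hth hab hv w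
  obtain ⟨h4, h5⟩ := hJ J h3 h2
  have h6 := wt_conj S hth hab hv w
  rw [h1] at h6
  rw [← h6]
  have hK : ((Set.toFinite J).toFinset : Set I) = J := (Set.toFinite J).coe_toFinset
  have h7 := wt_int S hth (a := a) (b := b) (Set.toFinite J).toFinset
    (fun i hi j hj => h4 i (by simpa using hi) j (by simpa using hj))
    (fun i hi => by rw [hK]; exact h5 i (by simpa using hi))
  rwa [hK] at h7

end Cfsg.Agent.H150.AH
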